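import Cfsg.Agent.H23.Vn1

/-! The character-theoretic piece `PA'` of `H23.Vn` (`pA`). -/
set_option autoImplicit false
namespace H28.VnA
open Subgroup Cfsg H5 H8 H23.Vn
open scoped commutatorElement ComplexConjugate
universe u

theorem pA : PA'.{u} := by
  classical
  intro G _ _ g χ g1 hχ h1 hg ho
  haveI := Fintype.ofFinite G
  have off : ∀ x, x ∉ commutator G → χ x = 0 := fun x hx => by
    obtain ⟨lam, -, l2⟩ := exists_lin_ne_one (le_refl (commutator G)) hx
    have e : (χ * fun y => (lam y : ℂ)) = χ := by
      by_contra e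
      exact mul_ne_zero hg (Units.ne_zero (lam g)) (ho _ (hχ.mul_hom lam) (by rwa [charDegree_mul_hom]) e)
    have := congrFun e x
    by_contra k
    exact l2 (Units.ext (mul_left_cancel₀ k (this.trans (mul_one _).symm)))
  have gH : g ∈ commutator G := by_contra fun k => hg (off g k)
  have c1 : χ 1 ≠ 1 := fun e => h1 (hχ.isCharacter.charDegree_eq_one_iff.2 e)
  have col : ∀ h ∈ commutator G, ¬ IsConj g h → ((commutator G).index : ℂ) + χ g * conj (χ h) = 0 := by
    intro h hh nc
    rw [← sum_irr_mul_conj_of_not_isConj nc, ← card_linear_irr, Nat.card_eq_fintype_card, Fintype.card_subtype,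
      Finset.card_filter, Nat.cast_sum]
    have := Finset.sum_ite_eq' Finset.univ (⟨χ, hχ⟩ : IrrCharacter G) fun _ => χ g * conj (χ h)
    rw [if_pos (Finset.mem_univ _)] at this
    rw [← this, ← Finset.sum_add_distrib]
    refine Finset.sum_congr rfl fun ψ _ => ?_
    by_cases e : (ψ : G → ℂ) 1 = 1
    · have k := ψ.2.commutator_le_charKer_iff.2 e
      rw [if_pos e, if_neg (fun e' => c1 (by rw [e'] at e; exact e)), apply_eq_of_mem_charKer (k gH),
        apply_eq_of_mem_charKer (k hh), e]
      simp
    · rw [if_neg e]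
      split_ifs with e'
      · subst e'; simp
      · rw [ho ψ ψ.2 (fun k => e (ψ.2.isCharacter.charDegree_eq_one_iff.1 k)) fun k => e' (Subtype.ext k)]
        simp
  have c0 := col 1 (one_mem _) (by simpa using g1)
  rw [hχ.isCharacter.conj_apply_one] at c0
  have val : χ g = -(((commutator G).index : ℂ) / χ 1) := by
    have := hχ.apply_one_ne_zero
    field_simp
    linear_combination c0
  have cl : ∀ h ∈ commutator G, h ∉ charKer χ → IsConj g h := fun h hh k => by
    by_contra nc
    have e : conj (χ h) = χ 1 := mul_left_cancel₀ hg (by linear_combination col h hh nc - c0)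
    exact k (hχ.mem_charKer.2 (by simpa [hχ.isCharacter.conj_apply_one] using congrArg conj e))
  refine ⟨gH, val, fun k => ?_, cl, off, fun ψ hψ d1 le => ?_⟩
  · rw [apply_eq_of_mem_charKer k, ← hχ.isCharacter.coe_charDegree] at c0
    have : (commutator G).index + charDegree χ * charDegree χ = 0 := by exact_mod_cast c0
    exact (commutator G).index_ne_zero_of_finite (by omega)
  · by_contra ne
    refine (not_le_ker_iff hψ).2 d1 (le_ker_of_constituent (S := commutator G) le_rfl hψ isCharacter_one ?_
      (le_top.trans charKer_one.ge))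
    have : ∀ h : commutator G, ψ h * conj (1 : ℂ) = if (h : G) ∈ charKer χ then ψ 1 else 0 := fun h => by
      split_ifs with k
      · simp [apply_eq_of_mem_charKer (le k)]
      · simp [← hψ.isClassFunction.eq_of_isConj (cl h h.2 k), ho ψ hψ d1 ne]
    simp only [classInner, this]
    rw [← Finset.sum_filter, Finset.sum_const, nsmul_eq_mul]
    refine mul_ne_zero (inv_ne_zero (Nat.cast_ne_zero.2 Nat.card_pos.ne')) (mul_ne_zero (Nat.cast_ne_zero.2 ?_)
      hψ.apply_one_ne_zero)
    exact Finset.card_ne_zero.2 ⟨1, by simp⟩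

end H28.VnA
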