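import Cfsg.Agent.H28.FG

/-! 3-transposition groups with disconnected commuting graph: the group generated by a component. -/

set_option autoImplicit false

namespace H28
open Cfsg Subgroup
variable {G : Type*} [Group G] {D : Set G} {a d : G}

theorem TC.ncard_index (hD : TC D) (hd : d ∈ D) : D.ncard = (centralizer {d}).index := by
  rw [show D = MulAction.orbit (ConjAct G) d from Set.ext fun y => ⟨hD.tr d hd y, fun ⟨g, q⟩ => q ▸ hD.cj g d hd⟩,
    ← MulAction.index_stabilizer, centralizer_eq_comap_stabilizer]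
  exact (index_comap_of_surjective _ ConjAct.toConjAct.surjective).symm

variable [Finite G] (hD : TC D) (hG : Gd D) (hZ : center G = ⊥)
include hD hG hZ

theorem TC.cent_layer {c : G} (h : ∀ y ∈ layer G, Commute y c) : c = 1 :=
  mem_bot.1 (hZ ▸ hD.cent_gfit ((hD.vt_iff (two_of_w hG.w)).1 hG.vt) (hD.wt_iff.1 hG.wt) h)

theorem TC.disc (hn : ¬ ∀ a ∈ D, ∀ b ∈ D, Cn D a b) (hd : d ∈ D) :
    PC (ins (cmp D d)) ∧ center (closure (cmp D d)) = ⊥ ∧ commutator (closure (cmp D d)) ≠ ⊤ ∧
    Nonempty (commutator (closure (cmp D d)) ≃* layer G) ∧ center (layer G) = ⊥ ∧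
    (cmp D d).ncard * (cmp D d).ncard ∣ Nat.card (closure (cmp D d)) := by
  have q := hD.qs hG
  have N : (layer G).Normal := H17.layer_normal
  have s := @t3_sq _ _ _ hD.t3
  have sub := cmp_sub hd
  have cl : ∀ a ∈ D, ccl (layer G) a ⊆ cmp D a := fun a ha _ ⟨g, hg, e⟩ => e ▸ hD.cn_layer hG hg ha
  have pl : ∀ {E : Set G}, prods E ≤ closure E := fun {E} => (closure_le _).2 (by
    rintro _ ⟨u, hu, v, hv, rfl⟩; exact mul_mem (subset_closure hu) (subset_closure hv))
  have le : layer G ≤ closure (cmp D d) := (hD.qs_le_prods q hd).trans (pl.trans (closure_mono (cl d hd)))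
  have T : TC (ins (cmp D d)) := LC.tc ⟨hD.T3.cmp hd, ncCon_of_class (hD.T3.cmp hd) fun a ha b hb => by
    obtain ⟨_, ⟨g, hg, rfl⟩, n⟩ : ∃ x ∈ ccl (layer G) a, ¬ Commute x b := by
      by_contra! k
      exact t3_ne hD.t3 (sub hb) (hD.cent_layer hG hZ fun y hy => mem_centralizer_singleton_iff.1
        ((closure_le (centralizer {b})).2 (fun x hx => mem_centralizer_singleton_iff.2 (k x hx)) (pl (hD.qs_le_prods q (sub ha) hy))))
    have m := hD.cj g a (sub ha)
    exact ⟨g * a * g⁻¹ * b * g, mul_mem (mul_mem (subset_closure (Cn.trans ha (hD.cn_layer hG hg (sub ha)))) (subset_closure hb)) (le hg),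
      .trans (by group) (t3_conj hD.t3 m (sub hb) n)⟩⟩
  have cm : (commutator (closure (cmp D d))).map (Subgroup.subtype _) = layer G := by
    rw [map_subtype_commutator]
    refine le_antisymm ?_ ((H17.qs_perfect q).ge.trans (commutator_mono le le))
    have : (closure (cmp D d)).map (QuotientGroup.mk' (layer G)) ≤ zpowers (d : G ⧸ layer G) := map_le_iff_le_comap.2
      ((closure_le _).2 fun x hx => mem_zpowers_iff.2 ⟨1, (zpow_one _).trans ((hD.mk_eq hG hd (sub hx)).2 hx)⟩)
    rw [← QuotientGroup.ker_mk' (layer G), ← Subgroup.map_eq_bot_iff, map_commutator, ← le_bot_iff,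
      ← commutator_eq_bot_iff_le_centralizer.2 (le_centralizer (zpowers (d : G ⧸ layer G)))]
    exact commutator_mono this this
  have e := (equivMapOfInjective _ _ (subtype_injective _)).trans (MulEquiv.subgroupCongr cm)
  have z : center (layer G) = ⊥ := eq_bot_iff.2 fun y hy => Subtype.ext (hD.cent_layer hG hZ fun k hk =>
    congrArg Subtype.val (mem_center_iff.1 hy ⟨k, hk⟩))
  have := q.2
  have := ((QuotientGroup.quotientMulEquivOfEq z).trans QuotientGroup.quotientBot).symm.isSimpleGroup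
  obtain ⟨b, hb⟩ := hG.nbne d hd
  have md : d ∈ cmp D d := Cn.refl d
  refine ⟨.of_simple T e.isSimpleGroup ⟨inE md, md, inE (Cn.adj hd hb.1 hb.2.2), Cn.adj hd hb.1 hb.2.2,
    fun k => hb.2.1 (congrArg Subtype.val k).symm, comm_ins.2 hb.2.2⟩, eq_bot_iff.2 fun y hy => Subtype.ext (hD.cent_layer hG hZ
    fun k hk => congrArg Subtype.val (mem_center_iff.1 hy ⟨k, le hk⟩)), fun k => hn fun a ha b hb => (hD.cn_iff_mem hG ha hb).2
    (hD.eq_top_of_mem hd (cm.le ⟨inE md, k.ge trivial, rfl⟩) ▸ mem_top _), ⟨e⟩, z, ?_⟩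
  obtain ⟨a, ha, n⟩ : ∃ a ∈ D, ¬ Cn D d a := by
    by_contra! k
    exact hn fun a ha b hb => (k a ha).symm.trans (k b hb)
  have o : ccl (centralizer {d} ⊓ layer G) a = cmp D a := Set.Subset.antisymm ((ccl_mono inf_le_right a).trans (cl a ha)) fun y hy => by
    induction hy with
    | refl => exact self_mem_ccl _ _
    | @tail x y h k ih =>
      have n1 : ¬ Commute d x := fun c => n ((Cn.adj hd k.1 c).trans (Cn.symm h))
      have n2 : ¬ Commute d y := fun c => n ((Cn.adj hd k.2.1 c).trans ((Cn.adj k.2.1 k.1 k.2.2.symm).trans (Cn.symm h)))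
      have m := (hD.cn_iff_mem hG k.1 k.2.1).1 (Cn.adj k.1 k.2.1 k.2.2)
      have := ccl_conj ih (g := x * y * (d * (x * y) * d⁻¹)) ⟨mem_centralizer_singleton_iff.2 (by
        have := ((t3_S4 hD.t3 k.1 k.2.1 hd k.2.2 n1 n2).mul_right (Commute.refl d).inv_right).symm
        rwa [inv_of_sq ((pow_two _).symm.trans (sq_of_comm (s k.1) (s k.2.1) k.2.2)), mul_assoc, mul_assoc, ← mul_assoc d] at this),
        mul_mem m (N.conj_mem _ m d)⟩
      rwa [show ∀ g k : G, g * k * x * (g * k)⁻¹ = g * (k * x * k⁻¹) * g⁻¹ by intros; group, vr_conj_eq hD.t3 k.1 k.2.1 hd k.2.2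
        (fun c => n1 c.symm) (fun c => n2 c.symm), conj_fix k.2.2 rfl] at this
  have c1 := hD.ncard_cmp hG hd
  have c2 := hD.ncard_cmp hG ha
  rw [c1, Nat.mul_left_cancel_iff ((Set.ncard_pos (Set.toFinite _)).2 (Set.Nonempty.image _ ⟨d, hd⟩))] at c2
  rw [← (centralizer {inE md}).index_mul_card, ← T.ncard_index md, ncard_ins]
  refine Nat.mul_dvd_mul_left _ ?_
  rw [c2, ← o, ← card_map_of_injective (subtype_injective _)]
  exact (ncard_ccl_dvd _ _).trans (card_dvd_of_le fun g hg => ⟨⟨g, le hg.2⟩, mem_centralizer_singleton_iff.2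
    (Subtype.ext (mem_centralizer_singleton_iff.1 hg.1)), rfl⟩)

end H28
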