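import Cfsg.Agent.H28.DcA
import Cfsg.Agent.S5375
import Cfsg.Agent.S0247
import Cfsg.Agent.S0254
import Cfsg.Agent.S0283
import Cfsg.Agent.S0301
import Cfsg.Agent.S0302
import Cfsg.Agent.S0303
import Cfsg.Agent.S0307
import Cfsg.Agent.S0813
import Cfsg.Agent.S0814
import Cfsg.Agent.S0815
import Cfsg.Agent.S0816
import Cfsg.Agent.S0817
import Cfsg.Agent.S0818
import Cfsg.Agent.S2119

/-! Outer automorphism groups of the derived groups of the primitive 3-transposition groups. -/

set_option autoImplicit false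

namespace H28
open Cfsg Subgroup H11 H11.PForm Cfsg.Agent Module
variable {G X Y : Type*} [Group G] [Group X] [Group Y] {E : Set G}

/-- `|Out X|` is prime to `r` in the weak form needed -/
def Ok (r : ℕ) (X : Type*) [Group X] : Prop := ∃ k, ¬ r ∣ k ∧ Nat.card (MulAut X) = k * Nat.card X

theorem Ok.of {r : ℕ} (h : Ok r Y) (e : X ≃* Y) : Ok r X := by
  rwa [Ok, Nat.card_congr (MulAut.congr e).toEquiv, Nat.card_congr e.toEquiv]

theorem ok_psl {F : Type*} [Field F] [Fintype F] (p f : ℕ) [Fact p.Prime] (hf : 1 ≤ f) (hF : Fintype.card F = p ^ f) (n : ℕ) (hn : 2 ≤ n)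
    (h2 : n = 2 → 4 ≤ p ^ f) (h : ¬ 3 ∣ (if n = 2 then 1 else 2) * f * Nat.gcd n (p ^ f - 1)) :
    Ok 3 (Matrix.ProjectiveSpecialLinearGroup (Fin n) F) := by
  obtain ⟨g, h1, h3⟩ := S0307.result hF n (by omega)
  have : NeZero (Nat.gcd n (p ^ f - 1)) := ⟨(Nat.gcd_pos_of_pos_left _ (by omega)).ne'⟩
  refine ⟨_, h, ?_⟩
  rw [S0813.result p f hf hF n hn h2, ← g.ker.index_mul_card, index_ker, MonoidHom.range_eq_top.2 h1, card_top, h3, ← mul_assoc,
    ← Nat.card_congr (MonoidHom.ofInjective Matrix.ProjectiveSpecialLinearGroup.toPGL_injective).toEquiv]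
  simp

theorem ok_alt {n : ℕ} (h : 5 ≤ n) : Ok 3 (commutator (Equiv.Perm (Fin n))) := by
  rw [alternatingGroup.commutator_perm_eq (by simpa using h)]
  by_cases h6 : n = 6
  · subst h6
    have := Fintype.ofFinite (GaloisField 3 2)
    have c9 : Fintype.card (GaloisField 3 2) = 3 ^ 2 := by rw [← Nat.card_eq_fintype_card, GaloisField.card 3 2 two_ne_zero]
    obtain ⟨e⟩ := S0254.result c9
    exact (ok_psl 3 2 one_le_two c9 2 le_rfl (by decide) (by decide)).of e.symm
  · have : Nontrivial (Fin n) := Fin.nontrivial_iff_two_le.2 (by omega)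
    exact ⟨2, by decide, by rw [← Nat.card_congr (Equiv.ofBijective _ (S2119.result n (by omega) h6)), ← alternatingGroup.index_eq_two (α := Fin n),
      index_mul_card]⟩

theorem fin2_cases : ∀ u v x : Fin 2 → ZMod 2, u ≠ 0 → v ≠ 0 → u ≠ v → x = 0 ∨ x = u ∨ x = v ∨ x = u + v := by
  intro u; revert u; set_option synthInstance.maxSize 1000 in decide

/-- the two triality cases -/
def Trl (X : Type*) [Group X] : Prop := Ok 9 X ∧ (Nonempty (X ≃* Omega (ZMod 2) (quadFormPlus 4 (ZMod 2))) ∨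
  Nonempty (X ≃* POmega (ZMod 3) (quadFormPlus 4 (ZMod 3))))

theorem PC.out [Finite G] (hE : T3 E) (hP : PC (ins E)) (hZ : center (closure E) = ⊥) (hn : commutator (closure E) ≠ ⊤)
    (hz : center (commutator (closure E)) = ⊥) (hq : E.ncard * E.ncard ∣ Nat.card (closure E)) :
    Ok 3 (commutator (closure E)) ∨ Trl (commutator (closure E)) := by
  obtain ⟨d, hd, b, hb, n, c⟩ := hP.w
  have e0 := ((QuotientGroup.quotientMulEquivOfEq hz).trans QuotientGroup.quotientBot).symm
  have sim : ¬ IsSimpleGroup (closure E) := fun _ => hn ((commutator_normal ⊤ ⊤).eq_bot_or_eq_top.resolve_left fun h =>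
    (hP.par hP.two d hd).elim fun _ k => k.2 (comm_of_bot h trivial trivial))
  by_cases h3 : WT (nb (ins E) d)
  swap
  · obtain ⟨e, -⟩ := hP.caseA hd h3
    exact .inl ((ok_alt le_rfl).of (commutatorCongr e))
  by_cases h2 : VT (nb (ins E) d)
  swap
  · rcases hP.caseB hZ hd h2 with ⟨-, n, S, τ, m⟩ | ⟨n, h4, m⟩
    · obtain ⟨k, hk, e, -⟩ := m.fin_sp hP.gen hZ
      obtain rfl : n = 2 * k := (finrank_fin_fun _).symm.trans hk
      obtain ⟨u, hu, rfl⟩ := m.surj d hd
      obtain ⟨v, hv, rfl⟩ := m.surj b hb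
      rcases k with _ | _ | _ | k
      · exact absurd (funext fun i => i.elim0) hu.1
      · refine absurd (m.nd u fun x => ?_) hu.1
        have := (m.comm2 rfl hu hv).1 c
        rcases fin2_cases u v x hu.1 hv.1
          (fun q => n (q ▸ rfl)) with rfl | rfl | rfl | rfl <;> simp [this, (m.comm2 rfl hu hu).1 rfl]
      · obtain ⟨e'⟩ := S0247.result (F := ZMod 2) rfl
        exact .inl ((ok_alt (by decide)).of (commutatorCongr (e.trans e')))
      · exact absurd (commutator_eq_top_of_equiv (e.trans (spEquiv _ _)) ((stdSymp_nondeg _).symp_commutator_eq_top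
          (.inl (by rw [finrank_sum_fun]; omega)))) hn
    · obtain ⟨e, -⟩ := m.fin hP hZ h4
      have := S0283.result (F := K4) (q := 2) rfl n (by omega) (by omega)
      exact absurd e.isSimpleGroup sim
  have := Fintype.ofFinite (GaloisField 3 2)
  have c9 : Fintype.card (GaloisField 3 2) = 3 ^ 2 := by rw [← Nat.card_eq_fintype_card, GaloisField.card 3 2 two_ne_zero]
  rcases hP.caseC' hd h2 h3 with h | ⟨n, h5, S, τ, m⟩ | h | h | h
  · rcases hP.syC hd h2 h3 h with ⟨n, h7, e, -⟩ | ⟨n, T, τ, m, h6⟩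
    · exact .inl ((ok_alt (by omega)).of (commutatorCongr e))
    rcases m.fin_o2 hP.gen hZ (by simp; omega) with ⟨k, hk, e, -⟩ | ⟨k, hk, e, -⟩ <;>
      have e1 := e0.trans (centerQuotCongr (commutatorCongr e))
    · obtain rfl | hk := hk.eq_or_lt
      · obtain ⟨e'⟩ := S0302.result (F := ZMod 2)
        exact .inl ((ok_psl 2 1 le_rfl rfl 4 (by decide) (by decide) (by decide)).of (e1.trans e'))
      have := S0817.result (F := ZMod 2) 2 1 le_rfl rfl k hk
      by_cases h4 : k = 4
      · subst h4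
        exact .inr ⟨Ok.of ⟨_, by decide, this⟩ e1, .inl ⟨commutatorCongr e⟩⟩
      · exact .inl (Ok.of ⟨_, by simp [h4], this⟩ e1)
    · obtain rfl | hk := hk.eq_or_lt
      · obtain ⟨e'⟩ := S0303.result (F := ZMod 2) (K := K4) (q := 2) rfl rfl 1 1 aniso_two
        exact .inl (Ok.of ⟨_, by decide, S0815.result (F := K4) 2 1 le_rfl rfl rfl 4 (by decide) (by decide)⟩ (e1.trans e'))
      · exact .inl (Ok.of ⟨_, by simp, S0818.result (F := ZMod 2) 2 1 le_rfl rfl (k + 1) (by omega) 1 1 aniso_two⟩ e1)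
  · obtain ⟨e⟩ := ((fi_ins hE).md m).omega (by simpa using h5)
    have e1 := e0.trans e
    have hn : finrank (ZMod 3) (Fin n → ZMod 3) = n := finrank_fin_fun _
    obtain ⟨k, rfl | rfl⟩ := Nat.even_or_odd' n
    · by_cases ht : S.HasTS k
      · obtain ⟨e2⟩ := (m.nd.eqv_sPlus hn ht).nonempty_mulEquiv
        have e3 := (e1.trans (centerQuotCongr (commutatorCongr e2))).trans (pomegaEquiv (qPlus k _)).symm
        obtain rfl | hk := (show 3 ≤ k by omega).eq_or_lt
        · obtain ⟨e'⟩ := S0302.result (F := ZMod 3)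
          exact .inl ((ok_psl 3 1 le_rfl rfl 4 (by decide) (by decide) (by decide)).of (e3.trans e'))
        have := S0817.result (F := ZMod 3) 3 1 le_rfl rfl k hk
        by_cases h4 : k = 4
        · subst h4
          exact .inr ⟨Ok.of ⟨_, by decide, this⟩ e3, .inr ⟨e3⟩⟩
        · exact .inl (Ok.of ⟨_, by simp only [h4, if_false]; split_ifs <;> decide, this⟩ e3)
      · obtain ⟨k, rfl⟩ : ∃ j, k = j + 1 := ⟨k - 1, by omega⟩
        have an : Aniso (0 : ZMod 3) 1 := by unfold Aniso; decide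
        obtain ⟨e2⟩ := (m.nd.eqv_sMinus hn ht an).nonempty_mulEquiv
        have e3 := (e1.trans (centerQuotCongr (commutatorCongr e2))).trans (pomegaEquiv (qMinus k _ 0 1)).symm
        obtain rfl | hk := (show 2 ≤ k by omega).eq_or_lt
        · obtain ⟨e'⟩ := S0303.result (F := ZMod 3) (q := 3) rfl c9 0 1 an
          exact .inl (Ok.of ⟨_, by decide, S0815.result 3 1 le_rfl rfl c9 4 (by decide) (by decide)⟩ (e3.trans e'))
        · exact .inl (Ok.of ⟨_, by split_ifs <;> decide, S0818.result (F := ZMod 3) 3 1 le_rfl rfl (k + 1) (by omega) 0 1 an⟩ e3)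
    · obtain ⟨a, ha, q⟩ := m.nd.exists_eqv_scale (sOdd_nondeg k (by decide)) (hn.symm ▸ odd_two_mul_add_one k) (by simp; omega)
      obtain ⟨e2⟩ := q.nonempty_mulEquiv
      have e3 := (e1.trans (centerQuotCongr (commutatorCongr ((MulEquiv.subgroupCongr (isom_scale ha).symm).trans e2)))).trans
        (pomegaEquiv (qOdd k _)).symm
      obtain rfl | hk := (show 2 ≤ k by omega).eq_or_lt
      · obtain ⟨e'⟩ := S0301.result (F := ZMod 3) (by decide)
        exact .inl (Ok.of ⟨_, by decide, S0814.result (F := ZMod 3) 3 1 le_rfl rfl 2 le_rfl (by decide)⟩ (e3.trans e'))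
      · exact .inl (Ok.of ⟨_, by decide, S0816.result (F := ZMod 3) 3 1 le_rfl rfl (by decide) k hk⟩ e3)
  · obtain ⟨e, -⟩ := typeM22 hP.grp (h.type hZ)
    have := H15.Fi22.simple
    exact absurd e.isSimpleGroup sim
  · obtain ⟨e, -⟩ := typeM23 hP.grp (h.type hZ)
    have := H15.Fi23.simple
    exact absurd e.isSimpleGroup sim
  · obtain ⟨-, h1, h2, -⟩ := S5375.result hP.grp hP.prim (h.type hZ)
    rw [← ncard_ins, h1, h2] at hq
    exact absurd hq (by decide)

end H28
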