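import Cfsg.Agent.H28.T3

set_option autoImplicit false

namespace H28
variable {G : Type*} [Group G] {a b : G}

theorem refl_pow (ha : a * a = 1) (hb : b * b = 1) (k : ℕ) : a * (a * b) ^ k = ((a * b) ^ k)⁻¹ * a := by
  have : a * (a * b) * a⁻¹ = (a * b)⁻¹ := by simp [inv_of_sq ha, inv_of_sq hb, canc ha]
  rw [← inv_pow, ← this, conj_pow]; simp

theorem refl_even (ha : a * a = 1) (hb : b * b = 1) (k : ℕ) :
    a * (a * b) ^ (2 * k) = ((a * b) ^ k)⁻¹ * a * ((a * b) ^ k)⁻¹⁻¹ := by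
  rw [← refl_pow ha hb, two_mul, pow_add, inv_inv, mul_assoc]

theorem refl_odd (ha : a * a = 1) (hb : b * b = 1) (k : ℕ) :
    a * (a * b) ^ (2 * k + 1) = ((a * b) ^ k)⁻¹ * b * ((a * b) ^ k)⁻¹⁻¹ := by
  have : ((a * b) ^ k)⁻¹ * b = a * ((a * b) ^ k * (a * b)) := by
    rw [← mul_assoc, refl_pow ha hb, mul_assoc, canc ha]
  rw [this, inv_inv, mul_assoc, ← pow_succ, ← pow_add]; congr 2; ring

/-- the central involution of a dihedral group -/
theorem cen_inv (ha : a * a = 1) (hb : b * b = 1) {m : ℕ} (h : orderOf (a * b) = 2 * m) (hm : m ≠ 0) :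
    (a * b) ^ m ≠ 1 ∧ (a * b) ^ m * (a * b) ^ m = 1 ∧ Commute a ((a * b) ^ m) ∧ Commute b ((a * b) ^ m) := by
  have s : (a * b) ^ m * (a * b) ^ m = 1 := by rw [← pow_add, ← two_mul, ← h, pow_orderOf_eq_one]
  have c : Commute a ((a * b) ^ m) := (refl_pow ha hb m).trans (by rw [inv_of_sq s])
  refine ⟨pow_ne_one_of_lt_orderOf hm (by omega), s, c, ?_⟩
  simpa [canc ha] using c.mul_left ((Commute.refl (a * b)).pow_right m)

theorem pow_odd_of_sq (h : a * a = 1) {n : ℕ} (hn : Odd n) : a ^ n = a := by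
  obtain ⟨k, rfl⟩ := hn
  rw [pow_succ, pow_mul, pow_two, h, one_pow, one_mul]

end H28
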