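import Cfsg.Agent.H28.M23
import Cfsg.Agent.S0283

/-! Widths (`Wd`), the conjugation action on a set of 3-transpositions (`cact`, `quot_center_iso`), centralizers of
transpositions from counting (`cent_eq`), perfectness from an odd relation. -/

namespace H28
open Cfsg H15 Subgroup

variable {G X : Type*} [Group G] [Group X] {D E : Set G} {E' : Set X}

/-- the largest commuting subsets of `D` have `n` elements -/
def Wd (D : Set G) (n : ℕ) : Prop :=
  (∀ E ⊆ D, E.Finite → (∀ a ∈ E, ∀ b ∈ E, Commute a b) → E.ncard ≤ n) ∧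
    ∃ E ⊆ D, E.Finite ∧ (∀ a ∈ E, ∀ b ∈ E, Commute a b) ∧ E.ncard = n

theorem Wd.eq {n : ℕ} (h : Wd D n) : commutingWidth D = n :=
  IsGreatest.csSup_eq ⟨h.2, by rintro _ ⟨E, h1, h2, h3, rfl⟩; exact h.1 E h1 h2 h3⟩

theorem Wd.succ {n : ℕ} (ne : D.Nonempty) (h : ∀ x ∈ D, Wd (nb D x) n) : Wd D (n + 1) := by
  refine ⟨fun E h1 h2 h3 => ?_, ?_⟩
  · rcases E.eq_empty_or_nonempty with rfl | ⟨x, hx⟩
    · simp
    have := (h x (h1 hx)).1 (E \ {x}) (fun y hy => ⟨h1 hy.1, hy.2, h3 x hx y hy.1⟩) h2.sdiff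
      fun a ha b hb => h3 a ha.1 b hb.1
    rw [← Set.ncard_sdiff_singleton_add_one hx h2]; omega
  · obtain ⟨x, hx⟩ := ne
    obtain ⟨E, h1, h2, h3, h4⟩ := (h x hx).2
    refine ⟨insert x E, Set.insert_subset hx fun y hy => (h1 hy).1, h2.insert x, ?_, ?_⟩
    · rintro a (rfl | ha) b (rfl | hb)
      exacts [Commute.refl _, (h1 hb).2.2, (h1 ha).2.2.symm, h3 a ha b hb]
    · rw [Set.ncard_insert_of_notMem (fun hx => (h1 hx).2.1 rfl) h2, h4]

def P53 : List ℕ := [3, 12, 15, 48, 51, 60, 63, 204, 207, 240, 243, 252, 255, 816, 819, 828, 831, 1008, 1011, 1020,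
  1023, 1056, 1059, 1068, 1071, 1072, 1075, 1084, 1087, 1248, 1251, 1260, 1263, 1264, 1267, 1276, 1279, 1824, 1827,
  1836, 1839, 1840, 1843, 1852, 1855, 2016, 2019, 2028, 2031, 2032, 2035, 2044, 2047]

theorem P53_chk : allB (fun v => !iso v || (!Nat.beq (hc 3 v) 0 || (!Nat.beq (hc 12 v) 0 || P53.contains (nrm v))))
    12 0 = true ∧ (∀ v ∈ P53, iso v = true ∧ (v ∈ [3, 12, 15, 204, 207] ∨
      (P53.filter fun u => Nat.beq (hc v u) 0).length ≤ 21)) ∧
    ∀ u ∈ P53.take 21, ∀ v ∈ P53.take 21, hc u v = 0 := by decide +kernel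

theorem TL.wd (h : TL E) : Wd E 21 := by
  classical
  have k : ∀ (τ : ℕ → G) (l : List ℕ) (A : Set G), (∀ a ∈ A, ∃ v ∈ l, τ v = a) → A.ncard ≤ l.length := fun τ l A h =>
    (Set.ncard_le_ncard (t := (l.map τ).toFinset) (fun a ha => by simpa using h a ha) (Finset.finite_toSet _)).trans
      (by rw [Set.ncard_coe_finset]; exact (List.toFinset_card_le _).trans (by simp))
  refine ⟨fun A h1 h2 h3 => ?_, ?_⟩
  · rcases A.subsingleton_or_nontrivial with h4 | ⟨p, hp, r, hr, hne⟩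
    · exact ((Set.ncard_le_one h2).2 fun a ha b hb => h4 ha hb).trans (by norm_num)
    obtain ⟨τ, hL, rfl, rfl⟩ := h.wl2 (h1 hp) (h1 hr) hne.symm (h3 _ hp _ hr)
    have m : ∀ a ∈ A, ∃ v ∈ P53, τ v = a := fun a ha => by
      obtain ⟨v, hv, rfl⟩ := hL.surj a (h1 ha)
      have := all4096 P53_chk.1 (iso_lt hv)
      rw [hv, (hL.comm 3 v (by decide) hv).1 (h3 _ hp _ ha), (hL.comm 12 v (by decide) hv).1 (h3 _ hr _ ha)] at this
      exact ⟨_, List.contains_iff_mem.1 (by simpa using this), hL.nrm hv⟩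
    by_cases h5 : ∀ a ∈ A, ∃ v ∈ [3, 12, 15, 204, 207], τ v = a
    · exact (k τ _ A h5).trans (by norm_num)
    push Not at h5
    obtain ⟨a, ha, h5⟩ := h5
    obtain ⟨v, hv, rfl⟩ := m a ha
    refine (k τ _ A fun b hb => ?_).trans ((P53_chk.2.1 v hv).2.resolve_left fun h => h5 v h rfl)
    obtain ⟨u, hu, rfl⟩ := m b hb
    exact ⟨u, List.mem_filter.2 ⟨hu, by
      rw [(hL.comm v u (P53_chk.2.1 v hv).1 (P53_chk.2.1 u hu).1).1 (h3 _ ha _ hb)]; rfl⟩, rfl⟩
  · obtain ⟨τ, hL⟩ := h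
    have i : ∀ v ∈ P53.take 21, iso v = true := fun v hv => (P53_chk.2.1 v (List.mem_of_mem_take hv)).1
    refine ⟨((P53.take 21).map τ).toFinset, fun a ha => ?_, Finset.finite_toSet _, fun a ha b hb => ?_, ?_⟩
    · obtain ⟨v, hv, rfl⟩ := List.mem_map.1 (List.mem_toFinset.1 ha)
      exact hL.mem v (i v hv)
    · obtain ⟨v, hv, rfl⟩ := List.mem_map.1 (List.mem_toFinset.1 ha)
      obtain ⟨u, hu, rfl⟩ := List.mem_map.1 (List.mem_toFinset.1 hb)
      exact (hL.comm v u (i v hv) (i u hu)).2 (P53_chk.2.2 v hv u hu)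
    · rw [Set.ncard_coe_finset, hL.card_list (by decide +kernel)]; rfl

theorem Q22.wd (h : Q22 D) : Wd D 22 := Wd.succ h.ne fun x hx => (h.loc x hx).wd
theorem Q23.wd (h : Q23 D) : Wd D 23 := Wd.succ h.ne fun x hx => (h.loc x hx).wd

/-- the conjugation action of `⟨E⟩` on `E` -/
def cact (hE : T3 E) : closure E →* Equiv.Perm E where
  toFun g := ⟨fun x => ⟨g * x * g⁻¹, hE.conj_mem g.2 x x.2⟩, fun x => ⟨g⁻¹ * x * g⁻¹⁻¹, hE.conj_mem g⁻¹.2 x x.2⟩,
    fun x => Subtype.ext (by simp [mul_assoc]), fun x => Subtype.ext (by simp [mul_assoc])⟩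
  map_one' := Equiv.ext fun x => Subtype.ext (by simp)
  map_mul' g h := Equiv.ext fun x => Subtype.ext (by simp [mul_assoc])

theorem cact_apply (hE : T3 E) (g : closure E) (x : E) : (cact hE g x : G) = g * x * g⁻¹ := rfl

theorem cact_ker (hE : T3 E) : (cact hE).ker = center _ := by
  ext g
  rw [MonoidHom.mem_ker, mem_center_iff]
  refine ⟨fun h k => Subtype.ext (comm_closure (fun e he => ?_) k.2).eq.symm, fun h => Equiv.ext fun x =>
    Subtype.ext (mul_inv_eq_iff_eq_mul.2 (congrArg Subtype.val (h ⟨x, subset_closure x.2⟩)).symm)⟩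
  exact mul_inv_eq_iff_eq_mul.1 (congrArg Subtype.val (Equiv.congr_fun h ⟨e, he⟩))

theorem cact_map (hE : T3 E) (hE' : T3 E') (β : E ≃ E')
    (hβ : ∀ a b : E, (β ⟨a * b * a, hE.cl _ a.2 _ b.2⟩ : X) = β a * β b * β a) (g : closure E) :
    β.permCongrHom (cact hE g) ∈ (cact hE').range := by
  obtain ⟨g, hg⟩ := g
  induction hg using closure_induction with
  | mem a ha =>
    refine ⟨⟨β ⟨a, ha⟩, subset_closure (β _).2⟩, Equiv.ext fun x => Subtype.ext ?_⟩
    obtain ⟨x, rfl⟩ := β.surjective x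
    change (β ⟨a, ha⟩ : X) * β x * (β ⟨a, ha⟩ : X)⁻¹ = β (cact hE ⟨a, subset_closure ha⟩ (β.symm (β x)))
    rw [t3_inv hE'.t3 (β _).2, ← hβ, Equiv.symm_apply_apply]
    exact congrArg (fun y => (β y : X)) (Subtype.ext (congrArg (a * x * ·) (t3_inv hE.t3 ha).symm))
  | one => exact (map_one (β.permCongrHom.toMonoidHom.comp (cact hE))).symm ▸ one_mem _
  | mul a b ha hb h1 h2 =>
    exact (map_mul (β.permCongrHom.toMonoidHom.comp (cact hE)) ⟨a, ha⟩ ⟨b, hb⟩).symm ▸ mul_mem h1 h2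
  | inv a ha h => exact (map_inv (β.permCongrHom.toMonoidHom.comp (cact hE)) ⟨a, ha⟩).symm ▸ inv_mem h

theorem quot_center_iso (hE : T3 E) (hE' : T3 E') (β : E ≃ E')
    (hβ : ∀ a b : E, (β ⟨a * b * a, hE.cl _ a.2 _ b.2⟩ : X) = β a * β b * β a) :
    Nonempty (closure E ⧸ center (closure E) ≃* closure E' ⧸ center (closure E')) := by
  have e : (cact hE).range.map β.permCongrHom.toMonoidHom = (cact hE').range := by
    refine le_antisymm (by rintro _ ⟨_, ⟨g, rfl⟩, rfl⟩; exact cact_map hE hE' β hβ g) ?_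
    rintro _ ⟨g, rfl⟩
    refine ⟨_, cact_map hE' hE β.symm (fun a b => ?_) g, Equiv.ext fun x => by simp⟩
    obtain ⟨a, rfl⟩ := β.surjective a
    obtain ⟨b, rfl⟩ := β.surjective b
    rw [show (⟨_, hE'.cl _ (β a).2 _ (β b).2⟩ : E') = β ⟨_, hE.cl _ a.2 _ b.2⟩ from Subtype.ext (hβ a b).symm]
    simp
  exact ⟨(QuotientGroup.quotientMulEquivOfEq (cact_ker hE).symm).trans ((QuotientGroup.quotientKerEquivRange _).trans
    (((β.permCongrHom.subgroupMap _).trans (MulEquiv.subgroupCongr e)).trans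
    ((QuotientGroup.quotientKerEquivRange _).symm.trans (QuotientGroup.quotientMulEquivOfEq (cact_ker hE')))))⟩

theorem quot_of_lab {ι : Type*} (hE : T3 E) (hE' : T3 E') (P : ι → Prop) (τ : ι → G) (τ' : ι → X)
    (h1 : ∀ x, x ∈ E ↔ ∃ v, P v ∧ τ v = x) (h1' : ∀ x, x ∈ E' ↔ ∃ v, P v ∧ τ' v = x)
    (h2 : ∀ u v, P u → P v → (τ u = τ v ↔ τ' u = τ' v))
    (h3 : ∀ u v, P u → P v → ∃ w, P w ∧ τ u * τ v * τ u = τ w ∧ τ' u * τ' v * τ' u = τ' w) :
    Nonempty (closure E ⧸ center (closure E) ≃* closure E' ⧸ center (closure E')) := by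
  choose c c1 c2 using fun x : E => (h1 x).1 x.2
  have hb : Function.Bijective fun x : E => (⟨τ' (c x), (h1' _).2 ⟨_, c1 x, rfl⟩⟩ : E') := by
    refine ⟨fun x y h => Subtype.ext ?_, fun x => ?_⟩
    · rw [← c2, ← c2, h2 _ _ (c1 x) (c1 y)]; exact congrArg Subtype.val h
    · obtain ⟨v, hv, e⟩ := (h1' x).1 x.2
      exact ⟨⟨τ v, (h1 _).2 ⟨v, hv, rfl⟩⟩, Subtype.ext (((h2 _ _ (c1 _) hv).1 (c2 _)).trans e)⟩
  refine quot_center_iso hE hE' (Equiv.ofBijective _ hb) fun a b => ?_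
  obtain ⟨w, w1, w2, w3⟩ := h3 _ _ (c1 a) (c1 b)
  exact ((h2 _ _ (c1 _) w1).1 ((c2 _).trans (by rw [← w2, c2, c2]))).trans w3.symm

theorem PH.quot {f : G → X} (h : PH f E) (hE : T3 E) (hX : closure (f '' E) = ⊤) (hZ : center X = ⊥) :
    Nonempty (closure E ⧸ center (closure E) ≃* X) := by
  let φ : closure E →* X := MonoidHom.mk' (fun g => f g) fun a b => h.mul _ a.2 _ b.2
  have hs : Function.Surjective φ := fun y => by
    obtain ⟨g, hg, e⟩ := h.surj (hX ▸ mem_top y)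
    exact ⟨⟨g, hg⟩, e⟩
  have hk : φ.ker = center _ := by
    ext g
    refine ⟨fun e => mem_center_iff.2 fun k => Subtype.ext
      (comm_closure (fun a ha => h.ker hE g.2 e ha) k.2).eq.symm, fun hg => mem_bot.1 (hZ ▸ mem_center_iff.2 fun y => ?_)⟩
    obtain ⟨k, rfl⟩ := hs y
    rw [← map_mul, ← map_mul, mem_center_iff.1 hg k]
  exact ⟨(QuotientGroup.quotientMulEquivOfEq hk.symm).trans (QuotientGroup.quotientKerEquivOfSurjective φ hs)⟩

theorem TL.quot (h : TL E) {F : Type*} [Field F] [Fintype F] (hF : Fintype.card F = 4) :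
    Nonempty (closure E ⧸ center (closure E) ≃* PSU 6 F 2) := by
  obtain ⟨τ, hL⟩ := h
  obtain ⟨ω, hω⟩ := exists_F4' F hF
  have hL' := lab_psu hF hω
  have := Agent.S0283.result (q := 2) hF 6 (by norm_num) (by norm_num)
  obtain ⟨e⟩ := quot_of_lab hL.T3 hL'.T3 (fun v => iso v = true) τ (tau hω)
    (fun x => ⟨hL.surj x, by rintro ⟨v, hv, rfl⟩; exact hL.mem v hv⟩) (fun _ => Iff.rfl)
    (fun u v hu hv => ⟨fun h => hL'.eq_of_nrm hu hv (hL.inj _ _ hu hv h), fun h => hL.eq_of_nrm hu hv (hL'.inj _ _ hu hv h)⟩)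
    fun u v hu hv => ⟨op u v, iso_op hu hv, hL.conj u v hu hv, hL'.conj u v hu hv⟩
  obtain ⟨e'⟩ := (ph_equiv (MulEquiv.refl _) _).quot hL'.T3 (by
    rw [← closure_conj_top (t3_ne hL'.t3 (hL'.mem 3 (by decide))), eq_comm]
    refine le_antisymm ((closure_le _).2 fun x hx => subset_closure ⟨x, ?_, rfl⟩) ?_
    · obtain ⟨g, rfl⟩ := isConj_iff.1 hx
      obtain ⟨g, rfl⟩ := QuotientGroup.mk_surjective g
      obtain ⟨v, hv, e⟩ := hω.code (a := act g (dec ω 3)) (fun h => t3_ne hL'.t3 (hL'.mem 3 (by decide)) (by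
        have : dec ω 3 = 0 := by rw [← act_one (dec ω 3), ← inv_mul_cancel g, act_mul, h]; exact Matrix.mulVec_zero _
        exact congrArg _ (act_ext fun x => by rw [act_tv hω (hω.iso0 (by decide)), this, act_one]; simp)))
        (by rw [act_h, hω.iso0 (by decide)])
      exact ⟨v, hv, by rw [tau, e, ← conj_tv hω g (hω.iso0 (by decide))]; rfl⟩
    · rw [closure_conj_top (t3_ne hL'.t3 (hL'.mem 3 (by decide)))]; exact le_top)
    (center_eq_bot_of_simple (card_psu6 hF) (by norm_num))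
  exact ⟨e.trans e'⟩

theorem cent_eq [Finite G] {d : G} {n m : ℕ} (hd : d ∈ closure (nb D d)) (h2 : orderOf d = 2)
    (hm : Nat.card (closure (nb D d) ⧸ center (closure (nb D d))) = m) (hG : Nat.card G = 2 * m * n)
    (hn : (centralizer {d}).index = n) : closure (nb D d) = centralizer {d} ∧
      center (closure (nb D d)) = (zpowers d).subgroupOf (closure (nb D d)) := by
  have h1 : closure (nb D d) ≤ centralizer {d} :=
    (closure_le _).2 fun x hx => mem_centralizer_singleton_iff.2 hx.2.2.symm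
  have h3 : (zpowers d).subgroupOf (closure (nb D d)) ≤ center _ := fun x hx => mem_center_iff.2 fun g => by
    obtain ⟨k, hk⟩ := mem_zpowers_iff.1 (mem_subgroupOf.1 hx)
    have : Commute (g : G) d := mem_centralizer_singleton_iff.1 (h1 g.2)
    exact Subtype.ext (hk ▸ (this.zpow_right k).eq :)
  have c1 := (centralizer {d}).card_mul_index
  rw [hn, hG] at c1
  have c2 : Nat.card (centralizer {d}) = 2 * m := Nat.eq_of_mul_eq_mul_right (Nat.pos_of_ne_zero (by
    rintro rfl; exact Nat.card_pos.ne' hG)) c1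
  have c3 := card_eq_card_quotient_mul_card_subgroup (center (closure (nb D d)))
  have c4 : Nat.card ((zpowers d).subgroupOf (closure (nb D d))) = 2 := by
    rw [Nat.card_congr (subgroupOfEquivOfLe (zpowers_le.2 hd)).toEquiv, Nat.card_zpowers, h2]
  have c5 := card_le_of_le h1
  have c6 := card_le_of_le h3
  have m0 : 0 < m := hm ▸ Nat.card_pos
  rw [hm] at c3
  exact ⟨eq_of_le_of_card_ge h1 (by nlinarith), (eq_of_le_of_card_ge h3 (by nlinarith)).symm⟩

theorem perfect_of_odd (cls : ∀ a ∈ E, ∀ b ∈ E, ∃ g ∈ closure E, g * a * g⁻¹ = b) (sq : ∀ a ∈ E, a * a = 1)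
    (l : List G) (hl : ∀ a ∈ l, a ∈ E) (ho : Odd l.length) (h1 : l.prod = 1) : Group.IsPerfect (closure E) := by
  have k : ∀ a (ha : a ∈ E), Abelianization.of (⟨a, subset_closure ha⟩ : closure E) = 1 := fun a ha => by
    have : ∀ l : List G, (∀ a ∈ l, a ∈ E) → ∃ h : l.prod ∈ closure E,
        Abelianization.of (⟨_, h⟩ : closure E) = Abelianization.of ⟨a, subset_closure ha⟩ ^ l.length := fun l hl => by
      induction l with
      | nil => exact ⟨one_mem _, (map_one Abelianization.of).trans (pow_zero _).symm⟩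
      | cons b l ih =>
        obtain ⟨h, e⟩ := ih fun a ha => hl a (List.mem_cons_of_mem _ ha)
        obtain ⟨g, hg, rfl⟩ := cls a ha b (hl b List.mem_cons_self)
        refine ⟨by rw [List.prod_cons]; exact mul_mem (mul_mem (mul_mem hg (subset_closure ha)) (inv_mem hg)) h, ?_⟩
        rw [List.length_cons, pow_succ', ← e, ← mul_inv_cancel_comm (Abelianization.of (⟨g, hg⟩ : closure E))
          (Abelianization.of ⟨a, subset_closure ha⟩), ← map_inv, ← map_mul, ← map_mul, ← map_mul]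
        exact congrArg _ (Subtype.ext List.prod_cons)
    obtain ⟨h, e⟩ := this l hl
    obtain ⟨n, hn⟩ := ho
    rw [hn, pow_succ, pow_mul, pow_two, ← map_mul, show (⟨a, _⟩ * ⟨a, _⟩ : closure E) = 1 from Subtype.ext (sq a ha),
      map_one, one_pow, one_mul, show (⟨l.prod, h⟩ : closure E) = 1 from Subtype.ext h1, map_one] at e
    exact e.symm
  refine ⟨eq_top_iff.2 ?_⟩
  rw [← closure_closure_coe_preimage, closure_le, ← Abelianization.ker_of]
  exact fun x hx => k x hx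

theorem ncard_class (hD : ∀ g : G, ∀ d ∈ D, g * d * g⁻¹ ∈ D) (cls : ∀ a ∈ D, ∀ b ∈ D, IsConj a b) {d : G}
    (hd : d ∈ D) : D.ncard = (centralizer {d}).index := by
  rw [← card_conjugatesOf, show D = conjugatesOf d from Set.ext fun x =>
    ⟨cls d hd x, fun h => by obtain ⟨g, rfl⟩ := isConj_iff.1 h; exact hD g d hd⟩]
  rfl

theorem ncard_of_equiv (e : G ≃* X) {a : X} (h : ∀ x, x ∈ D ↔ IsConj a (e x)) :
    D.ncard = (centralizer {a}).index := by
  rw [← card_conjugatesOf, ← Set.ncard_image_of_injective D e.injective,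
    show e '' D = conjugatesOf a from Set.ext fun x => ⟨by rintro ⟨y, hy, rfl⟩; exact (h y).1 hy,
      fun hx => ⟨e.symm x, (h _).2 ((e.apply_symm_apply x).symm ▸ hx), by simp⟩⟩]
  rfl

end H28
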