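import Cfsg.Agent.H28.Fis
import Cfsg.Agent.H28.M24
import Cfsg.Prelude.Def_Local

/-! Groups of type M(24): number of transpositions, centralizers of transpositions, the layer. -/

namespace H28
open Cfsg H15 Subgroup

variable {G : Type*} [Group G] {D : Set G}

theorem l_notMem24 : Fi24.gen 0 ∉ commutator Spor.Fi24 := by
  rw [Fi24.comm.1, MonoidHom.mem_ker, sg24 0 (by norm_num)]; decide

theorem cent24 : centralizer {Fi24.gen 0} = MulAction.stabilizer Spor.Fi24 (Fi24.M.dec 0) := by
  have l0 : Fi24.gen 0 ∈ MulAction.stabilizer Spor.Fi24 (Fi24.M.dec 0) := by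
    rw [← Fi24.stab, Fi24.H_eq]; exact gen_mem_Kl _ (by simp)
  have h1 : MulAction.stabilizer Spor.Fi24 (Fi24.M.dec 0) ≤ centralizer {Fi24.gen 0} :=
    fun g hg => mem_centralizer_singleton_iff.2 (stab24_comm hg).eq.symm
  have k : ∀ (K : Subgroup Spor.Fi24) x, Fi24.gen 0 ∈ K → (x ∈ commutator Spor.Fi24 → x ∈ K) →
      (x * Fi24.gen 0 ∈ commutator Spor.Fi24 → x * Fi24.gen 0 ∈ K) → x ∈ K := fun K x h0 a b => by
    by_cases h : x ∈ commutator Spor.Fi24
    · exact a h
    · exact (mul_mem_cancel_right h0).1 (b ((mul_mem_iff_of_index_two Fi24.comm.2).2 (iff_of_false h l_notMem24)))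
  rcases Fi24P.max Fi24.M Fi24.hc (commutator Spor.Fi24 ⊓ centralizer {Fi24.gen 0})
    (Fi24.stab1 ▸ inf_le_inf_left _ h1) (Fi24.top ▸ inf_le_left) with h | h
  · rw [← Fi24.stab1] at h
    exact le_antisymm (fun x hx => k _ x l0 (fun a => (h.le ⟨a, hx⟩).2)
      fun a => (h.le ⟨a, mul_mem hx (h1 l0)⟩).2) h1
  · rw [Fi24.top] at h
    have : Fi24.gen 0 ∈ center Spor.Fi24 := mem_center_iff.2 fun g => mem_centralizer_singleton_iff.1
      (k _ g (h1 l0) (fun a => (h.ge a).2) fun a => (h.ge a).2)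
    rw [center24, mem_bot] at this
    exact absurd (this ▸ one_mem _) l_notMem24

theorem cent_m24 [Finite G] (hD : IsThreeTranspositionGroup D) (hp : IsPrimitiveUnderConj D) (ht : IsOfTypeM24 G D) :
    D.ncard = 306936 ∧ Wd D 24 ∧ ∀ d ∈ D, d ∈ closure (nb D d) ∧ closure (nb D d) = centralizer {d} ∧
      center (closure (nb D d)) = (zpowers d).subgroupOf (closure (nb D d)) := by
  obtain ⟨loc, l, t, y, τ, b, j, k, F, e, he⟩ := m24_loc hD hp ht
  have cls : ∀ a ∈ D, ∀ b ∈ D, IsConj a b := fun a ha b hb => isConj_iff.2 (hp.1 a ha b hb)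
  have n : D.ncard = 306936 := by
    have := image_class e hD.2.1 cls (he .l ▸ F.hl : e (pof _ _ .l) ∈ D)
    rw [ncard_of_equiv e.symm (a := Fi24.gen 0) fun x => by
      rw [← e.symm.injective.mem_set_image (s := D), this]; rfl, cent24, Fi24.index_stab0]
  refine ⟨n, Wd.succ ⟨l, F.hl⟩ fun x hx => (loc x hx).wd, fun d hd => ?_⟩
  have m : d ∈ closure (nb D d) := by
    have ml : l ∈ closure (nb D l) := by
      have := congrArg e (Fi24.rel (0 :: (powL [2, 3, 4, 5, 6, 7, 10] 9).reverse) (by decide +kernel))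
      rw [ev_cons, map_mul, show e (Fi24.gen 0) = l from he .l, map_one] at this
      refine (mul_mem_cancel_right ?_).1 (this ▸ one_mem _)
      rw [← MonoidHom.coe_coe, map_ev]
      refine ev_mem fun i hi => subset_closure ?_
      obtain ⟨x, h1, h2⟩ : ∃ x, Fi24.gen i = pof _ _ x ∧ g24 τ l y b j k (Fi24.ix x) = g23 τ y b j (i - 2) := by
        have : i ∈ [2, 3, 4, 5, 6, 7, 10] := by revert i; decide +kernel
        simp only [List.mem_cons, List.not_mem_nil, or_false] at this
        rcases this with rfl | rfl | rfl | rfl | rfl | rfl | rfl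
        exacts [⟨.a, rfl, rfl⟩, ⟨.b, rfl, rfl⟩, ⟨.c, rfl, rfl⟩, ⟨.d, rfl, rfl⟩, ⟨.e, rfl, rfl⟩, ⟨.f, rfl, rfl⟩,
          ⟨.h, rfl, rfl⟩]
      rw [h1, MonoidHom.coe_coe, he, h2]
      exact F.fr.g_mem (loc l F.hl).t3 _
    obtain ⟨g, rfl⟩ := hp.1 l F.hl d hd
    rw [← cj_eq (g := g) hD.2.1, ← cj_nb, cjs, show (fun x => g * x * g⁻¹) = MulAut.conj g from rfl,
      ← MonoidHom.coe_coe, ← MonoidHom.map_closure]
    exact mem_map_of_mem _ ml
  obtain ⟨f', g1, g2⟩ := (loc d hd).ex_hom
  obtain ⟨q⟩ := g1.quot (loc d hd).t3 (g2 ▸ closure_D23) Fi23.center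
  exact ⟨m, cent_eq m (hD.1.1 d hd) ((Nat.card_congr q.toEquiv).trans Fi23.card)
    ((Nat.card_congr e.symm.toEquiv).trans Fi24.card) ((ncard_class hD.2.1 cls hd).symm.trans n)⟩

theorem layer_eq_comm (hs : IsSimpleGroup (commutator G)) (hZ : center (commutator G) = ⊥) :
    layer G = commutator G := by
  refine le_antisymm (sSup_le fun K hK => ?_) (le_sSup ⟨Normal.isSubnormal inferInstance, ⟨?_⟩, ?_⟩)
  · have := congrArg (map K.subtype) hK.2.1.commutator_eq_top
    rw [map_subtype_commutator, ← MonoidHom.range_eq_map, range_subtype] at this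
    exact this ▸ commutator_mono le_top le_top
  · refine (Normal.eq_bot_or_eq_top inferInstance).resolve_left fun h => ?_
    rw [commutator_eq_bot_iff_center_eq_top, hZ] at h
    exact bot_ne_top h
  · exact ((QuotientGroup.quotientMulEquivOfEq hZ).trans QuotientGroup.quotientBot).isSimpleGroup

theorem layer_m24 (e : G ≃* Spor.Fi24) : (layer G).index = 2 := by
  have h : (commutator G).map (e : G →* Spor.Fi24) = commutator Spor.Fi24 := by
    rw [map_commutator_eq, MonoidHom.range_eq_top.2 e.surjective]; rfl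
  have q := (e.subgroupMap (commutator G)).trans (MulEquiv.subgroupCongr h)
  have := Fi24.simple
  have := q.isSimpleGroup
  rw [layer_eq_comm this (center_eq_bot_of_simple ((Nat.card_congr q.toEquiv).trans Fi24.card_comm) (by norm_num)),
    ← Fi24.comm.2, ← h, index_map_equiv]

end H28
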