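import Cfsg.Agent.H28.Go

/-! Orbits of stabilisers in `M24` on subsets, by descent along a rank table. -/

namespace H28
open Cfsg H14 Finset
open scoped Pointwise

variable {L : List Net} {X R : List ℕ} {Y Y' : List (Finset GolayPt)} {s t : Finset GolayPt}

/-- a network from its stages -/
def nt (l : List (ℕ × ℕ)) : Net := l.foldr (fun p => Net.cons p.1 p.2) .nil

/-- the sets `Y` are the images of the masks `X` under an element of `M24` -/
def Cfg (X : List ℕ) (Y : List (Finset GolayPt)) : Prop := ∃ g : M24, (X.map bset).map (g • ·) = Y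

theorem Cfg.trans (h : Cfg X Y) (h' : Cfg X Y') : ∃ k : M24, Y.map (k • ·) = Y' := by
  obtain ⟨g, rfl⟩ := h
  obtain ⟨k, rfl⟩ := h'
  exact ⟨k * g⁻¹, by simp [Function.comp_def, mul_smul]⟩

theorem Cfg.one (p : GolayPt) : Cfg [0x800000] [{p}] :=
  let ⟨g, h⟩ := M24_exists_smul1 none p
  ⟨g, by simp [show bset 0x800000 = {none} by decide, h]⟩

theorem Cfg.two {p q : GolayPt} (h : p ≠ q) : Cfg [0x800000, 1] [{p}, {q}] :=
  let ⟨g, h1, h2⟩ := M24_exists_smul2 (p := none) (q := some 0) (by decide) h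
  ⟨g, by simp [show bset 0x800000 = {none} by decide, show bset 1 = {some 0} by decide, h1, h2]⟩

/-- the networks are in `M24` and fix the masks `X` -/
noncomputable def gensOk (L : List Net) (X : List ℕ) : Bool :=
  L.all fun N => golayOk N && X.all fun x => Nat.beq (N.run x) x

/-- `m` is a representative, or a network lowers its rank -/
noncomputable def dsc (L : List Net) (D : ℕ → Bool) (R : List ℕ) (rk : ℕ → ℕ) (m : ℕ) : Bool :=
  !D m || (R.any (Nat.beq m) || L.any fun N => (fun m' => D m' && Nat.blt (rk m') (rk m)) (N.run m))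

theorem desc {D : ℕ → Bool} {rk : ℕ → ℕ} (hL : gensOk L X = true) (h : ∀ m, D m = true → dsc L D R rk m = true)
    {m : ℕ} (hm : D m = true) : ∃ r ∈ R, ∃ g : M24, (X.map bset).map (g • ·) = X.map bset ∧ g • bset r = bset m := by
  induction e : rk m using Nat.strong_induction_on generalizing m with
  | _ k ih =>
    have := h m hm
    simp only [dsc, hm, Bool.not_true, Bool.false_or, Bool.or_eq_true, List.any_eq_true, Bool.and_eq_true,
      Nat.beq_eq, Nat.blt_eq] at this
    obtain ⟨r, hr, rfl⟩ | ⟨N, hN, h1, h2⟩ := this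
    · exact ⟨m, hr, 1, by simp, one_smul _ _⟩
    obtain ⟨r, hr, g, h3, h4⟩ := ih _ (e ▸ h2) h1 rfl
    have := List.all_eq_true.1 hL N hN
    simp only [Bool.and_eq_true, List.all_eq_true, Nat.beq_eq] at this
    have ok := ok_of_golayOk this.1
    let k : M24 := ⟨netPerm N, mem_M24_of_net this.1 (real_netPerm ok)⟩
    have hk : ∀ m, k • bset m = bset (N.run m) := smul_bset ok (real_netPerm ok)
    refine ⟨r, hr, k⁻¹ * g, ?_, by rw [mul_smul, h4, ← hk, inv_smul_smul]⟩
    simp only [List.map_map, List.map_inj_left, Function.comp] at h3 ⊢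
    exact fun x hx => by rw [mul_smul, h3 x hx, inv_smul_eq_iff, hk, this.2 x hx]

theorem Cfg.desc {D : ℕ → Bool} {rk : ℕ → ℕ} (hL : gensOk L X = true) (h : ∀ m, D m = true → dsc L D R rk m = true)
    {g : M24} (hg : (X.map bset).map (g • ·) = Y) {m : ℕ} (hm : D m = true) :
    ∃ r ∈ R, Cfg (r :: X) (g • bset m :: Y) := by
  obtain ⟨r, hr, k, h1, h2⟩ := H28.desc hL h hm
  refine ⟨r, hr, g * k, ?_⟩
  rw [← hg, ← h1, ← h2]
  simp [Function.comp_def, mul_smul]

/-- sizes of `s` and of its intersections with the members of `Y` -/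
def sgS (Y : List (Finset GolayPt)) (s : Finset GolayPt) : List ℕ := s.card :: Y.map fun y => (y ∩ s).card
/-- the same for masks -/
noncomputable def sgN (X : List ℕ) (m : ℕ) : List ℕ := p24 m :: X.map fun x => p24 (Nat.land x m)

theorem sg_smul (g : M24) (X : List ℕ) (m : ℕ) : sgS ((X.map bset).map (g • ·)) (g • bset m) = sgN X m := by
  simp [sgS, sgN, ← smul_finset_inter, ← bset_and, card_bset]

theorem Cfg.sg {r : ℕ} (h : Cfg (r :: X) (s :: Y)) : sgN X r = sgS Y s := by
  obtain ⟨g, h⟩ := h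
  obtain ⟨rfl, rfl⟩ := List.cons.inj h
  exact (sg_smul g X r).symm

/-- rank table indexed by the information set -/
def rkC (T m : ℕ) : ℕ := Nat.land (Nat.shiftRight T (Nat.mul 4 (Nat.shiftRight m 12))) 15

/-- every codeword whose signature satisfies `P` is moved to `R` by the stabiliser of `X` -/
noncomputable def cwChk (L : List Net) (X R : List ℕ) (T : ℕ) (P : List ℕ → Bool) : Bool :=
  gensOk L X && (allCW (dsc L (fun m => cw m && P (sgN X m)) R (rkC T)) && decide (R.map (sgN X)).Nodup)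

theorem smul_GC_iff (g : M24) : g • s ∈ GC ↔ s ∈ GC :=
  ⟨fun h => by simpa using smul_mem_GC g⁻¹ h, smul_mem_GC g⟩

theorem Cfg.step {T : ℕ} {P : List ℕ → Bool} (h : cwChk L X R T P = true) (hY : Cfg X Y) (hs : s ∈ GC)
    (hP : P (sgS Y s) = true) : ∃ r ∈ R, Cfg (r :: X) (s :: Y) := by
  simp only [cwChk, Bool.and_eq_true] at h
  obtain ⟨g, hg⟩ := hY
  obtain ⟨s, rfl⟩ := MulAction.surjective g s
  obtain ⟨m, hm, rfl⟩ := mem_GC.1 ((smul_GC_iff g).1 hs)
  refine Cfg.desc h.1 (fun m q => forall_CW h.2.1 (isCW_iff.2 (Bool.and_eq_true_iff.1 q).1)) hg ?_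
  rw [isCW_iff.1 hm, ← sg_smul g, hg]
  exact hP

theorem Cfg.step1 {T r : ℕ} {P : List ℕ → Bool} (h : cwChk L X [r] T P = true) (hY : Cfg X Y) (hs : s ∈ GC)
    (hP : P (sgS Y s) = true) : Cfg (r :: X) (s :: Y) :=
  let ⟨_, a, b⟩ := Cfg.step h hY hs hP
  List.mem_singleton.1 a ▸ b

theorem Cfg.conn {T : ℕ} {P : List ℕ → Bool} (h : cwChk L X R T P = true) (hY : Cfg X Y) (hs : s ∈ GC) (ht : t ∈ GC)
    (hP : P (sgS Y s) = true) (e : sgS Y s = sgS Y t) : ∃ k : M24, (s :: Y).map (k • ·) = t :: Y := by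
  obtain ⟨r, h1, h2⟩ := Cfg.step h hY hs hP
  obtain ⟨r', h3, h4⟩ := Cfg.step h hY ht (e ▸ hP)
  simp only [cwChk, Bool.and_eq_true, decide_eq_true_eq] at h
  obtain rfl := List.inj_on_of_nodup_map h.2.2 h1 h3 (h2.sg.trans (e.trans h4.sg.symm))
  exact h2.trans h4

theorem ncard_smul (g : M24) {A : Type*} [MulAction M24 A] (P : A → Prop) : {s | P (g • s)}.ncard = {s | P s}.ncard :=
  Set.ncard_preimage_of_injective_subset_range (s := {s | P s}) (MulAction.injective g) fun s _ => MulAction.surjective g s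

theorem Cfg.cnt (hY : Cfg X Y) (v : List ℕ) {P : Finset GolayPt → Prop} (h : ∀ s, P s ↔ s ∈ GC ∧ sgS Y s = v) :
    {s | P s}.ncard = cntCW fun m => sgN X m == v := by
  obtain ⟨g, rfl⟩ := hY
  simp only [h]
  rw [← ncard_smul g]
  simp only [smul_GC_iff]
  exact ncard_CW fun m _ => by rw [sg_smul, beq_iff_eq]

theorem card_single (p : GolayPt) (s : Finset GolayPt) : ({p} ∩ s).card = if p ∈ s then 1 else 0 := by
  split_ifs with h <;> simp [h]

end H28
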