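import Cfsg.Agent.H28.GK

/-! Orbits of stabilisers in `M24` on small subsets and on lists of subsets. -/

namespace H28
open Cfsg H14 Finset MulAction
open scoped Pointwise

variable {L : List Net} {X R : List ℕ} {Y : List (Finset GolayPt)} {s t : Finset GolayPt}

theorem Cfg.dod {d : Finset GolayPt} (h : d ∈ dodecads) : Cfg [0x5335f] [d] :=
  let ⟨g, h⟩ := dodecad_std h
  ⟨g, congrArg (fun x => [x]) h⟩

/-- hashed rank table -/
def rkH (T p m : ℕ) : ℕ := Nat.land (Nat.shiftRight T (Nat.mul 4 (Nat.mod m p))) 15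

/-- the one-point masks -/
def b24 : List ℕ := (List.range 24).map bit

/-- every `j`-set whose signature satisfies `P` is moved to `R` by the stabiliser of `X` -/
noncomputable def subChk (L : List Net) (X R : List ℕ) (T p j : ℕ) (P : List ℕ → Bool) : Bool :=
  gensOk L X && allSub (dsc L (fun m => Nat.blt m 0x1000000 && (Nat.beq (p24 m) j && P (sgN X m))) R (rkH T p)) b24 j 0

theorem all_sub {f : ℕ → Bool} {j : ℕ} (h : allSub f b24 j 0 = true) (hs : s.card = j) : f (mask s) = true :=
  allSub_zero (m := full 24) h (by decide +kernel) (bset_full ▸ subset_univ _) hs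

theorem Cfg.sstep {T p j : ℕ} {P : List ℕ → Bool} (h : subChk L X R T p j P = true) (hY : Cfg X Y) (hs : s.card = j)
    (hP : P (sgS Y s) = true) : ∃ r ∈ R, Cfg (r :: X) (s :: Y) := by
  simp only [subChk, Bool.and_eq_true] at h
  obtain ⟨g, hg⟩ := hY
  obtain ⟨s, rfl⟩ := MulAction.surjective g s
  rw [← bset_mask s] at hs hP ⊢
  refine Cfg.desc (D := fun m => Nat.blt m 0x1000000 && (Nat.beq (p24 m) j && P (sgN X m))) (rk := rkH T p) h.1
    (fun m q => ?_) hg ?_
  · have q' := q
    simp only [Bool.and_eq_true, Nat.blt_eq, ← card_bset_eq_iff] at q'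
    exact mask_bset q'.1 ▸ all_sub h.2 q'.2.1
  beta_reduce at hs hP ⊢
  rw [← sg_smul g, hg, hP, (card_bset_eq_iff _ _).1 ((card_smul_finset _ _).symm.trans hs), Nat.blt_eq.mpr (show mask s < 0x1000000 from mask_lt s)]
  rfl

theorem Cfg.sstep1 {T p j r : ℕ} {P : List ℕ → Bool} (h : subChk L X [r] T p j P = true) (hY : Cfg X Y)
    (hs : s.card = j) (hP : P (sgS Y s) = true) : Cfg (r :: X) (s :: Y) :=
  let ⟨_, a, b⟩ := Cfg.sstep h hY hs hP
  List.mem_singleton.1 a ▸ b

/-- a codeword determined by its signature -/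
theorem Cfg.uniq {r : ℕ} (h : (cw r && allCW fun m => sgN X m != sgN X r || Nat.beq m r) = true) (hY : Cfg X Y) :
    ∃ o ∈ GC, sgS Y o = sgN X r ∧ ∀ s ∈ GC, sgS Y s = sgN X r → s = o := by
  obtain ⟨g, rfl⟩ := hY
  obtain ⟨h1, h2⟩ := Bool.and_eq_true_iff.1 h
  refine ⟨g • bset r, smul_mem_GC g (bset_mem_GC h1), sg_smul _ _ _, fun s hs e => ?_⟩
  obtain ⟨s, rfl⟩ := MulAction.surjective g s
  obtain ⟨m, hm, rfl⟩ := mem_GC.1 ((smul_GC_iff g).1 hs)
  have := forall_CW h2 hm
  rw [← sg_smul g, e] at this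
  rw [show m = r by simpa using this]

/-- equal lists as sets -/
def same (a b : List ℕ) : Bool := a.all (fun x => b.any (Nat.beq x)) && b.all fun x => a.any (Nat.beq x)

theorem same_spec {a b : List ℕ} (h : same a b = true) : bsets a = bsets b := by
  simp only [same, Bool.and_eq_true, List.all_eq_true, List.any_eq_true, Nat.beq_eq, exists_eq_right'] at h
  ext s
  exact mem_bsets.trans ⟨fun ⟨m, p, q⟩ => mem_bsets.2 ⟨m, h.1 m p, q⟩, fun p =>
    let ⟨m, p, q⟩ := mem_bsets.1 p; ⟨m, h.2 m p, q⟩⟩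

theorem ev_bsets (h : L.all golayOk = true) (w : Word) (a : List ℕ) :
    ev (m24PM L h).gen w • bsets a = bsets (a.map (runW (letN L) w)) := by
  ext s
  simp [mem_smul_finset, mem_bsets, ev_smul_bset]

/-- the list `O` is closed under the words `ws` -/
noncomputable def clos (L : List Net) (ws : List Word) (O : List (List ℕ)) : Bool :=
  ws.all fun w => O.all fun a => O.any (same (a.map (runW (letN L) w)))

/-- every member of the list is moved by a word to a later one, the last being `a0` -/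
noncomputable def rch (L : List Net) (ws : List Word) (a0 : List ℕ) (O : List (List ℕ)) : Bool :=
  @List.rec (List ℕ) (fun _ => Bool) true
    (fun a r ih => (same a a0 || ws.any fun w => r.any (same (a.map (runW (letN L) w)))) && ih) O

theorem orbit_list (h : L.all golayOk = true) {ws : List Word} {a0 : List ℕ} {O : List (List ℕ)} (h0 : a0 ∈ O)
    (h1 : clos L ws O = true) (h2 : rch L ws a0 O = true) :
    orbit (sub (m24PM L h).gen ws) (bsets a0) = bsets '' {a | a ∈ O} := by
  refine Set.Subset.antisymm ?_ ?_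
  · have : sub (m24PM L h).gen ws ≤ stabilizer M24 (bsets '' {a | a ∈ O}) := (sub_le _).2 fun w hw =>
      Set.eq_of_subset_of_ncard_le (by
        rintro _ ⟨_, ⟨a, ha, rfl⟩, rfl⟩
        obtain ⟨b, hb, e⟩ := List.any_eq_true.1 (List.all_eq_true.1 (List.all_eq_true.1 h1 w hw) a ha)
        exact ⟨b, hb, (same_spec e).symm.trans (ev_bsets h w a).symm⟩) (Set.ncard_smul_set _ _).ge
    rintro _ ⟨g, rfl⟩
    exact (this g.2).le (Set.smul_mem_smul_set ⟨a0, h0, rfl⟩)
  · clear h0 h1
    induction O with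
    | nil => simp
    | cons a r ih =>
      obtain ⟨h3, h4⟩ := Bool.and_eq_true_iff.1 h2
      rintro _ ⟨b, hb, rfl⟩
      rcases List.mem_cons.1 hb with rfl | hb
      · rcases Bool.or_eq_true_iff.1 h3 with q | q
        · exact same_spec q ▸ mem_orbit_self _
        obtain ⟨w, hw, q⟩ := List.any_eq_true.1 q
        obtain ⟨c, hc, q⟩ := List.any_eq_true.1 q
        obtain ⟨g, hg⟩ := ih h4 ⟨c, hc, rfl⟩
        exact ⟨(⟨_, ev_mem_sub _ hw⟩ : sub _ ws)⁻¹ * g, (mul_smul ..).trans (inv_smul_eq_iff.2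
          (hg.trans ((same_spec q).symm.trans (ev_bsets h w b).symm)))⟩
      exact ih h4 ⟨b, hb, rfl⟩

/-- the lists give different sets of subsets -/
noncomputable def dif (O : List (List ℕ)) : Bool :=
  @List.rec (List ℕ) (fun _ => Bool) true
    (fun a r ih => (a.all (Nat.blt · 0x1000000) && r.all fun b => a.any fun x => !b.any (Nat.beq x)) && ih) O

theorem ncard_dif {O : List (List ℕ)} (h : dif O = true) : (bsets '' {a | a ∈ O}).ncard = O.length := by
  have k : ∀ O, dif O = true → (∀ a ∈ O, ∀ x ∈ a, x < 2 ^ 24) ∧ (O.map bsets).Nodup := fun O h => by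
    induction O with
    | nil => simp
    | cons a r ih =>
      obtain ⟨h1, h2⟩ := Bool.and_eq_true_iff.1 h
      simp only [Bool.and_eq_true, List.all_eq_true, List.any_eq_true, Nat.blt_eq, Bool.not_eq_true',
        List.any_eq_false, Nat.beq_eq] at h1
      refine ⟨List.forall_mem_cons.2 ⟨h1.1, (ih h2).1⟩, List.nodup_cons.2 ⟨fun q => ?_, (ih h2).2⟩⟩
      obtain ⟨b, hb, e⟩ := List.mem_map.1 q
      obtain ⟨x, hx, n⟩ := h1.2 b hb
      obtain ⟨y, hy, e⟩ := mem_bsets.1 (e ▸ mem_bsets.2 ⟨x, hx, rfl⟩ : bset x ∈ bsets b)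
      exact n y hy (bset_inj (h1.1 x hx) ((ih h2).1 b hb y hy) e.symm)
  rw [← List.length_map bsets, ← List.toFinset_card_of_nodup (k O h).2, ← Set.ncard_coe_finset]
  exact congrArg _ (by ext; simp)

end H28
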