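import Cfsg.Agent.H14.M24Use
import Cfsg.Agent.H14.Code24

/-! Cosets of the binary Golay code and the punctured code. -/

namespace H28
open Cfsg H14 Finset

theorem gc_min {s : Finset GolayPt} (hs : s ∈ GC) (h : s.card < 8) : s = ∅ :=
  card_eq_zero.1 (by have := card_mem_GC hs; omega)

theorem sub_mem_golay {w v : GolayPt → ZMod 2} : w - v ∈ golayCode ↔ symmDiff (support₂ w) (support₂ v) ∈ GC := by
  rw [← support_mem_GC, support₂_sub]

theorem sd_sd {s t u : Finset GolayPt} (h1 : symmDiff s t ∈ GC) (h2 : symmDiff s u ∈ GC) : symmDiff t u ∈ GC := by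
  have := symmDiff_mem_GC h1 h2
  rwa [symmDiff_comm s t, symmDiff_assoc, symmDiff_symmDiff_cancel_left] at this

theorem short_sets (s : Finset GolayPt) : (∃ t, {u | u.card ≤ 4 ∧ symmDiff s u ∈ GC} = {t} ∧ t.card ≤ 3) ∨
    ({u | u.card ≤ 4 ∧ symmDiff s u ∈ GC}.ncard = 6 ∧ ∀ u, symmDiff s u ∈ GC → u.card ≤ 4 → u.card = 4) := by
  obtain ⟨c, hc, h⟩ := exists_leader s
  obtain ⟨t, rfl⟩ : ∃ t, c = symmDiff s t := ⟨symmDiff s c, by simp⟩
  rw [symmDiff_symmDiff_cancel_left] at h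
  have k : ∀ u, symmDiff s u ∈ GC → t.card + u.card < 8 → u = t := fun u hu h =>
    (symmDiff_eq_empty.1 (gc_min (sd_sd hc hu) (by have := card_symmDiff_add t u; omega))).symm
  by_cases h3 : t.card ≤ 3
  · exact .inl ⟨t, Set.eq_singleton_iff_unique_mem.2 ⟨⟨h, hc⟩, fun u hu => k u hu.2 (by have := hu.1; omega)⟩, h3⟩
  have h4 : ∀ u, symmDiff s u ∈ GC → u.card ≤ 4 → u.card = 4 := fun u hu h' => by
    by_contra q
    have := k u hu (by omega)
    subst this; omega
  obtain ⟨S, ⟨hS, ht⟩, -⟩ := exists_unique_sextet (t := t) (by omega)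
  refine .inr ⟨?_, h4⟩
  rw [← hS.1, ← Set.ncard_coe_finset]
  refine congrArg _ (Set.ext fun u => ⟨fun hu => mem_sextet_of hS ht (h4 u hu.2 hu.1) (sd_sd hc hu.2), fun hu => ?_⟩)
  refine ⟨(hS.2.1 u hu).le, ?_⟩
  obtain rfl | ne := eq_or_ne t u
  · exact hc
  have o := mem_octads.1 (hS.2.2 t ht u hu ne)
  have := card_union_add_card_inter t u
  rw [o.2, hS.2.1 u hu, hS.2.1 t ht] at this
  have d : Disjoint t u := disjoint_iff_inter_eq_empty.2 (card_eq_zero.1 (by omega))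
  have := symmDiff_mem_GC hc (t := symmDiff t u) (d.symmDiff_eq_sup ▸ o.1)
  rwa [symmDiff_assoc, symmDiff_symmDiff_cancel_left] at this

/-- the punctured word of a set -/
def pun (s : Finset GolayPt) : ZMod 23 → ZMod 2 := fun x => indW s (some x)

theorem mem_pun {u : ZMod 23 → ZMod 2} : (∃ w ∈ golayCode, ∀ x : ZMod 23, u x = w (some x)) ↔ u ∈ pun '' GC :=
  ⟨fun ⟨w, h, e⟩ => ⟨_, support_mem_GC.2 h, funext fun x => by rw [pun, indW_support, e]⟩,
    fun ⟨_, h, e⟩ => ⟨_, indW_mem.2 h, fun _ => e ▸ rfl⟩⟩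

theorem norm_pun (s : Finset GolayPt) : hammingNorm (pun s) = (s.erase none).card := by
  rw [← card_eraseNone_eq_card_erase, hn_eq]
  exact congrArg _ (by ext x; simp [mem_support₂, pun, indW])

theorem pun_sub (s t : Finset GolayPt) : pun s - pun t = pun (symmDiff s t) := funext fun x => by
  simp only [pun, indW_symmDiff, Pi.add_apply, Pi.sub_apply, CharTwo.sub_eq_add]

theorem pun_eq {s t : Finset GolayPt} (hs : s ∈ GC) (ht : t ∈ GC) (h : hammingNorm (pun s - pun t) < 7) : s = t := by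
  rw [pun_sub, norm_pun] at h
  exact symmDiff_eq_empty.1 (gc_min (symmDiff_mem_GC hs ht) (by have := pred_card_le_card_erase (s := symmDiff s t) (a := none); omega))

theorem pun_inj : Set.InjOn pun GC := fun _ hs _ ht h => pun_eq hs ht (by simp [h])

theorem ncard_pun (k : ℕ) : {u | u ∈ pun '' GC ∧ hammingNorm u = k}.ncard =
    cntCW fun m => Nat.beq (p24 (Nat.land m 0x7fffff)) k := by
  rw [← ncard_CW (P := fun s => (s.erase none).card = k) fun m _ => by
    rw [← card_bset_eq_iff, Nat.land_eq, bset_and, show bset 0x7fffff = univ.erase none by decide, inter_erase, inter_univ],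
    ← (pun_inj.mono fun _ h => h.1).ncard_image]
  exact congrArg _ (Set.ext fun u => ⟨by rintro ⟨⟨s, h, rfl⟩, e⟩; exact ⟨s, ⟨h, norm_pun s ▸ e⟩, rfl⟩,
    by rintro ⟨s, h, rfl⟩; exact ⟨⟨s, h.1, rfl⟩, (norm_pun s).trans h.2⟩⟩)

end H28
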