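import Cfsg.Agent.H15.Kl0
import Cfsg.Agent.H7.Sect
import Cfsg.Agent.H7.Misc

/-! Piece `PA` of S4606: subsections of a block with `k(B) - l(B) = 1`. -/
set_option autoImplicit false
namespace H28.KlA
open Subgroup Cfsg H5 H7
universe u

theorem pA : H15.Kl.PA.{u} := by
  intro G _ _ p _ M hM B hB hk x y hx hy hxp hyp b b' hb hb'
  classical
  haveI : PM p M := ⟨hM⟩
  haveI := Fintype.ofFinite G
  have hS := isSat_of_isPBlock hB
  have conjpe : ∀ g h : G, IsConj g h → IsPE p g → IsPE p h := by
    intro g h e hg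
    obtain ⟨c, rfl⟩ := isConj_iff.1 e
    obtain ⟨k, hk⟩ := hg
    exact ⟨k, by rw [← hk]; exact (MulAut.conj c).orderOf_eq g⟩
  let r : G → G := fun g => Quotient.out (ConjClasses.mk g)
  have hr : ∀ g, IsConj g (r g) := fun g => by
    rw [← ConjClasses.mk_eq_mk_iff_isConj]
    exact (Quotient.out_eq _).symm
  have hrr : ∀ g h, IsConj g h → r g = r h := fun g h e => by
    simp only [r]
    rw [ConjClasses.mk_eq_mk_iff_isConj.2 e]
  let X : Finset G := Finset.univ.filter (fun g => IsPE p g ∧ r g = g)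
  have hX : ∀ g, IsPE p g → r g ∈ X := fun g hg => by
    simp only [X, Finset.mem_filter, Finset.mem_univ, true_and]
    exact ⟨conjpe _ _ (hr g) hg, (hrr _ _ (hr g)).symm⟩
  have hsum := card_eq_sum_lr (p := p) hS X (fun g hg => (Finset.mem_filter.1 hg).2.1)
    (fun g hg _ => ⟨r g, hX g hg, hr g⟩)
    (fun g hg h hh e => by rw [← (Finset.mem_filter.1 hg).2.2, ← (Finset.mem_filter.1 hh).2.2]; exact hrr _ _ e)
  have low : ∀ (z : G) (c : Set (IrrCharacter (centralizer ({z} : Set G)))), IsPE p z →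
      IsInducedBlock M (centralizer ({z} : Set G)) c B → 0 < blockRank p c ∧ blockRank p c ≤ lr M p B (r z) := by
    intro z c hz hc
    refine ⟨blockRank_pos (isSat_of_isPBlock hc.1) ?_, ?_⟩
    · obtain ⟨χ, hχ⟩ := block_nonempty hc.1
      exact ⟨χ, hχ⟩
    · rw [← lr_conj hS hz (hr z), lr_eq_sum hB hz, finsum_mem_eq_finite_toFinset_sum _ (Set.toFinite _)]
      refine Finset.single_le_sum (f := fun c => blockRank p c) (fun _ _ => Nat.zero_le _) ?_
      simpa using isInducedBlock_iff_indB.1 hc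
  have pe1 : IsPE p (1 : G) := ⟨0, by simp⟩
  have r1 : lr M p B (r 1) = blockRank p B := by rw [← lr_conj hS pe1 (hr 1), lr_one hS]
  have ne1 : ∀ z : G, z ≠ 1 → r 1 ≠ r z := fun z hz e => hz (isConj_one_left.1 ((hr z).trans (e ▸ (hr 1).symm)))
  obtain ⟨bx0, bx1⟩ := low x b hxp hb
  obtain ⟨by0, by1⟩ := low y b' hyp hb'
  constructor
  · by_contra hn
    have hne : r x ≠ r y := fun e => hn ((hr x).trans (e ▸ (hr y).symm))
    have hsub : ({r 1, r x, r y} : Finset G) ⊆ X := by
      intro g hg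
      simp only [Finset.mem_insert, Finset.mem_singleton] at hg
      rcases hg with rfl | rfl | rfl
      exacts [hX _ pe1, hX _ hxp, hX _ hyp]
    have h := Finset.sum_le_sum_of_subset (f := fun g => lr M p B g) hsub
    rw [Finset.sum_insert (by simp [ne1 x hx, ne1 y hy]), Finset.sum_pair hne, ← hsum, r1] at h
    omega
  · have hsub : ({r 1, r x} : Finset G) ⊆ X := by
      intro g hg
      simp only [Finset.mem_insert, Finset.mem_singleton] at hg
      rcases hg with rfl | rfl
      exacts [hX _ pe1, hX _ hxp]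
    have h := Finset.sum_le_sum_of_subset (f := fun g => lr M p B g) hsub
    rw [Finset.sum_pair (ne1 x hx), ← hsum, r1] at h
    omega

end H28.KlA
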