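import Cfsg.Agent.H13.Km0

/-! An invariant complement (`pQ`): piece `PQ` of `H13.Km`. -/
set_option autoImplicit false
namespace H28.KmQ
open Cfsg H18 H1 Subgroup H13.Km
universe u

section
variable {G : Type*} [Group G] [Finite G] {K F H V Q : Subgroup G} {p : ℕ}

/-- Frattini argument for complements -/
theorem frat (hV : PiGrp {p} V) (hQ : PiGrp {p}ᶜ Q) (s : SD V Q K) {a : G} (h1 : a ∈ N(K)) :
    ∃ v ∈ V, v * a ∈ N(Q) := by
  obtain ⟨v, hv, e⟩ := exists_conj_le_of_le_sup V (cj a Q) Q s.norm (by simpa using hV.coprime hQ)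
    (Or.inl hV.solv) (s.sup ▸ cj_le_of_mem_N s.le_right h1)
  exact ⟨v, hv, mem_N_of_cj_le (by rw [cj_mul]; exact e)⟩

theorem cD (c : Cf K F H) (hV : PiGrp {p} V) (l : V ≤ K) (nF : F ≤ N(V)) : V ⊓ C(O[{p}ᶜ](F)) = ⊥ := by
  by_contra h
  refine (pcore_pi (π := {p}) (H := F)).meet_cent (hV.of_le inf_le_left)
    (norm_inf (pcore_le.trans nF) (norm_C (pcore_le.trans (norm_pcore le_N)))) h (eq_bot_iff.2 ?_)
  rw [← c.cf]
  conv_rhs => rw [← c.nil.pcore_sup (π := {p}), C_sup]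
  exact le_inf (inf_le_left.trans (inf_le_left.trans l)) (le_inf inf_le_right (inf_le_left.trans inf_le_right))
end

theorem pQ : PQ.{u} := by
  intro G _ _ K F H V Q p c hp hV hQ s nF nH _
  have h0 := cD c hV s.le_left nF
  set D := O[{p}ᶜ](F) with hD
  have DF : D ≤ F := pcore_le
  have pD : PiGrp {p}ᶜ D := pcore_pi
  obtain ⟨n, hn, e⟩ := exists_conj_le_of_le_sup V D (N(Q) ⊓ N(V)) inf_le_right (hV.coprime pD) (Or.inl hV.solv)
    fun d hd => by
      obtain ⟨v, hv, e⟩ := frat hV hQ s (c.nF (DF hd))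
      have := mul_mem (mem_sup_left (inv_mem hv) : v⁻¹ ∈ V ⊔ N(Q) ⊓ N(V))
        (mem_sup_right ⟨e, mul_mem (le_N hv) (nF (DF hd))⟩)
      simpa using this
  have s' : SD V (cj n⁻¹ Q) K := s.cj_mem (inv_mem (s.le_left hn))
  have q' : PiGrp {p}ᶜ (cj n⁻¹ Q) := hQ.cj _
  have n' : D ≤ N(cj n⁻¹ Q) := by
    rw [← cj_N, le_cj_iff, inv_inv]
    exact le_trans e inf_le_left
  generalize cj n⁻¹ Q = R at s' q' n'
  have key : ∀ a ∈ N(K), a ∈ N(D) → a ∈ N(R) := fun a h1 h2 => by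
    obtain ⟨v, hv, e⟩ := frat hV q' s' h1
    have e' : cj v⁻¹ R = cj a R := by
      conv_lhs => rw [← cj_eq_self e, cj_mul, cj_inv_cj]
    obtain ⟨x, hx, k⟩ := exists_centralizer_conj_eq (DF.trans nF) (hV.coprime pD).symm (Or.inr hV.solv) n'
      (inv_mem hv) (show D ≤ N(cj v⁻¹ R) by
        rw [e']
        conv_lhs => rw [← cj_eq_self h2]
        exact cj_norm_iff.2 n')
    have x1 : x = 1 := eq_one_of_eq_bot h0 hx
    rw [mem_N_iff_cj, ← e']
    refine Eq.trans (show _ = cj x R from k.symm) ?_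
    rw [x1, cj_one]
  exact ⟨R, s', fun a ha => key a (c.nF ha) (norm_pcore le_N ha), fun a ha => key a (c.nH ha) (norm_pcore c.hn ha)⟩

end H28.KmQ
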