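import Cfsg.Agent.H25.OutSU
import Cfsg.Agent.H3.U3

/-! `PGU₃(q)`, `q` even: coordinates on the centralizer of a transvection (`UD`), the action `Φ` of `GU₃` on `PSU₃`. -/

set_option autoImplicit false
set_option linter.unusedSectionVars false
set_option linter.unusedVariables false

namespace H28.Pgu
open Cfsg Matrix Subgroup H25

variable {F : Type*} [Field F]

/-- coordinates on the centralizer of a transvection of `PGU₃(q)` -/
structure UD (σ : F ≃+* F) {T : Type*} [Group T] (f z d : T → F) : Prop where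
  inv : ∀ a, σ (σ a) = a
  ne : σ ≠ 1
  mul_f : ∀ x y, f (x * y) = f x + d x * f y
  mul_z : ∀ x y, z (x * y) = z x + z y + σ (f x) * d x * f y
  mul_d : ∀ x y, d (x * y) = d x * d y
  inj : ∀ x y, f x = f y → z x = z y → d x = d y → x = y
  cond : ∀ x, z x + σ (z x) = f x * σ (f x)
  nrm : ∀ x, d x * σ (d x) = 1
  surj : ∀ a b, b + σ b = a * σ a → ∃ x, f x = a ∧ z x = b ∧ d x = 1

namespace UD
variable {σ : F ≃+* F} {T : Type*} [Group T] {f z d : T → F} (h : UD σ f z d)
include h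

theorem equiv {T' : Type*} [Group T'] (e : T' ≃* T) :
    UD σ (fun x => f (e x)) (fun x => z (e x)) (fun x => d (e x)) where
  inv := h.inv
  ne := h.ne
  mul_f x y := by simp only [map_mul, h.mul_f]
  mul_z x y := by simp only [map_mul, h.mul_z]
  mul_d x y := by simp only [map_mul, h.mul_d]
  inj x y a b c := e.injective (h.inj _ _ a b c)
  cond x := h.cond _
  nrm x := h.nrm _
  surj a b c := by
    obtain ⟨x, hx⟩ := h.surj a b c
    exact ⟨e.symm x, by simpa using hx⟩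

theorem d_ne (x : T) : d x ≠ 0 := left_ne_zero_of_mul_eq_one (h.nrm x)

/-- the determinant -/
def dH : T →* F where
  toFun := d
  map_one' := by
    have := h.mul_d 1 1
    rw [mul_one] at this
    exact (mul_eq_left₀ (h.d_ne 1)).1 this.symm
  map_mul' := h.mul_d

/-- the normal Sylow `2`-subgroup -/
def Q : Subgroup T := h.dH.ker

theorem mem_Q {x : T} : x ∈ h.Q ↔ d x = 1 := Iff.rfl

instance : h.Q.Normal := inferInstanceAs h.dH.ker.Normal

theorem u3d : H3.U3D σ (fun x : h.Q => f x) (fun x => z x) where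
  inv := h.inv
  ne := h.ne
  mul_f x y := by rw [coe_mul, h.mul_f, h.mem_Q.1 x.2, one_mul]
  mul_z x y := by rw [coe_mul, h.mul_z, h.mem_Q.1 x.2, mul_one]
  inj x y a b := Subtype.ext (h.inj _ _ a b ((h.mem_Q.1 x.2).trans (h.mem_Q.1 y.2).symm))
  cond x := h.cond _
  surj a b c := by
    obtain ⟨x, h1, h2, h3⟩ := h.surj a b c
    exact ⟨⟨x, h3⟩, h1, h2⟩

theorem pow_mem {q : ℕ} (hq : ∀ x, σ x = x ^ q) (x : T) : x ^ (q + 1) ∈ h.Q := by
  show h.dH (x ^ (q + 1)) = 1
  rw [map_pow, pow_succ']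
  exact (hq (d x) ▸ h.nrm x :)

variable [CharP F 2]

theorem mem_of_pow {x : T} {k : ℕ} (e : x ^ 2 ^ k = 1) : x ∈ h.Q := by
  have : d x ^ 2 ^ k = 1 := by
    have := congrArg h.dH e
    rwa [map_pow, map_one] at this
  have e2 : (d x - 1) ^ 2 ^ k = 0 := by rw [sub_pow_char_pow, this, one_pow, sub_self]
  exact sub_eq_zero.1 (pow_eq_zero_iff (by positivity) |>.1 e2)

theorem comm_of_sq {x : T} (e : x * x = 1) (y : T) : x * y = y * x := by
  have hx : x ∈ h.Q := h.mem_of_pow (k := 1) (by rw [pow_one, pow_two, e])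
  have h1 : f x = 0 := (h.u3d.sq_eq_one (x := ⟨x, hx⟩)).1 (Subtype.ext e)
  have h2 := h.mem_Q.1 hx
  refine h.inj _ _ ?_ ?_ ?_
  · simp [h.mul_f, h1, h2]
  · simp [h.mul_z, h1, h2, add_comm]
  · simp [h.mul_d, h2]

theorem mem_of_comm {x : T} (e : ∀ y ∈ h.Q, x * y = y * x) : x ∈ h.Q := by
  obtain ⟨y, hy⟩ := h.u3d.f_surj 1
  have := congrArg f (e y y.2)
  rw [h.mul_f, h.mul_f, h.mem_Q.1 y.2] at this
  rw [hy] at this
  rw [mem_Q]
  linear_combination this
end UD

variable {q : ℕ}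

/-- `SU ≤ GU` -/
def io (n : ℕ) (F : Type*) [Field F] (q : ℕ) : SU n F q →* GU n F q :=
  ((SpecialLinearGroup.toGL.comp (SU n F q).subtype).codRestrict _ fun g => g.2)

/-- the matrix of an element of `GU` -/
abbrev mt {n : ℕ} (g : GU n F q) : Matrix (Fin n) (Fin n) F := g.1.1

theorem mt_mul {n : ℕ} (g g' : GU n F q) : mt (g * g') = mt g * mt g' := rfl
theorem mt_io {n : ℕ} (s : SU n F q) : mt (io n F q s) = s.1.1 := rfl
theorem mt_ext {n : ℕ} {g g' : GU n F q} (h : mt g = mt g') : g = g' := Subtype.ext (Units.ext h)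

theorem io_inj {n : ℕ} : Function.Injective (io n F q) := fun a b h =>
  Subtype.ext (Subtype.ext (congrArg mt h))

theorem exists_cj {n : ℕ} (g : GU n F q) (s : SU n F q) : ∃ s', io n F q s' = g * io n F q s * g⁻¹ := by
  refine ⟨⟨⟨mt (g * io n F q s * g⁻¹), ?_⟩, (g * io n F q s * g⁻¹).2⟩, mt_ext rfl⟩
  rw [mt_mul, mt_mul, det_mul, det_mul, mt_io, s.1.2, mul_one, ← det_mul, ← mt_mul, mul_inv_cancel]
  exact det_one

/-- the stabilizer of the singular vector `(1, 1, 0)` -/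
def B0 (F : Type*) [Field F] (q : ℕ) : Subgroup (GU 3 F q) where
  carrier := {g | mt g *ᵥ ![1, 1, 0] = ![1, 1, 0]}
  one_mem' := one_mulVec _
  mul_mem' {a b} ha hb := by
    simp only [Set.mem_ofPred_eq] at *
    rw [mt_mul, ← mulVec_mulVec, hb, ha]
  inv_mem' {a} ha := by
    simp only [Set.mem_ofPred_eq] at *
    conv_lhs => rw [← ha, mulVec_mulVec, ← mt_mul, inv_mul_cancel]
    exact one_mulVec _

variable [CharP F 2] {σ : F ≃+* F} (inv : ∀ a, σ (σ a) = a) (ne : σ ≠ 1) (hq : ∀ x, σ x = x ^ q)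
include inv hq

theorem herm (g : GU 3 F q) (u v : Fin 3 → F) : ∑ i, (mt g *ᵥ u) i * σ ((mt g *ᵥ v) i) = ∑ i, u i * σ (v i) := by
  have := g.2 u v
  simp only [hermForm, ← hq] at this
  exact this

theorem form {g : GU 3 F q} (hg : g ∈ B0 F q) : ∃ a b d, mt g = !![1 + b, b, σ a * d; b, 1 + b, σ a * d; a, a, d] ∧
    b + σ b = a * σ a ∧ d * σ d = 1 := by
  have t : (2 : F) = 0 := CharTwo.two_eq_zero
  have hv : mt g *ᵥ ![1, 1, 0] = ![1, 1, 0] := hg
  have h0 := congrFun hv 0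
  have h1 := congrFun hv 1
  have h2 := congrFun hv 2
  have k := fun u => herm inv hq g u ![1, 1, 0]
  rw [hv] at k
  have k0 := k ![1, 0, 0]
  have k2 := k ![0, 0, 1]
  have l0 := herm inv hq g ![1, 0, 0] ![1, 0, 0]
  have l1 := herm inv hq g ![0, 0, 1] ![1, 0, 0]
  have l2 := herm inv hq g ![0, 0, 1] ![0, 0, 1]
  simp [mulVec, dotProduct, Fin.sum_univ_three] at h0 h1 h2 k0 k2 l0 l1 l2
  generalize mt g = M at *
  have e00 : M 0 0 = 1 + M 1 0 := by linear_combination k0 - M 1 0 * t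
  have e01 : M 0 1 = M 1 0 := by linear_combination h0 - k0
  have e11 : M 1 1 = 1 + M 1 0 := by linear_combination h1 - M 1 0 * t
  have e21 : M 2 1 = M 2 0 := by linear_combination h2 - M 2 0 * t
  have e02 : M 0 2 = M 1 2 := by linear_combination k2 - M 1 2 * t
  rw [e00, map_add, map_one] at l0 l1
  rw [e02] at l1 l2
  have e12 : M 1 2 = σ (M 2 0) * M 2 2 := by
    linear_combination l1 - (M 1 2 * σ (M 1 0) + M 2 2 * σ (M 2 0)) * t
  refine ⟨M 2 0, M 1 0, M 2 2, ?_, ?_, ?_⟩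
  · ext i j
    fin_cases i <;> fin_cases j <;> simp [e00, e01, e11, e21, e02, e12]
  · linear_combination l0 - (M 1 0 * σ (M 1 0) + M 2 0 * σ (M 2 0)) * t
  · linear_combination l2 - M 1 2 * σ (M 1 2) * t

include ne in
theorem ud_B0 : UD σ (fun g : B0 F q => mt g.1 2 0) (fun g => mt g.1 1 0) (fun g => mt g.1 2 2) := by
  have t : (2 : F) = 0 := CharTwo.two_eq_zero
  refine ⟨inv, ne, ?_, ?_, ?_, ?_, ?_, ?_, ?_⟩
  iterate 3
    intro x y
    obtain ⟨a, b, d, e, -⟩ := form inv hq x.2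
    obtain ⟨a', b', d', e', -⟩ := form inv hq y.2
    rw [coe_mul, mt_mul, e, e']
    simp [Matrix.mul_apply, Fin.sum_univ_three]
    first
    | linear_combination (a * b') * t
    | linear_combination (b * b') * t
    | linear_combination (a * σ a' * d') * t
  · intro x y
    obtain ⟨a, b, d, e, -⟩ := form inv hq x.2
    obtain ⟨a', b', d', e', -⟩ := form inv hq y.2
    intro h1 h2 h3
    rw [e, e'] at h1 h2 h3
    simp at h1 h2 h3
    subst h1 h2 h3
    exact Subtype.ext (mt_ext (e.trans e'.symm))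
  · intro x
    obtain ⟨a, b, d, e, h, -⟩ := form inv hq x.2
    simpa [e] using h
  · intro x
    obtain ⟨a, b, d, e, -, h⟩ := form inv hq x.2
    simpa [e] using h
  · intro a b h
    refine ⟨⟨io 3 F q (H3.suEl inv hq h), ?_⟩, rfl, rfl, rfl⟩
    show !![1 + b, b, σ a; b, 1 + b, σ a; a, a, 1] *ᵥ ![1, 1, 0] = ![1, 1, 0]
    ext i
    fin_cases i <;> simp [mulVec, dotProduct, Fin.sum_univ_three]
    · linear_combination b * t
    · linear_combination b * t
    · linear_combination a * t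

/-- the transvections with centre `(1, 1, 0)` -/
def tv (b : F) (hb : σ b = b) : SU 3 F q :=
  H3.suEl inv hq (a := 0) (b := b) (by rw [hb, zero_mul]; exact CharTwo.add_self_eq_zero b)

theorem tv_mat (b : F) (hb : σ b = b) : (tv inv hq b hb).1.1 = !![1 + b, b, 0; b, 1 + b, 0; 0, 0, 1] := by
  show !![1 + b, b, σ 0; b, 1 + b, σ 0; 0, 0, 1] = _
  rw [map_zero]

theorem tv_mem (b : F) (hb : σ b = b) : io 3 F q (tv inv hq b hb) ∈ B0 F q := by
  have t : (2 : F) = 0 := CharTwo.two_eq_zero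
  show (tv inv hq b hb).1.1 *ᵥ ![1, 1, 0] = ![1, 1, 0]
  rw [tv_mat]
  ext i
  fin_cases i <;> simp [mulVec, dotProduct, Fin.sum_univ_three] <;> linear_combination b * t

theorem tv_sq (b : F) (hb : σ b = b) : tv inv hq b hb * tv inv hq b hb = 1 := by
  have t : (2 : F) = 0 := CharTwo.two_eq_zero
  refine Subtype.ext (Subtype.ext ?_)
  show (tv inv hq b hb).1.1 * (tv inv hq b hb).1.1 = 1
  rw [tv_mat]
  ext i j
  fin_cases i <;> fin_cases j <;> simp [Matrix.mul_apply, Fin.sum_univ_three] <;>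
    first | linear_combination (b + b ^ 2) * t

/-- scalars of norm one -/
def sc (c : F) (hc : c * σ c = 1) : GU 3 F q :=
  ⟨GeneralLinearGroup.scalar _ (Units.mk0 c (left_ne_zero_of_mul_eq_one hc)), fun u v => by
    show hermForm 3 F q (scalar _ c *ᵥ u) (scalar _ c *ᵥ v) = _
    simp only [hermForm, ← hq, Fin.sum_univ_three]
    simp [mulVec_diagonal]
    linear_combination (u 0 * σ (v 0) + u 1 * σ (v 1) + u 2 * σ (v 2)) * hc⟩

omit inv hq [CharP F 2] in
theorem scalar_center {g : GU 3 F q} {c : F} (h : mt g = scalar _ c) : g ∈ center (GU 3 F q) :=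
  mem_center_iff.2 fun k => mt_ext (by rw [mt_mul, mt_mul, h]; exact (scalar_commute c (fun _ => .all _ _) _).eq.symm)

theorem exists_B0 {g : GU 3 F q} (h : g * io 3 F q (tv inv hq 1 (map_one σ)) = io 3 F q (tv inv hq 1 (map_one σ)) * g) :
    ∃ c ∈ center (GU 3 F q), c * g ∈ B0 F q := by
  have t : (2 : F) = 0 := CharTwo.two_eq_zero
  have e := congrArg mt h
  rw [mt_mul, mt_mul, mt_io, tv_mat, CharTwo.add_self_eq_zero] at e
  have h0 := congrFun (congrFun e 0) 0
  have h1 := congrFun (congrFun e 0) 1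
  have h2 := congrFun (congrFun e 2) 0
  have l := herm inv hq g ![1, 0, 0] ![1, 1, 0]
  simp [mulVec, dotProduct, Fin.sum_univ_three, Matrix.mul_apply] at h0 h1 h2 l
  have n : σ (mt g 0 0 + mt g 1 0) * σ (σ (mt g 0 0 + mt g 1 0)) = 1 := by
    rw [inv, map_add]
    rw [h0, ← h1, h2] at l
    linear_combination l - mt g 2 0 * σ (mt g 2 0) * t
  refine ⟨sc hq _ n, scalar_center (c := σ (mt g 0 0 + mt g 1 0)) rfl, ?_⟩
  show (scalar _ (σ (mt g 0 0 + mt g 1 0)) * mt g) *ᵥ ![1, 1, 0] = ![1, 1, 0]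
  rw [inv] at n
  generalize σ (mt g 0 0 + mt g 1 0) = c at n
  ext i
  fin_cases i <;> simp [mulVec, dotProduct, Fin.sum_univ_three]
  · linear_combination n + c * h0
  · linear_combination n - c * h1
  · linear_combination c * h2 + c * mt g 2 0 * t

end H28.Pgu
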