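import Cfsg.Agent.H28.Pgu1

/-! `PGU₃(q)`, `q` even: the action `Φ` of `GU₃` on `PSU₃`, its kernel and range (`mem_range_of_fix`), the centralizer of a
transvection (`ud_cent`). -/

set_option autoImplicit false
set_option linter.unusedSectionVars false
set_option linter.unusedVariables false

namespace H28.Pgu
open Cfsg Matrix Subgroup H25 H11

variable {F : Type*} [Field F] [Finite F] {q : ℕ} [CharP F 2] {σ : F ≃+* F} (inv : ∀ a, σ (σ a) = a) (ne : σ ≠ 1)
  (hq : ∀ x, σ x = x ^ q)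

omit [Finite F] [CharP F 2] in
theorem hne (ne : σ ≠ 1) : (σ : F →+* F) ≠ RingHom.id F := fun e => ne (RingEquiv.ext fun x => congrArg (· x) e)

omit [Finite F] [CharP F 2] in
theorem ci (inv : ∀ a, σ (σ a) = a) : ∀ a, (σ : F →+* F) ((σ : F →+* F) a) = a := inv

omit [Finite F] [CharP F 2] in
theorem cq (hq : ∀ x, σ x = x ^ q) : ∀ x, (σ : F →+* F) x = x ^ q := hq

/-- conjugation action of `GU₃` on `PSU₃` -/
noncomputable def Φ : GU 3 F q →* MulAut (PSU 3 F q) :=
  ((suPhiS (ci inv) (hne ne) (cq hq) le_rfl).comp (isS _)).comp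
    (guEquiv (ci inv) (hne ne) (cq hq) 3).toMonoidHom

theorem iso_gu (g : GU 3 F q) : isoGL _ (guEquiv (ci inv) (hne ne) (cq hq) 3 g) = g.1 :=
  Units.ext (matrix_ext_mulVec fun v => by rw [isoGL_mulVec, guEquiv_apply])

theorem Φ_mk (g : GU 3 F q) {s s' : SU 3 F q} (h : io 3 F q s' = g * io 3 F q s * g⁻¹) :
    Φ inv ne hq g (QuotientGroup.mk s) = QuotientGroup.mk s' := by
  refine (su_induced_iff (ci inv) (hne ne) (cq hq) le_rfl
    (gsI _ (isS _ (guEquiv (ci inv) (hne ne) (cq hq) 3 g))) _).2 rfl s s' ?_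
  have := congrArg mt h
  rw [coe_gsI, coe_isS, iso_gu inv ne hq]
  rw [mt_mul, mt_mul, mt_io, mt_io, show mt g⁻¹ = (mt g)⁻¹ from Matrix.coe_units_inv g.1] at this
  simpa using this

theorem Φ_scalar {g : GU 3 F q} (h : Φ inv ne hq g = 1) : ∃ c : F, mt g = scalar _ c := by
  obtain ⟨c, hc⟩ := ((suCtx (ci inv) (hne ne) (cq hq) le_rfl).PhiS_eq_one
    (suCtx_hE (ci inv) (hne ne) (cq hq) le_rfl) (by simp) _).1 h
  have := congrArg Subtype.val hc
  rw [coe_isS, coe_scS] at this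
  exact ⟨c, congrArg Units.val ((iso_gu inv ne hq g).symm.trans this)⟩

theorem Φ_eq_one {g : GU 3 F q} : Φ inv ne hq g = 1 ↔ g ∈ center (GU 3 F q) := by
  refine ⟨fun h => ?_, fun h => MulEquiv.ext fun x => ?_⟩
  · obtain ⟨c, hc⟩ := Φ_scalar inv ne hq h
    exact scalar_center hc
  · obtain ⟨s, rfl⟩ := QuotientGroup.mk_surjective x
    exact Φ_mk inv ne hq g (by rw [← mem_center_iff.1 h, mul_inv_cancel_right])

include inv ne hq in
theorem center_sq {g : GU 3 F q} (h : g ∈ center (GU 3 F q)) (h2 : g * g = 1) : g = 1 := by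
  obtain ⟨c, e⟩ := Φ_scalar inv ne hq ((Φ_eq_one inv ne hq).2 h)
  have e2 := congrFun (congrFun (congrArg mt h2) 0) 0
  rw [mt_mul, e, ← map_mul] at e2
  have e3 : (c : F) * c = 1 := by simpa [mt] using e2
  have e4 : (c : F) = 1 := by
    have : ((c : F) - 1) ^ 2 = 0 := by linear_combination e3 + (1 - (c : F)) * CharTwo.two_eq_zero (R := F)
    exact sub_eq_zero.1 (pow_eq_zero_iff two_ne_zero |>.1 this)
  exact mt_ext (by rw [e, e4, map_one]; rfl)

include inv ne hq in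
theorem center_B0 {g : GU 3 F q} (h : g ∈ center (GU 3 F q)) (h2 : g ∈ B0 F q) : g = 1 := by
  obtain ⟨c, e⟩ := Φ_scalar inv ne hq ((Φ_eq_one inv ne hq).2 h)
  have e2 : mt g *ᵥ ![1, 1, 0] = ![1, 1, 0] := h2
  have e4 : (c : F) = 1 := by simpa [e, mulVec_diagonal] using congrFun e2 0
  exact mt_ext (by rw [e, e4, map_one]; rfl)

theorem Φ_io (s : SU 3 F q) : Φ inv ne hq (io 3 F q s) = MulAut.conj (QuotientGroup.mk s) :=
  MulEquiv.ext fun x => by
    obtain ⟨t, rfl⟩ := QuotientGroup.mk_surjective x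
    exact Φ_mk inv ne hq _ (s' := s * t * s⁻¹) (by simp)

include inv ne hq in
theorem io_center {s : SU 3 F q} (h : s ∈ center (SU 3 F q)) : io 3 F q s ∈ center (GU 3 F q) := by
  rw [← Φ_eq_one inv ne hq, Φ_io, (QuotientGroup.eq_one_iff s).2 h, map_one]

theorem range_Φ : (Φ inv ne hq).range = (suPhiS (ci inv) (hne ne) (cq hq) le_rfl).range := by
  rw [(suCtx (ci inv) (hne ne) (cq hq) le_rfl).range_PhiS_unit (suCtx_hE (ci inv) (hne ne) (cq hq) le_rfl) (hne ne), Φ, MonoidHom.range_comp,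
    MonoidHom.range_eq_top.2 (MulEquiv.surjective _), ← MonoidHom.range_eq_map]

theorem mem_range_iff (x : Gam (stdUnit (ci inv) (hne ne) (Fin 3))) :
    suPhi (ci inv) (hne ne) (cq hq) le_rfl x ∈ (Φ inv ne hq).range ↔ x.1.right = 1 := by
  rw [range_Φ, ← fld_apply, ← MonoidHom.mem_ker, ker_fld]
  refine ⟨fun ⟨k, hk⟩ => ?_, fun ⟨k, hk⟩ => ⟨k, hk ▸ rfl⟩⟩
  rw [MonoidHom.comp_apply, eq_comm, ← mul_inv_eq_one, ← map_inv, ← map_mul,
    (suCtx (ci inv) (hne ne) (cq hq) le_rfl).Phi_eq_one (suCtx_hE (ci inv) (hne ne) (cq hq) le_rfl) (by simp)] at hk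
  obtain ⟨c, hc⟩ := hk
  exact ⟨scS _ c * k, by rw [map_mul, ← hc, inv_mul_cancel_right]⟩

include inv ne hq in
/-- two involutions of `GU` which agree modulo the centre are equal -/
theorem eq_of_mk {a b : GU 3 F q} (ha : a * a = 1) (hb : b * b = 1) (h : a⁻¹ * b ∈ center (GU 3 F q)) : a = b := by
  refine inv_mul_eq_one.1 (center_sq inv ne hq h ?_)
  have e := mem_center_iff.1 h a
  have : a⁻¹ = a := inv_eq_of_mul_eq_one_right ha
  rw [this] at e ⊢
  calc a * b * (a * b) = a * (a * b) * b := by rw [e]; group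
    _ = 1 := by rw [← mul_assoc, ha, one_mul, hb]

include ne in
theorem comm_tv {g : GU 3 F q} (h : g * io 3 F q (tv inv hq 1 (map_one σ)) = io 3 F q (tv inv hq 1 (map_one σ)) * g)
    (b : F) (hb : σ b = b) : g * io 3 F q (tv inv hq b hb) = io 3 F q (tv inv hq b hb) * g := by
  obtain ⟨c, hc, hg⟩ := exists_B0 inv hq h
  have := congrArg Subtype.val ((ud_B0 inv ne hq).comm_of_sq (x := ⟨_, tv_mem inv hq b hb⟩)
    (Subtype.ext (by rw [coe_mul, ← map_mul, tv_sq, map_one]; rfl)) ⟨_, hg⟩)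
  simp only [coe_mul] at this
  rw [← mul_assoc, mem_center_iff.1 hc, mul_assoc, mul_assoc] at this
  exact (mul_left_cancel this).symm

theorem mem_range_of_fix (h4 : Nat.card F ≠ 4) {β : MulAut (PSU 3 F q)}
    (h : ∀ b hb, β (QuotientGroup.mk (tv inv hq b hb)) = QuotientGroup.mk (tv inv hq b hb)) {m : ℕ} (hm : Odd m)
    (e : β ^ m ∈ (Φ inv ne hq).range) : β ∈ (Φ inv ne hq).range := by
  obtain ⟨x, rfl⟩ := suPhi_surj (ci inv) (hne ne) (cq hq) le_rfl (fun _ => h4) β
  rw [← map_pow, mem_range_iff, ← fld_apply, map_pow, fld_apply] at e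
  rw [mem_range_iff]
  obtain ⟨g, hg⟩ : suPhiS (ci inv) (hne ne) (cq hq) le_rfl ⟨_, left_mem_GS x (su_rat (ci inv) (hne ne) _)⟩ ∈
    (Φ inv ne hq).range := by rw [range_Φ]; exact ⟨_, rfl⟩
  have st := (su_std_iff (ci inv) (hne ne) (cq hq) le_rfl x.1.right _).2 rfl
  rw [eq_gsI_mul x (su_rat (ci inv) (hne ne) _), map_mul] at h
  replace h : ∀ b hb, Φ inv ne hq g (suPhi (ci inv) (hne ne) (cq hq) le_rfl (inrG (su_rat (ci inv) (hne ne) x.1.right))
    (QuotientGroup.mk (tv inv hq b hb))) = QuotientGroup.mk (tv inv hq b hb) := fun b hb => by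
      rw [hg]; exact h b hb
  clear hg
  generalize suPhi (ci inv) (hne ne) (cq hq) le_rfl (inrG (su_rat (ci inv) (hne ne) x.1.right)) = β at *
  generalize x.1.right = τ at *
  have cm : ∀ a, σ (τ a) = τ (σ a) := fun a => by rw [hq, hq, map_pow]
  have sq : ∀ b hb, io 3 F q (tv inv hq b hb) * io 3 F q (tv inv hq b hb) = 1 := fun b hb => by
    rw [← map_mul, tv_sq, map_one]
  have k : ∀ b (hb : σ b = b) (hb' : σ (τ b) = τ b),
      g * io 3 F q (tv inv hq (τ b) hb') * g⁻¹ = io 3 F q (tv inv hq b hb) := fun b hb hb' => by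
    have h1 := h b hb
    obtain ⟨s', hs⟩ := exists_cj g (tv inv hq (τ b) hb')
    rw [st (tv inv hq b hb) (tv inv hq (τ b) hb') (by
      rw [tv_mat, tv_mat]
      ext i j
      fin_cases i <;> fin_cases j <;> simp)] at h1
    replace h1 := (Φ_mk inv ne hq g hs).symm.trans h1
    have h2 := io_center inv ne hq (QuotientGroup.eq.1 h1)
    rw [map_mul, map_inv, hs] at h2
    refine eq_of_mk inv ne hq ?_ (sq _ _) h2
    calc _ = g * (io 3 F q (tv inv hq (τ b) hb') * io 3 F q (tv inv hq (τ b) hb')) * g⁻¹ := by group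
      _ = 1 := by rw [sq, mul_one, mul_inv_cancel]
  have k1 := k 1 (map_one σ) (by simp)
  simp only [map_one] at k1
  have fx : ∀ b, σ b = b → τ b = b := fun b hb => by
    have hb' : σ (τ b) = τ b := by rw [cm, hb]
    have := k b hb hb'
    rw [comm_tv inv ne hq (mul_inv_eq_iff_eq_mul.1 k1), mul_inv_cancel_right] at this
    have := congrFun (congrFun (congrArg mt this) 1) 0
    simpa [mt_io, tv_mat] using this
  have t2 : τ ^ 2 = 1 := RingEquiv.ext fun a => by
    have h1 := fx (a + σ a) (by rw [map_add, inv, add_comm])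
    have h2 := fx (a * σ a) (by rw [map_mul, inv, mul_comm])
    rw [map_add] at h1
    rw [map_mul] at h2
    have : (τ a - a) * (τ a - σ a) = 0 := by linear_combination τ a * h1 - h2
    show τ (τ a) = a
    rcases mul_eq_zero.1 this with e | e
    · rw [sub_eq_zero.1 e, sub_eq_zero.1 e]
    · rw [sub_eq_zero.1 e, ← cm, sub_eq_zero.1 e, inv]
  obtain ⟨j, rfl⟩ := hm
  rwa [pow_succ, pow_mul, t2, one_pow, one_mul] at e

/-- a transvection in `PGU₃(q)` -/
abbrev ty : GU 3 F q ⧸ center (GU 3 F q) := QuotientGroup.mk (io 3 F q (tv inv hq 1 (map_one σ)))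

include ne in
theorem ty_ord : orderOf (ty inv hq) = 2 := by
  refine orderOf_eq_prime ?_ fun e => ?_
  · rw [pow_two, ← QuotientGroup.mk_mul, ← map_mul, tv_sq, map_one, QuotientGroup.mk_one]
  · have := center_B0 inv ne hq ((QuotientGroup.eq_one_iff _).1 e) (tv_mem inv hq _ _)
    have := congrFun (congrFun (congrArg mt this) 1) 0
    simp [mt_io, tv_mat, mt] at this

include ne in
theorem ud_cent : ∃ f z d : centralizer {ty inv hq} → F, UD σ f z d := by
  have sq : io 3 F q (tv inv hq 1 (map_one σ)) * io 3 F q (tv inv hq 1 (map_one σ)) = 1 := by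
    rw [← map_mul, tv_sq, map_one]
  let φ : B0 F q →* centralizer {ty inv hq} :=
    ((QuotientGroup.mk' _).comp (B0 F q).subtype).codRestrict _ fun g => mem_centralizer_singleton_iff.2
      (congrArg (fun x : B0 F q => (QuotientGroup.mk x.1 : GU 3 F q ⧸ center (GU 3 F q)))
        ((ud_B0 inv ne hq).comm_of_sq (x := ⟨_, tv_mem inv hq 1 (map_one σ)⟩) (Subtype.ext sq) g).symm)
  refine ⟨_, _, _, (ud_B0 inv ne hq).equiv (MulEquiv.ofBijective φ ⟨?_, ?_⟩).symm⟩
  · refine (injective_iff_map_eq_one φ).2 fun g hg => Subtype.ext (center_B0 inv ne hq ?_ g.2)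
    exact (QuotientGroup.eq_one_iff _).1 (congrArg Subtype.val hg)
  · rintro ⟨x, hx⟩
    obtain ⟨g, rfl⟩ := QuotientGroup.mk_surjective x
    have h1 : (QuotientGroup.mk (g * io 3 F q (tv inv hq 1 (map_one σ)) * g⁻¹) : GU 3 F q ⧸ center (GU 3 F q)) =
        ty inv hq := by
      rw [QuotientGroup.mk_mul, QuotientGroup.mk_mul, mem_centralizer_singleton_iff.1 hx, QuotientGroup.mk_inv,
        mul_inv_cancel_right]
    have h2 := eq_of_mk inv ne hq (by
      calc _ = g * (io 3 F q (tv inv hq 1 (map_one σ)) * io 3 F q (tv inv hq 1 (map_one σ))) * g⁻¹ := by group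
        _ = 1 := by rw [sq, mul_one, mul_inv_cancel]) sq (QuotientGroup.eq.1 h1)
    obtain ⟨c, hc, hg⟩ := exists_B0 inv hq (mul_inv_eq_iff_eq_mul.1 h2)
    refine ⟨⟨_, hg⟩, Subtype.ext ?_⟩
    show (QuotientGroup.mk (c * g) : GU 3 F q ⧸ center (GU 3 F q)) = QuotientGroup.mk g
    rw [QuotientGroup.mk_mul, (QuotientGroup.eq_one_iff c).2 hc, one_mul]

end H28.Pgu
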