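import Cfsg.Agent.H28.Pgu1
import Cfsg.Agent.H18.Bender2
import Cfsg.Agent.H13.SL2Graph
import Cfsg.Agent.S0330
import Cfsg.Agent.S1141

/-! Groups whose involution centralizers look like those of `PGU₃(q)`, `q` even: the normal subgroup `PSU₃(q)` (`struct`,
`psu_of_bender`). -/

set_option autoImplicit false
set_option linter.unusedSectionVars false
set_option linter.unusedVariables false

namespace H28.Pgu
open Cfsg Subgroup H18 H9
open scoped MatrixGroups Pointwise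

variable {F : Type*} [Field F] [Finite F] {q : ℕ} [CharP F 2] {σ : F ≃+* F} {G : Type*} [Group G] [Finite G]

/-- a Sylow subgroup centralizing an involution is `Q` -/
theorem syl_eq {x : G} {f z d : centralizer {x} → F} (h : UD σ f z d) (S : Sylow 2 G)
    (hS : (S : Subgroup G) ≤ centralizer {x}) : h.Q.map (centralizer {x}).subtype = S :=
  S.is_maximal' (h.u3d.pg.map _) fun y hy => by
    obtain ⟨k, hk⟩ := S.isPGroup' ⟨y, hy⟩
    exact ⟨⟨y, hS hy⟩, h.mem_of_pow (k := k) (Subtype.ext (congrArg Subtype.val hk :)), rfl⟩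

theorem struct (hU : ∀ x : G, x * x = 1 → x ≠ 1 → ∃ f z d : centralizer {x} → F, UD σ f z d)
    (h4 : ∃ c : F, σ c = c ∧ c ≠ 0 ∧ c ≠ 1) (heven : Even (Nat.card G))
    (hconj : ∀ s t : G, orderOf s = 2 → orderOf t = 2 → IsConj s t)
    (hS : ∀ P : Sylow 2 G, ¬ (P : Subgroup G).Normal) :
    ∃ N : Subgroup G, N.Normal ∧ H19.IsBender N ∧ (∀ g, (∀ n ∈ N, n * g = g * n) → g = 1) ∧
      (∀ u v : G, u * u = 1 → u ≠ 1 → v * v = 1 → v ≠ 1 → ∃ g ∈ N, g * u * g⁻¹ = v) ∧
      (∀ (g : G) k, g ^ 2 ^ k = 1 → g ∈ N) ∧ ∃ (S : Sylow 2 G) (f z : S → F), H3.U3D σ f z := by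
  obtain ⟨S⟩ : Nonempty (Sylow 2 G) := inferInstance
  have hP := piGrp_of_isPGroup Nat.prime_two S.isPGroup'
  have S1 := S.ne_bot_of_dvd_card heven.two_dvd
  obtain ⟨x, hx, x2, x1⟩ := H5.exists_inv_of_even (even_iff_two_dvd.2 (hP.inf_left.dvd_card (hP.nil.Z_ne_bot S1)))
  have Sx : (S : Subgroup G) ≤ centralizer {x} := fun y hy => mem_centralizer_singleton_iff.2 (hx.2 y hy)
  obtain ⟨f, z, d, h⟩ := hU x x2 x1
  have e := syl_eq h S Sx
  have cen : ∀ u ∈ (S : Subgroup G), u * u = 1 → (S : Subgroup G) ≤ centralizer {u} := fun u hu u2 y hy =>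
    mem_centralizer_singleton_iff.2
      (congrArg Subtype.val (h.comm_of_sq (x := ⟨u, Sx hu⟩) (Subtype.ext u2) ⟨y, Sx hy⟩)).symm
  have CS : ∀ g, (∀ y ∈ (S : Subgroup G), g * y = y * g) → g ∈ (S : Subgroup G) := fun g hg => by
    rw [← e]
    exact ⟨⟨g, mem_centralizer_singleton_iff.2 (hg x hx.1)⟩,
      h.mem_of_comm fun y hy => Subtype.ext (hg _ (e ▸ ⟨y, hy, rfl⟩)), rfl⟩
  have NS : ∀ u ∈ N((S : Subgroup G)), u * u = 1 → u ∈ (S : Subgroup G) := fun u hu u2 =>
    (((two_zpowers u2).isPGroup.inf_normalizer_sylow S).le ⟨mem_zpowers u, hu⟩).2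
  have se : SEin N((S : Subgroup G)) ⊤ := by
    refine ⟨lt_top_iff_ne_top.2 fun e => hS S (normalizer_eq_top_iff.1 e), H5.even_of_inv (le_N hx.1) x2 x1,
      fun g _ hg u hu hu' u2 => by_contra fun u1 => hg ?_⟩
    obtain ⟨f', z', d', h'⟩ := hU u u2 u1
    have e1 := syl_eq h' S (cen u (NS u hu u2) u2)
    have e2 := syl_eq h' (g • S) fun y hy => by
      rw [Sylow.coe_subgroup_smul, mem_smul_pointwise_iff_exists] at hy
      obtain ⟨s, hs, rfl⟩ := hy
      have := mem_centralizer_singleton_iff.1 (cen _ (NS _ hu' (conj_sq' u2 g)) (conj_sq' u2 g) hs)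
      refine mem_centralizer_singleton_iff.2 ?_
      show g * s * g⁻¹ * u = u * (g * s * g⁻¹)
      calc _ = g * (s * (g⁻¹ * u * g)) * g⁻¹ := by group
        _ = _ := by rw [this]; group
    exact Sylow.smul_eq_iff_mem_normalizer.1 (Sylow.ext (e2.symm.trans e1))
  have pr : 1 < prank 2 (⊤ : Subgroup G) := by
    obtain ⟨c, c1, c2, c3⟩ := h4
    obtain ⟨a, a1, a2⟩ := h.u3d.z_surj (map_one σ)
    obtain ⟨b, b1, b2⟩ := h.u3d.z_surj c1
    have a3 := h.u3d.sq_eq_one.2 a1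
    have b3 := h.u3d.sq_eq_one.2 b1
    refine H5.prank_of_pair (mem_top a.1.1) (mem_top b.1.1) (fun e => ?_) (fun e => ?_) (fun e => ?_)
      (congrArg (·.1.1) a3) (congrArg (·.1.1) b3)
      (congrArg Subtype.val (h.comm_of_sq (congrArg Subtype.val a3) b.1))
    · obtain rfl : a = 1 := Subtype.ext (Subtype.ext e)
      exact one_ne_zero (a2.symm.trans h.u3d.z_one)
    · obtain rfl : b = 1 := Subtype.ext (Subtype.ext e)
      exact c2 (b2.symm.trans h.u3d.z_one)
    · obtain rfl : a = b := Subtype.ext (Subtype.ext e)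
      exact c3 (b2.symm.trans a2)
  have hO : O[{2}ᶜ]((⊤ : Subgroup G)) = ⊥ := eq_bot_iff.2 fun k hk => by
    have o : ∀ k ∈ O[{2}ᶜ]((⊤ : Subgroup G)), k ∈ (S : Subgroup G) → k = 1 := fun k hk hs => by
      obtain ⟨j, hj⟩ := S.isPGroup' ⟨k, hs⟩
      exact orderOf_eq_one_iff.1 (Nat.Coprime.eq_one_of_dvd
        ((Nat.coprime_two_right.2 (H5.odd_order_of_mem odd_O hk)).pow_right j)
        (orderOf_dvd_of_pow_eq_one (congrArg Subtype.val hj)))
    refine o k hk (CS k fun y hy => ?_)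
    have := o (k * y * k⁻¹ * y⁻¹)
      (by simpa [mul_assoc] using mul_mem hk (pcore_nml.normal.conj_mem _ (inv_mem hk) y))
      (mul_mem ((mem_normalizer_iff.1 (se.odd_le pr pcore_nml odd_O hk) y).1 hy) (inv_mem hy))
    rwa [mul_inv_eq_one, mul_inv_eq_iff_eq_mul] at this
  obtain ⟨Q, t, hA⟩ := bender_in se pr hO
  obtain ⟨h1, h3, h5⟩ := H19.suzuki hA (A1.ker_eq_bot hA hO) pr
  have tN : t ∈ Q ⊔ zpowers t := mem_sup_right (mem_zpowers t)
  generalize Q ⊔ zpowers t = N at *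
  have two : ∀ (g : G) k, g ^ 2 ^ k = 1 → g ∈ N := fun g k e => PiElt.mem_of_nml (π := {2})
    (show PiNat {2} (orderOf g) from fun p hp hd =>
      piNat_pow_self Nat.prime_two k p hp (hd.trans (orderOf_dvd_of_pow_eq_one e))) (mem_top g) h1
    (H5.piNat_two_compl.2 h3)
  have SN : (S : Subgroup G) ≤ N := fun y hy => by
    obtain ⟨j, hj⟩ := S.isPGroup' ⟨y, hy⟩
    exact two y j (congrArg Subtype.val hj)
  have := h1.normal
  refine ⟨N, this, h5, fun g hg => by_contra fun g1 => ?_, fun u v u2 u1 v2 v1 => ?_, two, S, _, _,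
    h.u3d.equiv ((MulEquiv.subgroupCongr e.symm).trans (h.Q.equivMapOfInjective _ (subtype_injective _)).symm)⟩
  · have l : C(N) ≤ S := fun c hc => CS c fun y hy => (hc y (SN hy)).symm
    obtain ⟨u, hu, u2, u1⟩ := H5.exists_inv_of_even
      (even_iff_two_dvd.2 ((hP.of_le l).dvd_card (ne_bot_of_mem (show g ∈ C(N) from hg) g1)))
    obtain ⟨c, rfl⟩ := isConj_iff.1 (hconj u t (orderOf_eq_two.2 ⟨u2, u1⟩)
      (orderOf_eq_two.2 ⟨hA.tt, fun e => hA.tH (e ▸ one_mem _)⟩))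
    exact hA.tH (le_N (l ((inferInstance : C(N).Normal).conj_mem u hu c)))
  · have k : ∀ v : G, v * v = 1 → v ≠ 1 → ∃ g ∈ N, g * x * g⁻¹ = v := fun v v2 v1 =>
      (SA.of_se (sein_top.1 se)).conj_inv (a := ((1 : G) : G ⧸ N((S : Subgroup G)))) x2 x1
        (by rw [← MulAction.mem_stabilizer_iff, St_one]; exact le_N hx.1) (SN hx.1)
        (by rw [St_one]; exact fun l => hA.tH (l tN)) v2 v1 (two v 1 (by rw [pow_one, pow_two, v2]))
    obtain ⟨g, hg, rfl⟩ := k u u2 u1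
    obtain ⟨g', hg', rfl⟩ := k v v2 v1
    exact ⟨g' * g⁻¹, mul_mem hg' (inv_mem hg), by group⟩

/-- `SU` along a field isomorphism -/
def suMap {F K : Type*} [Field F] [Field K] (e : F ≃+* K) (n q : ℕ) : SU n F q →* SU n K q :=
  ((Matrix.SpecialLinearGroup.map (e : F →+* K)).comp (SU n F q).subtype).codRestrict _ fun g u v => by
    obtain ⟨u, rfl⟩ := e.surjective.comp_left u
    obtain ⟨v, rfl⟩ := e.surjective.comp_left v
    have := congrArg e (g.2 u v)
    simp only [hermForm, map_sum, map_mul, map_pow, Matrix.mulVec, dotProduct] at this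
    exact this

theorem PSU_congr {F K : Type*} [Field F] [Field K] (e : F ≃+* K) (n q : ℕ) : Nonempty (PSU n F q ≃* PSU n K q) :=
  ⟨H11.centerQuotCongr (MonoidHom.toMulEquiv (suMap e n q) (suMap e.symm n q)
    (by ext g i j; exact e.symm_apply_apply _) (by ext g i j; exact e.apply_symm_apply _))⟩

theorem sl2_sq {K : Type*} [Field K] [CharP K 2] {X : SL(2, K)} (h : X * X * (X * X) = 1) : X * X = 1 := by
  have t : (2 : K) = 0 := CharTwo.two_eq_zero
  have k : ∀ B : Matrix (Fin 2) (Fin 2) K, (B * B).trace = B.trace ^ 2 := fun B => by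
    simp [Matrix.trace_fin_two, Matrix.mul_apply, Fin.sum_univ_two]
    linear_combination (B 0 1 * B 1 0 - B 0 0 * B 1 1) * t
  have e : (X.1 * X.1 * (X.1 * X.1)).trace = 0 := by
    rw [show X.1 * X.1 * (X.1 * X.1) = 1 from congrArg Subtype.val h]
    simpa using t
  rw [k, k, pow_eq_zero_iff two_ne_zero, pow_eq_zero_iff two_ne_zero, Matrix.trace_fin_two] at e
  have d := X.2
  rw [Matrix.det_fin_two] at d
  refine Subtype.ext (show X.1 * X.1 = 1 from ?_)
  generalize X.1 = A at *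
  ext i j
  fin_cases i <;> fin_cases j <;> simp [Matrix.mul_apply, Fin.sum_univ_two]
  · linear_combination A 0 0 * e - d - t
  · linear_combination A 0 1 * e
  · linear_combination A 1 0 * e
  · linear_combination A 1 1 * e - d - t

theorem exists_syl {N : Subgroup G} {X : Type*} [Group X] (e : N ≃* X) (S : Sylow 2 G) (h : (S : Subgroup G) ≤ N) :
    ∃ P : Sylow 2 X, Nonempty (P ≃* S) :=
  ⟨(S.subtype h).mapSurjective (f := (e : N →* X)) e.surjective,
    ⟨(e.subgroupMap _).symm.trans (subgroupOfEquivOfLe h)⟩⟩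

theorem psu_of_bender {N : Subgroup G} (hN : H19.IsBender N) (hF : Nat.card F = q ^ 2) (S : Sylow 2 G)
    (h : (S : Subgroup G) ≤ N) {f z : S → F} (u : H3.U3D σ f z) : Nonempty (N ≃* PSU 3 F q) := by
  obtain ⟨K, _, _, ⟨n, hn, hK⟩, ⟨e⟩⟩ | ⟨K, _, _, m, hm, hK, ⟨e⟩⟩ | ⟨K, _, _, n, hn, hK, ⟨e⟩⟩ := hN
  · haveI := H19.charP_of_card hK
    obtain ⟨P, ⟨e'⟩⟩ := exists_syl (e.trans (H13.SL2EquivPSL2 K).symm) S h
    have u' := u.equiv e'
    obtain ⟨x, hx⟩ := u'.f_surj 1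
    have := u'.sq_eq_one.1 (Subtype.ext (sl2_sq (congrArg Subtype.val (u'.sq_eq_one.2 (u'.f_sq x)))) : x * x = 1)
    exact absurd (hx.symm.trans this) one_ne_zero
  · have : H13.Sz.IsSz K m := ⟨hm, hK⟩
    obtain ⟨P, ⟨e'⟩⟩ := exists_syl (e.trans (H13.Sz.lieEquiv K m).symm) S h
    have u' := u.equiv e'
    obtain ⟨h1, -, -, h2⟩ := Cfsg.Agent.S0330.result hm hK P
    rw [u'.card hF] at h1
    rw [u'.card_center hF] at h2
    rw [h2] at h1
    exact absurd (Nat.pow_right_injective (Nat.one_lt_two_pow (by omega)) h1) (by norm_num)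
  · obtain ⟨P, ⟨e'⟩⟩ := exists_syl e S h
    have h2 := (Cfsg.Agent.S1141.result hn hK P).2.1
    rw [(u.equiv e').card_center hF] at h2
    subst h2
    haveI := Fintype.ofFinite F
    obtain ⟨f⟩ := PSU_congr (FiniteField.ringEquivOfCardEq (hK.trans (hF.symm.trans Nat.card_eq_fintype_card))) 3 (2 ^ n)
    exact ⟨e.trans f⟩

end H28.Pgu
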