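import Cfsg.Agent.H28.Pgu2
import Cfsg.Agent.H28.Pgu3

/-! Characterization of `PGU₃(q)`, `q` even, by the centralizers of its involutions (`pgu_char`). -/

set_option autoImplicit false
set_option linter.unusedSectionVars false
set_option linter.unusedVariables false

namespace H28.Pgu
open Cfsg Subgroup

variable {F : Type*} [Field F] [Finite F] {q : ℕ} [CharP F 2] {σ : F ≃+* F} (inv : ∀ a, σ (σ a) = a) (ne : σ ≠ 1)
  (hq : ∀ x, σ x = x ^ q) {G : Type*} [Group G] [Finite G]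

/-- the action of `PGU₃` on `PSU₃` -/
noncomputable def Ψ : GU 3 F q ⧸ center (GU 3 F q) →* MulAut (PSU 3 F q) :=
  QuotientGroup.lift _ (Φ inv ne hq) fun _ hg => (Φ_eq_one inv ne hq).2 hg

theorem Ψ_mk (g : GU 3 F q) : Ψ inv ne hq (QuotientGroup.mk g) = Φ inv ne hq g := rfl

theorem Ψ_inj : Function.Injective (Ψ inv ne hq) := (injective_iff_map_eq_one _).2 fun p hp => by
  obtain ⟨g, rfl⟩ := QuotientGroup.mk_surjective p
  exact (QuotientGroup.eq_one_iff _).2 ((Φ_eq_one inv ne hq).1 hp)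

include ne in
theorem pgu_of_psu (h4 : Nat.card F ≠ 4) (ho : Odd (q + 1)) {N : Subgroup G} [N.Normal] (e : N ≃* PSU 3 F q)
    (hN : ∀ g, (∀ n ∈ N, n * g = g * n) → g = 1)
    (hc : ∀ u v : G, u * u = 1 → u ≠ 1 → v * v = 1 → v ≠ 1 → ∃ g ∈ N, g * u * g⁻¹ = v)
    (two : ∀ (g : G) k, g ^ 2 ^ k = 1 → g ∈ N)
    (hC : ∀ x : G, x * x = 1 → x ≠ 1 → Nonempty (centralizer {x} ≃* centralizer {ty inv hq})) :
    Nonempty (G ≃* GU 3 F q ⧸ center (GU 3 F q)) := by
  let c : G →* MulAut (PSU 3 F q) := (MulAut.congr e).toMonoidHom.comp MulAut.conjNormal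
  have c1 : ∀ g n, c g (e n) = e (MulAut.conjNormal g n) := fun g n => by simp [c]
  have c2 : ∀ n : N, c n = MulAut.conj (e n) := fun n => MulEquiv.ext fun y => by
    obtain ⟨y, rfl⟩ := e.surjective y
    rw [c1, MulAut.conj_apply, ← map_inv, ← map_mul, ← map_mul]
    rfl
  have c3 : Function.Injective c := (injective_iff_map_eq_one _).2 fun g hg => hN g fun n hn => by
    have := c1 g ⟨n, hn⟩
    rw [hg, MulAut.one_apply] at this
    exact eq_mul_inv_iff_mul_eq.1 (congrArg Subtype.val (e.injective this))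
  have c4 : ∀ s, c (e.symm (QuotientGroup.mk s)) = Φ inv ne hq (io 3 F q s) := fun s => by
    rw [c2, Φ_io, MulEquiv.apply_symm_apply]
  have c5 : ∀ n ∈ N, c n ∈ (Φ inv ne hq).range := fun n hn => by
    obtain ⟨s, hs⟩ := QuotientGroup.mk_surjective (e ⟨n, hn⟩)
    exact ⟨_, by rw [← c4, hs, MulEquiv.symm_apply_apply]⟩
  let y : ∀ b, σ b = b → G := fun b hb => e.symm (QuotientGroup.mk (tv inv hq b hb))
  have y2 : ∀ b hb, y b hb * y b hb = 1 := fun b hb => by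
    rw [← coe_mul, ← map_mul, ← QuotientGroup.mk_mul, tv_sq, QuotientGroup.mk_one, map_one, coe_one]
  have yc : ∀ b hb, y b hb ∈ centralizer {y 1 (map_one σ)} := fun b hb => mem_centralizer_singleton_iff.2 (by
    have := comm_tv inv ne hq rfl b hb
    rw [← map_mul, ← map_mul] at this
    rw [← coe_mul, ← coe_mul, ← map_mul, ← map_mul, ← QuotientGroup.mk_mul, ← QuotientGroup.mk_mul, io_inj this])
  have cy : c (y 1 (map_one σ)) = Ψ inv ne hq (ty inv hq) := c4 _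
  have y1 : y 1 (map_one σ) ≠ 1 := fun h => by
    rw [h, map_one, eq_comm, map_eq_one_iff _ (Ψ_inj inv ne hq)] at cy
    have := ty_ord inv ne hq
    rw [cy, orderOf_one] at this
    omega
  obtain ⟨ε⟩ := hC _ (y2 _ _) y1
  obtain ⟨f, z, d, h⟩ := ud_cent inv ne hq
  replace h := h.equiv ε
  have k1 : ∀ k : centralizer {y 1 (map_one σ)}, c k ∈ (Φ inv ne hq).range := fun k => by
    refine mem_range_of_fix inv ne hq h4 (fun b hb => ?_) ho ?_
    · have := congrArg Subtype.val (h.comm_of_sq (x := ⟨_, yc b hb⟩) (Subtype.ext (y2 b hb)) k)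
      rw [← e.apply_symm_apply (QuotientGroup.mk _), c1]
      exact congrArg e (Subtype.ext (mul_inv_eq_iff_eq_mul.2 this.symm))
    · obtain ⟨j, hj⟩ := h.u3d.pg ⟨_, h.pow_mem hq k⟩
      rw [← map_pow]
      exact c5 _ (two _ j (congrArg (·.1.1) hj))
  have k2 : ∀ g, c g ∈ (Ψ inv ne hq).range := fun g => by
    obtain ⟨n, hn, e1⟩ := hc _ _ (y2 _ _) y1 (H9.conj_sq (y2 1 (map_one σ)) g) (H9.conj_ne y1 g)
    have : n⁻¹ * g ∈ centralizer {y 1 (map_one σ)} := mem_centralizer_singleton_iff.2 (by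
      calc _ = n⁻¹ * (g * y 1 (map_one σ) * g⁻¹) * g := by group
        _ = _ := by rw [← e1]; group)
    obtain ⟨a, ha⟩ := mul_mem (c5 n hn) (k1 ⟨_, this⟩)
    exact ⟨QuotientGroup.mk a, by rw [Ψ_mk, ha, ← map_mul, mul_inv_cancel_left]⟩
  let ψ : G →* GU 3 F q ⧸ center (GU 3 F q) :=
    (MonoidHom.ofInjective (Ψ_inj inv ne hq)).symm.toMonoidHom.comp (c.codRestrict _ k2)
  have p1 : ∀ g, Ψ inv ne hq (ψ g) = c g := fun g => MonoidHom.apply_ofInjective_symm (Ψ_inj inv ne hq) _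
  have p2 : Function.Injective ψ := fun a b e => c3 (by rw [← p1, e, p1])
  have p3 : ψ (y 1 (map_one σ)) = ty inv hq := Ψ_inj inv ne hq ((p1 _).trans cy)
  have p4 : (centralizer {y 1 (map_one σ)}).map ψ = centralizer {ty inv hq} := by
    refine eq_of_le_of_card_ge ?_ (by rw [card_map_of_injective p2, Nat.card_congr ε.toEquiv])
    rintro _ ⟨k, hk, rfl⟩
    rw [mem_centralizer_singleton_iff, ← p3, ← map_mul, ← map_mul, mem_centralizer_singleton_iff.1 hk]
  refine ⟨MulEquiv.ofBijective ψ ⟨p2, fun p => ?_⟩⟩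
  obtain ⟨g, rfl⟩ := QuotientGroup.mk_surjective p
  obtain ⟨s, hs⟩ := exists_cj g (tv inv hq 1 (map_one σ))
  have e1 : ψ (e.symm (QuotientGroup.mk s)) = QuotientGroup.mk g * ty inv hq * (QuotientGroup.mk g)⁻¹ :=
    Ψ_inj inv ne hq (by rw [p1, c4, hs]; rfl)
  have o := H9.orderOf_eq_two.1 (ty_ord inv ne hq)
  obtain ⟨n, -, e2⟩ := hc _ (e.symm (QuotientGroup.mk s)) (y2 _ _) y1
    (p2 (by rw [map_mul, e1, map_one]; exact H9.conj_sq o.1 _))
    (fun h => H9.conj_ne o.2 _ (by rw [← e1, h, map_one]))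
  rw [← e2, map_mul, map_mul, map_inv, p3] at e1
  have : (ψ n)⁻¹ * QuotientGroup.mk g ∈ centralizer {ty inv hq} := mem_centralizer_singleton_iff.2 (by
    calc _ = (ψ n)⁻¹ * (QuotientGroup.mk g * ty inv hq * (QuotientGroup.mk g)⁻¹) * QuotientGroup.mk g := by group
      _ = _ := by rw [← e1]; group)
  rw [← p4] at this
  obtain ⟨k, -, hk⟩ := this
  exact ⟨n * k, by rw [map_mul, hk, mul_inv_cancel_left]⟩

theorem pgu_char {F : Type*} [Field F] [Fintype F] [CharP F 2] (q : ℕ) (h2 : 2 < q) (hF : Fintype.card F = q ^ 2)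
    (heven : Even (Nat.card G)) (hconj : ∀ s t : G, orderOf s = 2 → orderOf t = 2 → IsConj s t)
    (hC : ∀ (x : G) (y : GU 3 F q ⧸ center (GU 3 F q)), orderOf x = 2 → orderOf y = 2 →
      Nonempty (centralizer {x} ≃* centralizer {y}))
    (hS : ∀ P : Sylow 2 G, ¬ (P : Subgroup G).Normal) : Nonempty (G ≃* GU 3 F q ⧸ center (GU 3 F q)) := by
  obtain ⟨ρ, hq, inv, hρ⟩ := H11.exists_frob hF
  let σ : F ≃+* F := RingEquiv.ofBijective ρ (Function.Involutive.bijective inv)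
  have ne : σ ≠ 1 := fun e => hρ (RingHom.ext fun x => congrArg (· x) e)
  replace inv : ∀ a, σ (σ a) = a := inv
  replace hq : ∀ a, σ a = a ^ q := hq
  have hF' := Nat.card_eq_fintype_card.trans hF
  have hC' : ∀ x : G, x * x = 1 → x ≠ 1 → Nonempty (centralizer {x} ≃* centralizer {ty inv hq}) := fun x a b =>
    hC x _ (H9.orderOf_eq_two.2 ⟨a, b⟩) (ty_ord inv ne hq)
  obtain ⟨N, _, h1, h3, h4, h5, S, f, z, u⟩ := struct (σ := σ) (fun x a b => by
    obtain ⟨ε⟩ := hC' x a b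
    obtain ⟨f, z, d, h⟩ := ud_cent inv ne hq
    exact ⟨_, _, _, h.equiv ε⟩) (H3.exists_fixed_ne inv ne hF' h2) heven hconj hS
  obtain ⟨e⟩ := psu_of_bender h1 hF' S (fun y hy => by
    obtain ⟨j, hj⟩ := S.isPGroup' ⟨y, hy⟩
    exact h5 y j (congrArg Subtype.val hj)) u
  obtain ⟨n, -, hn⟩ := FiniteField.card F 2
  refine pgu_of_psu inv ne hq (by rw [hF']; nlinarith) (Even.add_one (even_iff_two_dvd.2 ?_)) e h3 h4 h5 hC'
  exact Nat.prime_two.dvd_of_dvd_pow (hF ▸ hn ▸ dvd_pow_self 2 n.ne_zero)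

end H28.Pgu
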