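import Cfsg.Agent.H28.UL

/-! Lifting 3-transpositions to a central extension by an involution (`Ext.lift`), and fusion of the central
involution in an overgroup (`Fu.nb_eq`). -/

namespace H28
open Cfsg H15 Subgroup

variable {G H X : Type*} [Group G] [Group H] [Group X] {π : H →* X} {d a b c x y : H} {E : Set H} {E' : Set X}

/-- squares -/
def Sq (x : H) : Prop := ∃ g, g * g = x
theorem Sq.conj (h : Sq x) (e : IsConj x y) : Sq y := by
  obtain ⟨g, rfl⟩ := h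
  obtain ⟨k, rfl⟩ := isConj_iff.1 e
  exact ⟨k * g * k⁻¹, by group⟩
theorem Sq.map (h : Sq x) (f : H →* G) : Sq (f x) := h.elim fun g e => ⟨f g, by rw [← map_mul, e]⟩

theorem sq_s4 (hE : IsThreeTranspositionSet E) (ha : a ∈ E) (hb : b ∈ E) (hc : c ∈ E) (h : Commute a b)
    (h1 : ¬ Commute a c) (h2 : ¬ Commute b c) : Sq (a * b) := by
  refine ⟨c * a * b * c * a, ?_⟩
  calc _ = c * a * b * (c * a * c) * a * (b * c) * a := by group
    _ = c * (a * b * a) * (c * b * c) * a := by rw [← t3_braid hE ha hc h1]; simp only [mul_assoc, canc (t3_sq hE ha)]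
    _ = _ := by
      rw [(comm_iff_conj (t3_sq hE ha)).1 h, ← t3_braid hE hb hc h2, h.eq]
      simp only [mul_assoc, canc (t3_sq hE hb), canc (t3_sq hE hc)]

/-- products of at most three commuting members -/
def Cv (E : Set H) (x : H) : Prop := x = 1 ∨ x ∈ E ∨ (∃ a ∈ E, ∃ b ∈ nb E a, x = a * b) ∨
  ∃ a ∈ E, ∃ b ∈ nb E a, ∃ c ∈ nb (nb E a) b, x = a * b * c
def Cov (E : Set H) : Prop := ∀ x, x * x = 1 → Cv E x

theorem sq_mul (ha : a * a = 1) (hb : b * b = 1) (h : Commute a b) : a * b * (a * b) = 1 := by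
  rw [← sq, sq_of_comm ha hb h]

theorem Cv.sq (hE : IsThreeTranspositionSet E) (h : Cv E x) : x * x = 1 := by
  rcases h with rfl | h | ⟨a, ha, b, hb, rfl⟩ | ⟨a, ha, b, hb, c, hc, rfl⟩
  · simp
  · exact t3_sq hE h
  · exact sq_mul (t3_sq hE ha) (t3_sq hE hb.1) hb.2.2
  · exact sq_mul (sq_mul (t3_sq hE ha) (t3_sq hE hb.1) hb.2.2) (t3_sq hE hc.1.1) (hc.1.2.2.mul_left hc.2.2)

theorem Cv.comm (ne : E.Nonempty) (h : Cv E x) : ∃ e ∈ E, Commute x e := by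
  rcases h with rfl | h | ⟨a, ha, b, hb, rfl⟩ | ⟨a, ha, b, hb, c, hc, rfl⟩
  · exact ne.imp fun e he => ⟨he, Commute.one_left e⟩
  · exact ⟨x, h, Commute.refl x⟩
  · exact ⟨a, ha, (Commute.refl a).mul_left hb.2.2.symm⟩
  · exact ⟨a, ha, ((Commute.refl a).mul_left hb.2.2.symm).mul_left hc.1.2.2.symm⟩

theorem cv_two (hE : IsThreeTranspositionSet E) (ha : a ∈ E) (hb : b ∈ E) (h : Commute a b) : Cv E (a * b) := by
  by_cases e : b = a
  · exact Or.inl (e ▸ t3_sq hE hb)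
  · exact Or.inr (Or.inr (Or.inl ⟨a, ha, b, ⟨hb, e, h⟩, rfl⟩))

theorem cv_list (hE : IsThreeTranspositionSet E) {l : List H} (h : l.length ≤ 3) (h1 : ∀ a ∈ l, a ∈ E)
    (h2 : ∀ a ∈ l, ∀ b ∈ l, Commute a b) : Cv E l.prod := by
  match l, h with
  | [], _ => exact Or.inl rfl
  | [a], _ => exact Or.inr (Or.inl (by simpa using h1))
  | [a, b], _ => simpa using cv_two hE (h1 a (by simp)) (h1 b (by simp)) (h2 a (by simp) b (by simp))
  | [a, b, c], _ =>
    have ha := h1 a (by simp)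
    have hb := h1 b (by simp)
    have hc := h1 c (by simp)
    have c1 := h2 a (by simp) b (by simp)
    have c2 := h2 a (by simp) c (by simp)
    have c3 := h2 b (by simp) c (by simp)
    simp only [List.prod_cons, List.prod_nil, mul_one]
    by_cases e1 : b = a
    · exact Or.inr (Or.inl (by rwa [e1, canc (t3_sq hE ha)]))
    by_cases e2 : c = a
    · exact Or.inr (Or.inl (by rwa [← c3.symm.eq, e2, canc (t3_sq hE ha)]))
    by_cases e3 : c = b
    · exact Or.inr (Or.inl (by rwa [e3, t3_sq hE hb, mul_one]))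
    exact Or.inr (Or.inr (Or.inr ⟨a, ha, b, ⟨hb, e1, c1⟩, c, ⟨⟨hc, e2, c2⟩, e3, c3⟩, (mul_assoc _ _ _).symm⟩))

theorem prod_mul_cen {α : Type*} (h : ∀ g, Commute d g) (f : α → H) (l : List α) :
    (l.map fun a => f a * d).prod = (l.map f).prod * d ^ l.length := by
  induction l with
  | nil => simp
  | cons a l ih =>
    simp only [List.map_cons, List.prod_cons, ih, List.length_cons, pow_succ', mul_assoc]
    rw [← mul_assoc d, (h _).eq, mul_assoc]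

theorem prod_sq_cen (h : ∀ g, Commute d g) {l : List H} (h1 : ∀ a ∈ l, a * a = d)
    (hc : ∀ a ∈ l, ∀ b ∈ l, Commute a b) : l.prod * l.prod = d ^ l.length := by
  induction l with
  | nil => simp
  | cons a l ih =>
    have c : Commute a l.prod := Commute.list_prod_right _ _ fun b hb => hc a (by simp) b (by simp [hb])
    rw [List.prod_cons, mul_assoc, ← mul_assoc l.prod, ← c.eq, mul_assoc,
      ih (fun a ha => h1 a (by simp [ha])) fun a ha b hb => hc a (by simp [ha]) b (by simp [hb]), ← mul_assoc,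
      h1 a (by simp), List.length_cons, pow_succ']

theorem pow_odd_sq (h : d * d = 1) {n : ℕ} (hn : Odd n) : d ^ n = d := by
  obtain ⟨k, rfl⟩ := hn
  rw [pow_succ, pow_mul, sq, h, one_pow, one_mul]
theorem pow_even_sq (h : d * d = 1) {n : ℕ} (hn : Even n) : d ^ n = 1 := by
  obtain ⟨k, rfl⟩ := hn
  rw [← two_mul, pow_mul, sq, h, one_pow]

/-- a central extension by an involution -/
structure Ext (π : H →* X) (d : H) : Prop where
  sq : d * d = 1
  ne : d ≠ 1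
  cen : ∀ g, Commute d g
  ker : ∀ g, π g = 1 ↔ g = 1 ∨ g = d
  surj : Function.Surjective π

namespace Ext
variable (h : Ext π d)
include h
theorem pd : π d = 1 := (h.ker d).2 (Or.inr rfl)
theorem eq : π a = π b ↔ a = b ∨ a = b * d := by
  rw [← inv_mul_eq_one, ← map_inv, ← map_mul, h.ker, inv_mul_eq_one, inv_mul_eq_iff_eq_mul]
  refine or_congr Iff.rfl ⟨fun e => ?_, fun e => ?_⟩ <;> rw [e, mul_assoc, h.sq, mul_one]
theorem comm_d : Commute a (b * d) ↔ Commute a b :=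
  ⟨fun c => by simpa [mul_assoc, h.sq] using c.mul_right (h.cen a).symm, fun c => c.mul_right (h.cen a).symm⟩
theorem comm (e : π b = π c) : Commute a b ↔ Commute a c := by
  rcases h.eq.1 e with rfl | rfl
  exacts [Iff.rfl, h.comm_d]
theorem sq_d : a * d * (a * d) = a * a := by rw [mul_assoc, ← mul_assoc d, (h.cen a).eq, mul_assoc, h.sq, mul_one]
theorem sq_eq (e : π a = π b) : a * a = b * b := by
  rcases h.eq.1 e with rfl | rfl
  exacts [rfl, h.sq_d]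
theorem cj_d (g : H) : g * (a * d) * g⁻¹ = g * a * g⁻¹ * d := by rw [mul_assoc _ g⁻¹, ← (h.cen g⁻¹).eq]; group
theorem one (e : π a = 1) : a * a = 1 ∧ ∀ g, Commute a g := by
  rcases (h.ker a).1 e with rfl | rfl
  exacts [⟨mul_one 1, Commute.one_left⟩, ⟨h.sq, h.cen⟩]
theorem card : Nat.card H = Nat.card X * 2 := by
  rw [card_eq_card_quotient_mul_card_subgroup π.ker,
    Nat.card_congr (QuotientGroup.quotientKerEquivOfSurjective π h.surj).toEquiv,
    show π.ker = zpowers d from Subgroup.ext fun x => (h.ker x).trans ⟨fun e => e.elim (· ▸ one_mem _)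
      (· ▸ mem_zpowers d), zpowers_cases h.sq⟩, Nat.card_zpowers, ord_of_sq h.sq h.ne]
end Ext

/-- a lift of a class of 3-transpositions -/
structure Lf (π : H →* X) (d : H) (E : Set H) (E' : Set X) : Prop extends Ext π d where
  t3 : IsThreeTranspositionSet E
  cj : ∀ g, ∀ e ∈ E, g * e * g⁻¹ ∈ E
  pc : PC E'
  im : π '' E = E'
  inj : Set.InjOn π E

theorem Ext.lift [Finite X] (h : Ext π d) (hE : PC E')
    (cent : ∀ a ∈ E', ∀ g, Commute g a → g ∈ closure (perp E' a)) {l : List X} (ho : Odd l.length) (h1 : l.prod = 1)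
    (hc : ∀ a ∈ l, ∀ b ∈ l, Commute a b) {p : X} (hp : p ∈ E') (hl : ∀ a ∈ l, a ∈ nb E' p) : ∃ E, Lf π d E E' := by
  obtain ⟨s, hs⟩ := h.surj.hasRightInverse
  replace hs : ∀ x, π (s x) = x := hs
  have z := h.one (a := (l.map s).prod) (by rw [map_list_prod, List.map_map, ← h1]; congr 1; simp [Function.comp_def, hs])
  have cm : ∀ x y, π x ∈ E' → π y ∈ E' → Commute (π x) (π y) → Commute x y := fun x y hx hy c => by
    by_cases e : π y = π x
    · exact (h.comm e).2 (Commute.refl x)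
    by_contra n
    have k : ∀ a ∈ l, s p * s a * (s p)⁻¹ = s a * d := fun a ha => by
      refine (h.eq.1 ?_).resolve_left fun e' => n ?_
      · rw [map_mul, map_mul, map_inv, hs, hs, (hl a ha).2.2.eq, mul_inv_cancel_right]
      obtain ⟨g, g1, g2⟩ := hE.pair_tr hp (hl a ha) hx ⟨hy, e, c⟩
      have : Commute (s g * s p * (s g)⁻¹) (s g * s a * (s g)⁻¹) := (commute_conj _).2 (mul_inv_eq_iff_eq_mul.1 e')
      exact ((h.comm (by simp [hs, g1])).1 ((h.comm (by simp [hs, g2])).1 this).symm).symm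
    have := conj_list (s p) (l.map s)
    rw [← (z.2 _).eq, mul_inv_cancel_right, List.map_map, Function.comp_def, List.map_congr_left k,
      prod_mul_cen h.cen, pow_odd_sq h.sq ho] at this
    exact h.ne (by simpa using this)
  have sq : ∀ x, π x ∈ E' → x * x = 1 := fun x hx => by
    refine ((h.ker _).1 (by rw [map_mul, t3_sq hE.t3 hx])).resolve_right fun e => h.ne ?_
    have := prod_sq_cen h.cen (l := l.map s) (by
      simp only [List.mem_map]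
      rintro _ ⟨a, ha, rfl⟩
      obtain ⟨g, hg⟩ := hE.tr _ hx a (hl a ha).1
      rw [h.sq_eq (b := s g * x * (s g)⁻¹) (by simp [hs, hg]), ← mul_inv_cancel_right d (s g), (h.cen _).eq, ← e]
      group) (by
      simp only [List.mem_map]
      rintro _ ⟨a, ha, rfl⟩ _ ⟨b, hb, rfl⟩
      exact cm _ _ (by rw [hs]; exact (hl a ha).1) (by rw [hs]; exact (hl b hb).1) (by rw [hs, hs]; exact hc a ha b hb))
    rw [z.1, List.length_map, pow_odd_sq h.sq ho] at this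
    exact this.symm
  have ce : ∀ x g, π x ∈ E' → Commute (π g) (π x) → Commute g x := fun x g hx c => by
    obtain ⟨k, hk, e⟩ : π g ∈ (centralizer {x}).map π := (closure_le ((centralizer {x}).map π)).2 (fun y hy => ⟨s y,
      mem_centralizer_singleton_iff.2 (cm _ _ (by rw [hs]; exact hy.1) hx (by rw [hs]; exact hy.2.symm)).eq, hs y⟩)
      (cent _ hx _ c)
    exact ((h.comm e).1 (show Commute k x from mem_centralizer_singleton_iff.1 hk).symm).symm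
  have m : ∀ x, IsConj (s p) x → π x ∈ E' := fun x hx => by
    obtain ⟨g, rfl⟩ := isConj_iff.1 hx
    simpa [hs] using hE.cj (π g) p hp
  have cj : ∀ g x, IsConj (s p) x → IsConj (s p) (g * x * g⁻¹) := fun g x hx => hx.trans (isConj_iff.2 ⟨g, rfl⟩)
  have inj : Set.InjOn π {x | IsConj (s p) x} := fun x hx y hy e => by
    obtain ⟨g, rfl⟩ := isConj_iff.1 (IsConj.trans (IsConj.symm hx) hy)
    exact (mul_inv_eq_iff_eq_mul.2 (ce x g (m x hx) (mul_inv_eq_iff_eq_mul.1 (by simpa using e.symm))).eq).symm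
  refine ⟨{x | IsConj (s p) x}, h, ⟨fun x hx => ord_of_sq (sq x (m x hx)) fun e => t3_ne hE.t3 (m x hx) (by simp [e]),
    fun x hx y hy => ?_⟩, cj, hE, Set.Subset.antisymm (by rintro _ ⟨x, hx, rfl⟩; exact m x hx) fun y hy => ?_, inj⟩
  · by_cases c : Commute (π x) (π y)
    · exact Or.inl (sq_of_comm (sq x (m x hx)) (sq y (m y hy)) (cm x y (m x hx) (m y hy) c))
    refine Or.inr (cube_of_braid (sq x (m x hx)) (sq y (m y hy)) (inj ?_ ?_ ?_))
    · simpa [inv_of_sq (sq x (m x hx))] using cj x y hy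
    · simpa [inv_of_sq (sq y (m y hy))] using cj y x hx
    · simpa using t3_braid hE.t3 (m x hx) (m y hy) c
  · obtain ⟨g, rfl⟩ := hE.tr p hp y hy
    exact ⟨_, cj (s g) _ (IsConj.refl _), by simp [hs]⟩

namespace Lf
variable (h : Lf π d E E')
include h
theorem T3 : T3 E := ⟨h.t3, fun a ha b hb => by simpa [t3_inv h.t3 ha] using h.cj a b hb⟩
theorem mem (ha : a ∈ E) : π a ∈ E' := h.im ▸ ⟨a, ha, rfl⟩
theorem ph : PH π E := ⟨fun a _ b _ => map_mul π a b, h.inj⟩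
theorem fi : FI π E E' := h.im ▸ fi_hom h.T3 π h.inj fun _ ha => t3_ne h.pc.t3 (h.mem ha)
theorem ex {x : X} (hx : x ∈ E') : ∃ a ∈ E, π a = x := by rwa [← h.im] at hx
theorem nd (ha : a ∈ E) : a ≠ d := fun e => t3_ne h.pc.t3 (h.mem ha) (e ▸ h.pd)
theorem conj (ha : a ∈ E) (hb : b ∈ E) {g : H} (e : π g * π a * (π g)⁻¹ = π b) : g * a * g⁻¹ = b :=
  h.inj (h.cj g a ha) hb (by simpa using e)
theorem cls (ha : a ∈ E) (hb : b ∈ E) : IsConj a b := by
  obtain ⟨g, e⟩ := h.pc.tr _ (h.mem ha) _ (h.mem hb)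
  obtain ⟨g, rfl⟩ := h.surj g
  exact isConj_iff.2 ⟨g, h.conj ha hb e⟩
theorem pair [Finite X] (ha : a ∈ E) (hb : b ∈ nb E a) (hx : x ∈ E) (hy : y ∈ nb E x) :
    ∃ g, g * a * g⁻¹ = x ∧ g * b * g⁻¹ = y := by
  obtain ⟨g, e, e'⟩ := h.pc.pair_tr (h.mem ha) ((h.fi.mem_nb ha hb.1).2 hb) (h.mem hx) ((h.fi.mem_nb hx hy.1).2 hy)
  obtain ⟨g, rfl⟩ := h.surj g
  exact ⟨g, h.conj ha hx e, h.conj hb.1 hy.1 e'⟩

theorem tw : Lf π d ((· * d) '' E) E' := by
  refine ⟨h.toExt, ⟨?_, ?_⟩, ?_, h.pc, ?_, ?_⟩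
  · rintro _ ⟨a, ha, rfl⟩
    exact ord_of_sq (h.sq_d.trans (t3_sq h.t3 ha)) fun e => h.nd ha (by rw [eq_inv_of_mul_eq_one_left e, inv_of_sq h.sq])
  · rintro _ ⟨a, ha, rfl⟩ _ ⟨b, hb, rfl⟩
    rw [mul_assoc, ← mul_assoc d, (h.cen b).eq, mul_assoc, h.sq, mul_one]
    exact h.t3.2 a ha b hb
  · rintro g _ ⟨a, ha, rfl⟩
    exact ⟨_, h.cj g a ha, (h.cj_d g).symm⟩
  · rw [Set.image_image, ← h.im]; simp [h.pd]
  · rintro _ ⟨a, ha, rfl⟩ _ ⟨b, hb, rfl⟩ e
    rw [h.inj ha hb (by simpa [h.pd] using e)]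

theorem cv (c : Cv E' (π x)) : Cv E x ∨ Cv E (x * d) := by
  suffices ∃ y, Cv E y ∧ π y = π x by
    obtain ⟨y, hy, e⟩ := this
    rcases h.eq.1 e with rfl | rfl
    exacts [Or.inl hy, Or.inr hy]
  rcases c with e | e | ⟨a, ha, b, hb, e⟩ | ⟨a, ha, b, hb, c, hc, e⟩
  · exact ⟨1, Or.inl rfl, by simp [e]⟩
  · obtain ⟨a, ha, e⟩ := h.ex e
    exact ⟨a, Or.inr (Or.inl ha), e⟩
  · obtain ⟨a, ha', rfl⟩ := h.ex ha
    obtain ⟨b, hb', rfl⟩ := h.ex hb.1
    exact ⟨_, Or.inr (Or.inr (Or.inl ⟨a, ha', b, (h.fi.mem_nb ha' hb').1 hb, rfl⟩)), by simp [e]⟩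
  · obtain ⟨a, ha', rfl⟩ := h.ex ha
    obtain ⟨b, hb', rfl⟩ := h.ex hb.1
    obtain ⟨c, hc', rfl⟩ := h.ex hc.1.1
    have b1 := (h.fi.mem_nb ha' hb').1 hb
    exact ⟨_, Or.inr (Or.inr (Or.inr ⟨a, ha', b, b1, c,
      ((h.fi.nb ha').mem_nb b1 ((h.fi.mem_nb ha' hc').1 hc.1)).1 hc, rfl⟩)), by simp [e]⟩

theorem sq1 (c : Cov E') (e : π x * π x = 1) : x * x = 1 :=
  (h.cv (c _ e)).elim (Cv.sq h.t3) fun k => h.sq_d.symm.trans (k.sq h.t3)

theorem nsq (c : Cov E') : ¬ Sq d := fun ⟨g, e⟩ => h.ne (e.symm.trans (h.sq1 c (by rw [← map_mul, e, h.pd])))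

theorem gen (hp : Group.IsPerfect H) : closure E = ⊤ := by
  have k : ∀ g, ∃ x ∈ closure E, π x = π g := fun g => by
    have : π g ∈ (closure E).map π := by rw [MonoidHom.map_closure, h.im, h.pc.gen]; trivial
    exact this
  rw [eq_top_iff, ← hp.commutator_eq_top, commutator_def, commutator_le]
  intro a _ b _
  obtain ⟨x, hx, e⟩ := k a
  obtain ⟨y, hy, e'⟩ := k b
  have f : ∀ {x a : H}, π x = π a → ∀ g, a * g * a⁻¹ = x * g * x⁻¹ := fun {x a} e g => by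
    rcases h.eq.1 e with rfl | rfl
    · rfl
    · rw [mul_inv_rev, mul_assoc a d, (h.cen g).eq]; group
  rw [commutatorElement_def, f e, show x * b * x⁻¹ * b⁻¹ = x * (b * x⁻¹ * b⁻¹) by group, f e']
  exact mul_mem hx (mul_mem (mul_mem hy (inv_mem hx)) (inv_mem hy))

theorem sq2 [Finite X] (ha : a ∈ E) (hb : b ∈ nb E a) : Sq (a * b) := by
  obtain ⟨p, hp, h1, h2⟩ := h.pc.ncCon.common h.pc.T3 (h.pc.par h.pc.two) (h.mem ha) (h.mem hb.1) (hb.2.2.map π)
  obtain ⟨c, hc, rfl⟩ := h.ex hp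
  exact sq_s4 h.t3 ha hb.1 hc hb.2.2 (fun c => h1 (c.map π)) fun c => h2 (c.map π)

theorem sq3 [Finite X] (ha : a ∈ E) (hb : b ∈ nb E a) (s : Sq (a * b * d)) (hx : x ∈ E) (hy : y ∈ nb E x) :
    Sq (x * y * d) := by
  obtain ⟨g, rfl, rfl⟩ := h.pair ha hb hx hy
  exact s.conj (isConj_iff.2 ⟨g, by rw [h.cj_d]; group⟩)
end Lf

/-- the data on involutions used for the fusion argument -/
structure Fu (d : H) (E : Set H) : Prop where
  nsq : ¬ Sq d
  sq2 : ∀ e ∈ E, ∀ f ∈ nb E e, Sq (e * f) ∧ Sq (e * f * d)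
  ex : ∃ x0 y0, (∀ x, x * x = 1 → x = d ∨ x ∈ E ∨ x * d ∈ E ∨ Sq x ∨ IsConj x0 x) ∧ IsConj x0 (x0 * d) ∧
    IsConj x0 y0 ∧ x0 * x0 = 1 ∧ Commute x0 y0 ∧ ∃ e ∈ E, ∃ f ∈ nb E e, x0 * y0 = e * f

theorem Lf.fu [Finite X] (h : Lf π d E E') (c : Cov E') (ha : a ∈ E) (hb : b ∈ nb E a) (s : Sq (a * b * d)) {x0 y0 : H}
    (h1 : ∀ a ∈ E, ∀ b ∈ nb E a, ∀ c ∈ nb (nb E a) b, IsConj x0 (a * b * c) ∨
      ∃ e ∈ E, ∃ f ∈ nb E e, π (a * b * c) = π (e * f)) (h2 : IsConj x0 (x0 * d)) (h3 : IsConj x0 y0)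
    (h4 : x0 * x0 = 1) (h5 : Commute x0 y0) (h6 : ∃ e ∈ E, ∃ f ∈ nb E e, x0 * y0 = e * f) : Fu d E := by
  have s2 : ∀ e ∈ E, ∀ f ∈ nb E e, Sq (e * f) ∧ Sq (e * f * d) := fun e he f hf => ⟨h.sq2 he hf, h.sq3 ha hb s he hf⟩
  have dd : ∀ x, x * d * d = x := fun x => by rw [mul_assoc, h.sq, mul_one]
  have key : ∀ x, Cv E x → x = 1 ∨ x ∈ E ∨ (Sq x ∧ Sq (x * d)) ∨ IsConj x0 x ∧ IsConj x0 (x * d) := by
    rintro x (e | e | ⟨a, ha, b, hb, rfl⟩ | ⟨a, ha, b, hb, c, hc, rfl⟩)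
    · exact Or.inl e
    · exact Or.inr (Or.inl e)
    · exact Or.inr (Or.inr (Or.inl (s2 a ha b hb)))
    rcases h1 a ha b hb c hc with k | ⟨e, he, f, hf, k⟩
    · obtain ⟨g, e⟩ := isConj_iff.1 k
      exact Or.inr (Or.inr (Or.inr ⟨k, h2.trans (isConj_iff.2 ⟨g, by rw [h.cj_d, e]⟩)⟩))
    · refine Or.inr (Or.inr (Or.inl ?_))
      rcases h.eq.1 k with k | k <;> rw [k]
      · exact s2 e he f hf
      · rw [dd]; exact (s2 e he f hf).symm
  refine ⟨h.nsq c, s2, x0, y0, fun x hx => ?_, h2, h3, h4, h5, h6⟩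
  rcases h.cv (c _ (by rw [← map_mul, hx, map_one])) with k | k
  · rcases key x k with rfl | k | k | k
    exacts [Or.inr (Or.inr (Or.inr (Or.inl ⟨1, mul_one 1⟩))), Or.inr (Or.inl k), Or.inr (Or.inr (Or.inr (Or.inl k.1))),
      Or.inr (Or.inr (Or.inr (Or.inr k.1)))]
  · rcases key _ k with k | k | k | k
    exacts [Or.inl (by rw [← dd x, k, one_mul]), Or.inr (Or.inr (Or.inl k)),
      Or.inr (Or.inr (Or.inr (Or.inl (dd x ▸ k.2)))), Or.inr (Or.inr (Or.inr (Or.inr (dd x ▸ k.2))))]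

/-- an identification with a centraliser -/
structure Em (ι : H →* G) (d : H) : Prop where
  inj : Function.Injective ι
  rng : ∀ g, Commute (ι d) g → ∃ x, ι x = g

/-- conjugacy class -/
abbrev cl (p : G) : Set G := {x | IsConj p x}

variable {ι : H →* G}

theorem Em.cj (h : Em ι d) (g : G) : Em ((MulAut.conj g).toMonoidHom.comp ι) d :=
  ⟨(MulAut.conj g).injective.comp h.inj, fun x hx => by
    obtain ⟨y, e⟩ := h.rng (g⁻¹ * x * g) (commute_conj'.1 hx)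
    exact ⟨y, by simp [e, mul_assoc]⟩⟩

theorem Em.nsq (h : Em ι d) (n : ¬ Sq d) {p : G} (hp : p ∈ cl (ι d)) : ¬ Sq p := fun s => by
  obtain ⟨g, e⟩ := s.conj (IsConj.symm hp)
  obtain ⟨x, rfl⟩ := h.rng g (e ▸ ((Commute.refl g).mul_left (Commute.refl g)))
  exact n ⟨x, h.inj (by rw [map_mul, e])⟩

theorem Lf.step (L : Lf π d E E') (F : Fu d E) (h : Em ι d) {p : G} (hp : p ∈ nb (cl (ι d)) (ι d)) :
    ∃ e ∈ E, p = ι e ∨ p = ι (e * d) := by
  obtain ⟨x0, y0, cov, h2, h3, h4, h5, e0, he0, f0, hf0, h6⟩ := F.ex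
  have dd : ∀ x, x * d * d = x := fun x => by rw [mul_assoc, L.sq, mul_one]
  have key : ∀ {ι' : H →* G}, Em ι' d → ι' d ∈ cl (ι d) → ∀ p ∈ nb (cl (ι d)) (ι' d),
      (∃ e ∈ E, p = ι' e ∨ p = ι' (e * d)) ∨ IsConj (ι' x0) p ∧ IsConj (ι' x0) (p * ι' d) := fun {ι'} h' m p hp => by
    obtain ⟨x, rfl⟩ := h'.rng p hp.2.2
    obtain ⟨g, e⟩ := isConj_iff.1 hp.1
    rcases cov x (h'.inj (by rw [map_mul, ← e, map_one, conj_mul, ← map_mul, L.sq]; simp)) with k | k | k | k | k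
    · exact absurd (congrArg ι' k) hp.2.1
    · exact Or.inl ⟨x, k, Or.inl rfl⟩
    · exact Or.inl ⟨_, k, Or.inr (by rw [dd])⟩
    · exact absurd (k.map ι') (h.nsq F.nsq hp.1)
    · obtain ⟨g, rfl⟩ := isConj_iff.1 k
      exact Or.inr ⟨ι'.map_isConj k, by
        rw [← map_mul, ← L.cj_d]; exact ι'.map_isConj (h2.trans (isConj_iff.2 ⟨g, rfl⟩))⟩
  refine (key h (IsConj.refl _) p hp).resolve_right fun k => ?_
  have m0 : ι x0 ∈ cl (ι d) := IsConj.trans hp.1 k.1.symm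
  obtain ⟨g, e⟩ := isConj_iff.1 m0
  have h' := h.cj g
  have c' : IsConj (ι d) (((MulAut.conj g).toMonoidHom.comp ι) x0) := IsConj.trans m0 (isConj_iff.2 ⟨g, rfl⟩)
  have e' : ((MulAut.conj g).toMonoidHom.comp ι) d = ι x0 := e
  generalize (MulAut.conj g).toMonoidHom.comp ι = ι' at h' c' e'
  have k2 : ∀ y, IsConj x0 y → Commute x0 y → Sq (x0 * y) → y ≠ x0 → ∃ e ∈ E, ι y = ι' e ∨ ι y = ι' (e * d) :=
    fun y c1 c2 s n => (key h' (e' ▸ m0) _ ⟨IsConj.trans m0 (ι.map_isConj c1), fun e => n (h.inj (e.trans e')),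
      e' ▸ c2.map ι⟩).resolve_right fun k => h.nsq F.nsq (c'.trans k.2) (by rw [e', ← map_mul, ← c2.eq]; exact s.map ι)
  have s0 := F.sq2 e0 he0 f0 hf0
  obtain ⟨k, hk⟩ := isConj_iff.1 h3
  obtain ⟨a, ha, ea⟩ := k2 y0 h3 h5 (h6 ▸ s0.1) fun e => hf0.2.1 (by
    rw [e, h4] at h6
    rw [eq_inv_of_mul_eq_one_right h6.symm, t3_inv L.t3 he0])
  obtain ⟨b, hb, eb⟩ := k2 (y0 * d) (h2.trans (isConj_iff.2 ⟨k, by rw [L.cj_d, hk]⟩)) (L.comm_d.2 h5)
    (by rw [← mul_assoc, h6]; exact s0.2) fun e => F.nsq (by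
      have : x0 * y0 = d := by rw [← dd y0, e, ← mul_assoc, h4, one_mul]
      exact this ▸ h6 ▸ s0.1)
  have y2 : y0 * y0 = 1 := by rw [← hk, conj_mul, h4]; simp
  have fin : ι d = ι' (a * b) ∨ ι d = ι' (a * b * d) := by
    have e1 : ι d = ι y0 * ι (y0 * d) := by rw [← map_mul, canc y2]
    have e2 : a * d * b = a * b * d := by rw [mul_assoc, (L.cen b).eq, mul_assoc]
    rcases ea with ea | ea <;> rcases eb with eb | eb <;> rw [e1, ea, eb, ← map_mul]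
    · exact Or.inl rfl
    · exact Or.inr (by rw [mul_assoc])
    · exact Or.inr (by rw [e2])
    · exact Or.inl (by rw [← mul_assoc, e2, dd])
  have cab : Commute a b := by
    have : Commute (ι y0) (ι (y0 * d)) := (L.comm_d.2 (Commute.refl y0)).map ι
    rcases ea with ea | ea <;> rcases eb with eb | eb <;> rw [ea, eb] at this <;>
      have := this.of_map h'.inj
    exacts [this, L.comm_d.1 this, (L.comm_d.1 this.symm).symm, (L.comm_d.1 (L.comm_d.1 this).symm).symm]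
  by_cases e : b = a
  · rw [e, t3_sq L.t3 ha, one_mul, map_one, e'] at fin
    rcases fin with e | e
    · exact L.ne (h.inj (e.trans (map_one ι).symm))
    · rw [← h.inj e, L.sq] at h2
      exact L.ne (isConj_one_right.1 h2.symm)
  · have := F.sq2 a ha b ⟨hb, e, cab⟩
    exact h.nsq F.nsq (IsConj.refl _) (fin.elim (fun e => e ▸ this.1.map ι') fun e => e ▸ this.2.map ι')

theorem Lf.nb_eq (L : Lf π d E E') (F : Fu d E) (h : Em ι d) (ha : a ∈ E) (m : ι a ∈ cl (ι d)) :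
    nb (cl (ι d)) (ι d) = ι '' E := by
  have k : ∀ e ∈ E, ι e ∈ nb (cl (ι d)) (ι d) := fun e he =>
    ⟨IsConj.trans m (ι.map_isConj (L.cls ha he)), fun x => L.nd he (h.inj x), (L.cen e).map ι⟩
  refine Set.Subset.antisymm (fun p hp => ?_) (by rintro _ ⟨e, he, rfl⟩; exact k e he)
  obtain ⟨e, he, rfl | rfl⟩ := L.step F h hp
  · exact ⟨e, he, rfl⟩
  exfalso
  have k' : ∀ p ∈ nb (cl (ι d)) (ι d), p * ι d ∈ cl (ι d) := fun p hp' => by
    obtain ⟨f, hf, rfl | rfl⟩ := L.step F h hp'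
    · obtain ⟨g, rfl⟩ := isConj_iff.1 (L.cls he hf)
      rw [← map_mul, ← L.cj_d]
      exact IsConj.trans hp.1 (ι.map_isConj (isConj_iff.2 ⟨g, rfl⟩))
    · rw [← map_mul, mul_assoc, L.sq, mul_one]; exact (k f hf).1
  obtain ⟨f, hf⟩ := L.pc.nb_ne L.pc.w (L.mem ha)
  obtain ⟨f, hf', rfl⟩ := L.ex hf.1
  replace hf := (L.fi.mem_nb ha hf').1 hf
  obtain ⟨g, e⟩ := isConj_iff.1 m
  have := k' (g⁻¹ * ι f * g) ⟨IsConj.trans (k f hf').1 (isConj_iff.2 ⟨g⁻¹, by rw [inv_inv]⟩),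
    fun x => hf.2.1 (h.inj (by rw [← e, ← x]; group)), commute_conj'.1 (e ▸ hf.2.2.map ι)⟩
  refine h.nsq F.nsq (IsConj.trans this (isConj_iff.2 ⟨g, ?_⟩)) ((F.sq2 a ha f hf).1.map ι)
  rw [hf.2.2.eq, map_mul, ← e]; group

/-- the lift consisting of conjugates of the central involution -/
theorem Lf.fuse (L : Lf π d E E') (F : ∀ E, Lf π d E E' → Fu d E) (h : Em ι d)
    (hn : (nb (cl (ι d)) (ι d)).Nonempty) : ∃ E, Lf π d E E' ∧ nb (cl (ι d)) (ι d) = ι '' E := by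
  obtain ⟨p, hp⟩ := hn
  obtain ⟨e, he, rfl | rfl⟩ := L.step (F E L) h hp
  · exact ⟨E, L, L.nb_eq (F E L) h he hp.1⟩
  · exact ⟨_, L.tw, L.tw.nb_eq (F _ L.tw) h ⟨e, he, rfl⟩ hp.1⟩

end H28
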