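import Cfsg.Agent.H28.RF
import Cfsg.Agent.H9.ZStarMain

/-! A class of involutions which is locally a Fischer space is connected (`Gl.top`). -/

namespace H28
open Cfsg H15 Subgroup

variable {G : Type*} [Group G] {D : Set G} {a b d e p s t u v x : G} {O K : Subgroup G}

theorem conj_odd (s2 : s * s = 1) (t2 : t * t = 1) (ho : Odd (orderOf (s * t))) :
    ∃ c ∈ zpowers (s * t), c * s * c⁻¹ = t :=
  let ⟨k, e⟩ := H9.conj_of_odd s2 t2 ho; ⟨_, npow_mem_zpowers _ k, e⟩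

theorem comm_zp (h1 : Commute s u) (h2 : Commute t u) (hx : x ∈ zpowers (s * t)) : Commute x u := by
  obtain ⟨k, rfl⟩ := mem_zpowers_iff.1 hx
  exact (h1.mul_left h2).zpow_left k

theorem four_gen (ho : ∀ x ∈ O, Odd (orderOf x)) (u2 : u * u = 1) (v2 : v * v = 1) (c : Commute u v)
    (hu : ∀ x ∈ O, u * x * u ∈ O) (hv : ∀ x ∈ O, v * x * v ∈ O) (hx : x ∈ O) :
    ∃ a ∈ O, ∃ b ∈ O, Commute a u ∧ Commute b (u * v) ∧ Commute (b⁻¹ * a⁻¹ * x) v := by
  have w2 := sq_mul u2 v2 c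
  have hw : ∀ x ∈ O, u * v * x * (u * v) ∈ O := fun x hx => by
    simpa only [mul_assoc, c.symm.eq] using hu _ (hv x hx)
  have v2' : x * v * x⁻¹ * (x * v * x⁻¹) = 1 := by rw [conj_mul, v2]; simp
  obtain ⟨y, hy⟩ : ∃ y, y = u * (x * v * x⁻¹) := ⟨_, rfl⟩
  have n : y * (u * v) ∈ O := by
    have := mul_mem (hu x hx) (hw _ (inv_mem hx))
    rwa [show u * x * u * (u * v * x⁻¹ * (u * v)) = y * (u * v) by simp only [hy, mul_assoc, canc u2]] at this
  have y2 : y * y ∈ O := by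
    have := mul_mem n (hw _ n)
    generalize u * v = w at this w2
    simpa only [mul_assoc, canc w2, w2, mul_one] using this
  obtain ⟨k, hk⟩ := ho _ y2
  have z2 : y ^ (2 * k + 1) * y ^ (2 * k + 1) = 1 := by rw [← (Commute.refl y).mul_pow, ← hk, pow_orderOf_eq_one]
  have c1 : Commute (y ^ (2 * k + 1)) u := H9.commute_of_inverts_of_mul_self
    (H9.conj_pow_of_inverts (hy ▸ H9.left_inverts u2 v2') _) z2
  have c2 : Commute (y ^ (2 * k + 1)) (x * v * x⁻¹) := H9.commute_of_inverts_of_mul_self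
    (H9.conj_pow_of_inverts (hy ▸ H9.right_inverts u2 v2') _) z2
  have m : u * v * y ^ (2 * k + 1) ∈ O := by
    have := hw _ (mul_mem (pow_mem y2 k) n)
    rw [pow_succ, pow_mul, pow_two]
    generalize u * v = w at this w2
    simpa only [mul_assoc, w2, mul_one] using this
  obtain ⟨a, ha, e⟩ := conj_odd w2 z2 (ho _ m)
  have aO := zpowers_le.2 m ha
  have m' : v * (a⁻¹ * x * v * (a⁻¹ * x)⁻¹) ∈ O := by
    simpa only [mul_assoc] using mul_mem (hv _ (mul_mem (inv_mem aO) hx)) (inv_mem (mul_mem (inv_mem aO) hx))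
  obtain ⟨b, hb, e'⟩ := conj_odd v2 (by rw [conj_mul, v2]; simp) (ho _ m')
  refine ⟨a, aO, b, zpowers_le.2 m' hb, comm_zp ((Commute.refl u).mul_left c.symm) c1 ha,
    comm_zp (c.symm.mul_right (Commute.refl v)) ?_ hb, mul_inv_eq_iff_eq_mul.1 ?_⟩
  · rw [← e, commute_conj'] at c2
    simpa only [mul_assoc, mul_inv_rev, inv_inv] using c2.symm
  · rw [show b⁻¹ * a⁻¹ * x * v * (b⁻¹ * a⁻¹ * x)⁻¹ = b⁻¹ * (a⁻¹ * x * v * (a⁻¹ * x)⁻¹) * b by group, ← e']; group

theorem gen_odd (u2 : u * u = 1) (l : List G) : ∀ O : Subgroup G, (∀ x ∈ O, Odd (orderOf x)) →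
    (∀ e ∈ u :: l, e * e = 1 ∧ (∀ x ∈ O, e * x * e ∈ O) ∧ (∀ f ∈ u :: l, Commute e f) ∧ ∀ x ∈ O, Commute x e → x ∈ K) →
    (∀ x ∈ O, (∀ e ∈ l, Commute x (u * e)) → x ∈ K) → O ≤ K := by
  induction l with
  | nil => exact fun O _ _ h x hx => h x hx (by simp)
  | cons v l ih =>
    intro O ho h1 h2 x hx
    have hu := h1 u (by simp)
    have hv := h1 v (by simp)
    obtain ⟨a, ha, b, hb, c1, c2, c3⟩ := four_gen ho u2 hv.1 (hu.2.2.1 v (by simp)) hu.2.1 hv.2.1 hx
    have := ih (O ⊓ centralizer {u * v}) (fun x hx => ho x hx.1) (fun e he => by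
      have k := h1 e (List.cons_subset_cons u (List.subset_cons_self v l) he)
      have c := (k.2.2.1 u (by simp)).mul_right (k.2.2.1 v (by simp))
      exact ⟨k.1, fun x hx => ⟨k.2.1 x hx.1, mem_centralizer_singleton_iff.2
        ((c.mul_left (mem_centralizer_singleton_iff.1 hx.2)).mul_left c).eq⟩,
        fun f hf => k.2.2.1 f (List.cons_subset_cons u (List.subset_cons_self v l) hf),
        fun x hx => k.2.2.2 x hx.1⟩) fun x hx h => h2 x hx.1 fun e he => by
      rcases List.mem_cons.1 he with rfl | he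
      exacts [mem_centralizer_singleton_iff.1 hx.2, h e he]
    simpa [mul_assoc] using mul_mem (mul_mem (hu.2.2.2 a ha c1) (this ⟨hb, mem_centralizer_singleton_iff.2 c2⟩))
      (hv.2.2.2 _ (mul_mem (mul_mem (inv_mem hb) (inv_mem ha)) hx) c3)

theorem gen_odd' [O.Normal] (ho : ∀ x ∈ O, Odd (orderOf x)) {l : List G} (h0 : Even l.length) (h1 : l.prod = u)
    (h : ∀ e ∈ u :: l, e * e = 1 ∧ (∀ f ∈ u :: l, Commute e f) ∧ ∀ x ∈ O, Commute x e → x ∈ K) : O ≤ K := by
  have hu := h u (by simp)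
  refine gen_odd hu.1 l O ho (fun e he => ⟨(h e he).1, fun x hx => by
    simpa [inv_of_sq (h e he).1] using Normal.conj_mem inferInstance x hx e, (h e he).2⟩) fun x hx c => hu.2.2 x hx ?_
  have : ∀ l : List G, (∀ e ∈ l, Commute u e) → (l.map (u * ·)).prod = u ^ l.length * l.prod := fun l hl => by
    induction l with
    | nil => simp
    | cons a l ih =>
      rw [List.map_cons, List.prod_cons, ih fun e he => hl e (by simp [he]), List.prod_cons, List.length_cons, pow_succ',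
        mul_assoc, mul_assoc, ← mul_assoc a, ← ((hl a (by simp)).pow_left _).eq, mul_assoc]
  have := this l fun e he => hu.2.1 e (by simp [he])
  rw [pow_even_sq hu.1 h0, one_mul, h1] at this
  exact this ▸ Commute.list_prod_right _ _ (by simpa using c)

variable (Ω : Type*) [MulAction G Ω] in
/-- involutions with unique fixed points -/
structure ZC (D : Set G) : Prop where
  sq : ∀ d ∈ D, d * d = 1
  cj : ∀ g, ∀ d ∈ D, g * d * g⁻¹ ∈ D
  fix : ∀ d ∈ D, ∃ a : Ω, d • a = a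
  uniq : ∀ d ∈ D, ∀ a b : Ω, d • a = a → d • b = b → a = b
  cen : ∀ d ∈ D, ∀ e ∈ nb D d, ∀ a : Ω, d • a = a → ∀ g, Commute g (d * e) → g • a = a
  iv : ∀ (a : Ω) x, x * x = 1 → x • a = a → ∃ e ∈ D, e • a = a ∧ Commute x e

theorem eq_of_sq (ha : Odd (orderOf a)) (hb : Odd (orderOf b)) (e : a * a = b * b) : a = b := by
  obtain ⟨m, hm⟩ := ha.mul hb
  have key : ∀ c : G, orderOf c ∣ 2 * m + 1 → c = (c * c) ^ (m + 1) := fun c hc => by
    rw [← sq, ← pow_mul, show 2 * (m + 1) = 2 * m + 1 + 1 by ring, pow_succ,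
      orderOf_dvd_iff_pow_eq_one.1 hc, one_mul]
  rw [key a (hm ▸ dvd_mul_right _ _), key b (hm ▸ dvd_mul_left _ _), e]

theorem fix_of_odd [Finite G] {S : Set G} (h : Odd S.ncard) (u2 : u * u = 1) (hS : ∀ t ∈ S, u * t * u ∈ S) :
    ∃ t ∈ S, Commute u t := by
  by_contra! n
  exact Nat.not_even_iff_odd.2 h (even_of_inv (Set.toFinite S) (fun t => u * t * u) hS
    (fun t _ => by simp only [mul_assoc, canc u2, u2, mul_one]) fun t ht e => n t ht ((comm_iff_conj u2).2 e))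

namespace ZC
variable {Ω : Type*} [MulAction G Ω] {α β γ : Ω}
/-- members moving one point to another -/
def Sw (D : Set G) (α β : Ω) : Set G := {t | t ∈ D ∧ t • α = β}
theorem cfix (h : x • α = α) (g : G) : (g * x * g⁻¹) • g • α = g • α := by rw [← mul_smul, inv_mul_cancel_right, mul_smul, h]
variable [Finite G] (h : ZC Ω D)
include h
theorem cl (ha : a ∈ D) (hb : b ∈ D) : a * b * a ∈ D := by simpa [inv_of_sq (h.sq a ha)] using h.cj a b hb
theorem cf (hd : d ∈ D) (ha : d • α = α) (c : Commute x d) : x • α = α :=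
  h.uniq d hd _ _ (by rw [← mul_smul, ← c.eq, mul_smul, ha]) ha
theorem back (ht : t ∈ Sw D α β) : t • β = α := by rw [← ht.2, ← mul_smul, h.sq t ht.1, one_smul]
theorem two (hd : d ∈ D) (he : e ∈ nb D d) (ha : d • α = α) (hb : (d * e) • β = β) : β = α := by
  obtain ⟨f, hf, f1, f2⟩ := h.iv β _ (sq_mul (h.sq d hd) (h.sq e he.1) he.2.2) hb
  exact h.uniq f hf _ _ f1 (h.cen d hd e he α ha f f2.symm)
theorem refl_mem (hd : d ∈ D) (he : e ∈ D) (n : ℕ) : d * (d * e) ^ n ∈ D := by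
  induction n using Nat.strong_induction_on with | _ n ih =>
  match n with
  | 0 => simpa using hd
  | 1 => simpa [canc (h.sq d hd)] using he
  | n + 2 =>
    have := h.cj (d * e)⁻¹ _ (ih n (by omega))
    rwa [inv_inv, ← H9.left_inverts (h.sq d hd) (h.sq e he), mul_assoc _ d⁻¹, inv_mul_cancel_left, mul_assoc d,
      ← pow_succ', mul_assoc, ← pow_succ] at this
theorem odd_mul (hd : d ∈ D) (ha : d • α = α) (he : e ∈ D) (hv : e • α ≠ α) : Odd (orderOf (d * e)) :=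
  Nat.not_even_iff_odd.1 fun o => by
    obtain ⟨e1, e2, e3⟩ := H9.central_involution (h.sq d hd) (h.sq e he) o
    exact hv (h.cen d hd _ ⟨h.refl_mem hd he (orderOf (d * e) / 2), fun q => ne_one_of_ord e1 (mul_eq_left.1 q),
      (Commute.refl d).mul_right e2.symm⟩ α ha e (by rw [canc (h.sq d hd)]; exact e3.symm))
theorem swap (hd : d ∈ D) (ha : d • α = α) (he : e ∈ D) (hv : e • α ≠ α) : ∃ w ∈ D, w * d * w = e := by
  obtain ⟨m, hm⟩ := h.odd_mul hd ha he hv
  refine ⟨_, h.refl_mem hd he (m + 1), ?_⟩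
  rw [mul_assoc, canc (h.sq d hd), mul_assoc, ← pow_add, show m + 1 + (m + 1) = orderOf (d * e) + 1 by omega, pow_succ,
    pow_orderOf_eq_one, one_mul, canc (h.sq d hd)]
theorem swap' (hd : d ∈ Sw D α α) (he : e ∈ Sw D β β) (hab : α ≠ β) : ∃ w ∈ Sw D α β, w * d * w = e := by
  obtain ⟨w, hw, e'⟩ := h.swap hd.1 hd.2 he.1 fun q => hab (h.uniq e he.1 _ _ q he.2)
  exact ⟨w, ⟨hw, h.uniq e he.1 _ _ (by simpa [inv_of_sq (h.sq w hw), e'] using cfix hd.2 w) he.2⟩, e'⟩
theorem ncard_Sw (hab : α ≠ β) : (Sw D α β).ncard = (Sw D β β).ncard := by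
  obtain ⟨s, hs, s1, -⟩ := h.iv α 1 (mul_one 1) (one_smul _ _)
  have k : ∀ {t}, t ∈ Sw D α β → Odd (orderOf (s * t)) := fun ht => h.odd_mul hs s1 ht.1 fun e => hab (e.symm.trans ht.2)
  refine Set.ncard_congr (fun w _ => w * s * w) (fun w hw => ⟨h.cl hw.1 hs, by
    rw [mul_smul, mul_smul, h.back hw, s1, hw.2]⟩) (fun w w' hw hw' e => ?_) fun s' hs' => ?_
  · exact mul_left_cancel (eq_of_sq (k hw) (k hw') (by simpa [mul_assoc] using e))
  · obtain ⟨w, hw, e⟩ := h.swap' ⟨hs, s1⟩ hs' hab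
    exact ⟨w, hw, e⟩
theorem odd_ne (hab : α ≠ β) : Odd (Sw D α β).ncard := by
  obtain ⟨s, hs, s1, -⟩ := h.iv α 1 (mul_one 1) (one_smul _ _)
  obtain ⟨r, hr, r1, -⟩ := h.iv β 1 (mul_one 1) (one_smul _ _)
  obtain ⟨t, ht, -⟩ := h.swap' ⟨hs, s1⟩ ⟨hr, r1⟩ hab
  have t2 := h.sq t ht.1
  rw [← Set.ncard_sdiff_singleton_add_one ht]
  refine Even.add_one (even_of_inv (Set.toFinite _) (fun w => t * w * t) (fun w hw => ⟨⟨h.cl ht.1 hw.1.1, by
    rw [mul_smul, mul_smul, ht.2, h.back hw.1, ht.2]⟩, fun q => hw.2 ?_⟩)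
    (fun w _ => by simp only [mul_assoc, canc t2, t2, mul_one]) fun w hw q => ?_)
  · have : t * w * t = t := q
    rw [Set.mem_singleton_iff, ← canc t2 w, mul_eq_right.1 this, mul_one]
  · obtain ⟨c, hc⟩ := h.fix t ht.1
    exact hab ((h.two ht.1 ⟨hw.1.1, hw.2, (comm_iff_conj t2).2 q⟩ hc (by rw [mul_smul, hw.1.2, h.back ht])).trans
      (h.two ht.1 ⟨hw.1.1, hw.2, (comm_iff_conj t2).2 q⟩ hc (by rw [mul_smul, h.back hw.1, ht.2])).symm)
theorem odd_Sw [Nontrivial Ω] (α β : Ω) : Odd (Sw D α β).ncard := by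
  by_cases e : α = β
  · obtain ⟨c, hc⟩ := exists_ne β
    exact e ▸ (e ▸ h.ncard_Sw hc ▸ h.odd_ne hc)
  · exact h.odd_ne e
theorem cover [Nontrivial Ω] (u2 : u * u = 1) (γ : Ω) : ∃ f ∈ D, Commute u f ∧ (f * u) • γ = γ := by
  obtain ⟨f, hf, e⟩ := fix_of_odd (h.odd_Sw (u • γ) γ) u2 fun w hw => ⟨by simpa [inv_of_sq u2] using h.cj u w hw.1, by
    rw [mul_smul, mul_smul, ← mul_smul u u, u2, one_smul, h.back hw, ← mul_smul, u2, one_smul]⟩
  exact ⟨f, hf.1, e, by rw [mul_smul, hf.2]⟩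
theorem ker (hd : d ∈ D) (he : e ∈ nb D d) (ha : d • α = α) (hb : β ≠ α) : ∃ t ∈ D, ∀ c : Ω, (t * (d * e)) • c = c := by
  have : Nontrivial Ω := ⟨_, _, hb⟩
  have u2 := sq_mul (h.sq d hd) (h.sq e he.1) he.2.2
  have uq := fun β => h.two (β := β) hd he ha
  have ce := h.cen d hd e he α ha
  generalize d * e = u at u2 uq ce
  obtain ⟨t, ht, tu, e1⟩ := h.cover u2 β
  have ta := ce t tu.symm
  have z2 := sq_mul (h.sq t ht) u2 tu.symm
  have za : (t * u) • α = α := by rw [mul_smul, ce u (Commute.refl u), ta]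
  have tz : Commute t (t * u) := (Commute.refl t).mul_right tu.symm
  obtain ⟨w, hw, wz⟩ := fix_of_odd (h.odd_Sw α β) z2 fun w hw => ⟨by simpa only [inv_of_sq z2] using h.cj (t * u) w hw.1, by
    rw [mul_smul, mul_smul, za, hw.2, e1]⟩
  have k : ∀ f ∈ D, ∀ α, f • α = α → ∀ f' ∈ D, f' • α ≠ α → Commute f (t * u) → Commute f' (t * u) →
      ∃ g, Commute g (t * u) ∧ g * f * g⁻¹ = f' := fun f hf α f1 f' hf' n c c' => by
    obtain ⟨g, hg, q⟩ := conj_odd (h.sq f hf) (h.sq f' hf') (h.odd_mul hf f1 hf' n)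
    exact ⟨g, comm_zp c c' hg, q⟩
  refine ⟨t, ht, fun c => ?_⟩
  obtain ⟨f, hf, fz, e'⟩ := h.cover z2 c
  obtain ⟨g, hg, rfl⟩ : ∃ g, Commute g (t * u) ∧ g * t * g⁻¹ = f := by
    by_cases q : f • α = α
    · obtain ⟨g, g1, g2⟩ := k t ht α ta w hw.1 (hw.2 ▸ hb) tz wz.symm
      obtain ⟨k, k1, k2⟩ := k f hf α q w hw.1 (hw.2 ▸ hb) fz.symm wz.symm
      exact ⟨k⁻¹ * g, k1.inv_left.mul_left g1, by
        rw [show k⁻¹ * g * t * (k⁻¹ * g)⁻¹ = k⁻¹ * (g * t * g⁻¹) * k by group, g2, ← k2]; group⟩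
    · exact k t ht α ta f hf q tz fz.symm
  have e1 : g * t * g⁻¹ * (t * u) = g * u * g⁻¹ := by
    rw [mul_assoc, hg.inv_left.eq]; simp only [mul_assoc, canc (h.sq t ht)]
  rw [e1, mul_smul, mul_smul, ← eq_inv_smul_iff] at e'
  have := cfix (x := t * u) (α := g⁻¹ • c) (by rw [uq _ e', za]) g
  rwa [hg.eq, mul_inv_cancel_right, smul_inv_smul] at this
end ZC

/-- a class of involutions which is locally a Fischer space -/
structure Gl (D : Set G) : Prop where
  ord : ∀ p ∈ D, orderOf p = 2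
  cj : ∀ g, ∀ p ∈ D, g * p * g⁻¹ ∈ D
  cls : ∀ a ∈ D, ∀ b ∈ D, IsConj a b
  cen : ∀ p ∈ D, ∀ g, Commute p g → g ∈ closure (nb D p)
  zc : ∀ p ∈ D, ∀ g, Commute p g → (∀ e ∈ nb D p, Commute g e) → g = 1 ∨ g = p
  loc : ∀ p ∈ D, Gd (nb D p)
  dia : ∀ a ∈ D, ∀ x, Cn D a x → ∃ s ∈ D, Commute a s ∧ Commute x s
  n2 : ∀ a ∈ D, ∀ b ∈ nb D a, a * b ∉ D
  hep : ∀ p ∈ D, Hep (nb D p) p

theorem normal_cent (y : G) : ((zpowers y).subgroupOf (centralizer {y})).Normal := ⟨fun n hn g => by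
  rw [mem_subgroupOf] at hn ⊢
  obtain ⟨k, e⟩ := mem_zpowers_iff.1 hn
  simp only [Subgroup.coe_mul, ← e, ((show Commute g.1 y from mem_centralizer_singleton_iff.1 g.2).zpow_right k).eq]
  simp⟩

namespace Gl
variable (h : Gl D) (hp : p ∈ D)
include h
theorem sq (ha : a ∈ D) : a * a = 1 := sq_of_ord (h.ord a ha)
include hp
omit h in
theorem adj (ha : a ∈ cmp D p) (hb : b ∈ D) (c : Commute a b) : b ∈ cmp D p := Cn.trans ha (Cn.adj (cmp_sub hp ha) hb c)
theorem t3 : T3 (cmp D p) := by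
  refine ⟨⟨fun a ha => h.ord a (cmp_sub hp ha), fun a ha b hb => ?_⟩, fun a ha b hb => ?_⟩
  · have a1 := cmp_sub hp ha
    have b1 := cmp_sub hp hb
    obtain ⟨s, hs, c1, c2⟩ := h.dia a a1 b (Cn.trans (Cn.symm ha) hb)
    by_cases e1 : a = s
    · exact Or.inl (sq_of_comm (h.sq a1) (h.sq b1) (e1 ▸ c2.symm))
    by_cases e2 : b = s
    · exact Or.inl (sq_of_comm (h.sq a1) (h.sq b1) (e2 ▸ c1))
    exact (h.loc s hs).t3.t3.2 a ⟨a1, e1, c1.symm⟩ b ⟨b1, e2, c2.symm⟩
  · have := (Cn.trans (Cn.symm ha) hb).conj h.cj a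
    rw [mul_inv_cancel_right, inv_of_sq (h.sq (cmp_sub hp ha))] at this
    exact Cn.trans ha this
theorem gd : Gd (cmp D p) :=
  gd_of_loc (h.t3 hp) ⟨p, Cn.refl p⟩ fun x hx => (nb_cmp hp hx).symm ▸ h.loc x (cmp_sub hp hx)
theorem pc [Finite G] : PC (ins (cmp D p)) := (h.gd hp).pc (cn_cmp hp)
theorem mem (ha : a ∈ cmp D p) {g : G} (hb : g * a * g⁻¹ ∈ cmp D p) : g ∈ closure (cmp D p) := by
  obtain ⟨m, hm, e⟩ := (h.gd hp).con.class (h.t3 hp) ha hb
  refine (mul_mem_cancel_left (inv_mem hm)).1 (closure_mono (fun x hx => adj hp ha hx.1 hx.2.2)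
    (h.cen a (cmp_sub hp ha) _ (Commute.symm (mul_inv_eq_iff_eq_mul.1 ?_))))
  rw [show m⁻¹ * g * a * (m⁻¹ * g)⁻¹ = m⁻¹ * (g * a * g⁻¹) * m by group, ← e]; group
theorem center_cmp : center (closure (cmp D p)) = ⊥ := by
  have m : p ∈ cmp D p := Cn.refl p
  refine eq_bot_iff.2 fun z hz => ?_
  have c : ∀ e ∈ cmp D p, Commute (z : G) e := fun e he =>
    (congrArg Subtype.val (mem_center_iff.1 hz ⟨e, subset_closure he⟩)).symm
  rcases h.zc p hp z (c p m).symm fun e he => c e (adj hp m he.1 he.2.2) with e | e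
  · exact Subtype.ext e
  · obtain ⟨b, hb, n⟩ := (h.gd hp).par p m
    exact absurd (e ▸ c b hb) n

variable [Finite G] (iv : ∀ x ∈ closure (cmp D p), x * x = 1 → ∃ e ∈ cmp D p, Commute x e)
include iv
omit [Finite G] in
theorem inter (ha : a ∈ D) (m : a ∈ closure (cmp D p)) : a ∈ cmp D p :=
  let ⟨_, he, c⟩ := iv a m (h.sq ha); adj hp he ha c.symm

theorem cen2 (ha : a ∈ cmp D p) (hb : b ∈ nb D a) {g : G} (hg : Commute g (a * b)) : g ∈ closure (cmp D p) := by
  have a1 := cmp_sub hp ha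
  have a2 := h.sq a1
  have b2 := h.sq hb.1
  have := normal_cent (a * b)
  obtain ⟨φ, x⟩ : ∃ φ : centralizer {a * b} →* centralizer {a * b} ⧸ (zpowers (a * b)).subgroupOf _,
      Ext φ (inC (a * b)) := ⟨_, ext_cent (ord_of_sq (sq_mul a2 b2 hb.2.2) fun e => hb.2.1 (by
    rw [eq_inv_of_mul_eq_one_right e, inv_of_sq a2])) (MulEquiv.refl _)⟩
  have key : ∀ e k : centralizer {a * b}, e.1 ∈ cmp D p → Commute (φ k) (φ e) → k.1 ∈ closure (cmp D p) :=
    fun e k he c => by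
      refine h.mem hp he ?_
      rcases (x.eq (a := k * e * k⁻¹) (b := e)).1 (by simp [c.eq]) with q | q
      · exact (show k.1 * e * k.1⁻¹ = e from congrArg Subtype.val q).symm ▸ he
      · refine adj hp he (h.cj _ _ (cmp_sub hp he)) ?_
        exact (show k.1 * e * k.1⁻¹ = e * (a * b) from congrArg Subtype.val q) ▸
          (Commute.refl _).mul_right (mem_centralizer_singleton_iff.1 e.2)
  let A : centralizer {a * b} := ⟨a, mem_centralizer_singleton_iff.2 ((Commute.refl a).mul_right hb.2.2).eq⟩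
  have iso : IsIsolatedInvolution (φ A) := by
    refine ⟨ord_of_sq (by rw [← map_mul, show A * A = 1 from Subtype.ext a2, map_one]) fun e => ?_, fun k c => ?_⟩
    · rcases (x.ker A).1 e with e | e
      · exact ne_one_of_ord (h.ord a a1) (congrArg Subtype.val e)
      · exact ne_one_of_ord (h.ord b hb.1) (left_eq_mul.1 (congrArg Subtype.val e : a = a * b))
    obtain ⟨k, rfl⟩ := x.surj k
    rw [← map_inv, ← map_mul, ← map_mul] at c ⊢
    have m : (k * A * k⁻¹).1 ∈ D := h.cj k a a1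
    have m' : (k * A * k⁻¹).1 * (a * b) ∈ D := by
      have := h.cj k b hb.1
      rwa [show k.1 * b * k.1⁻¹ = k.1 * a * k.1⁻¹ * (a * b) by
        rw [mul_assoc _ _ (a * b), (show Commute k.1 (a * b) from mem_centralizer_singleton_iff.1 k.2).inv_left.eq]
        simp only [mul_assoc, canc a2]] at this
    generalize k * A * k⁻¹ = B at c m m'
    have cB : Commute B.1 (a * b) := mem_centralizer_singleton_iff.1 B.2
    have B2 := h.sq m
    refine x.eq.2 (by_contra fun n => ?_)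
    simp only [not_or, Subtype.ext_iff] at n
    replace n : B.1 ≠ a ∧ B.1 ≠ b := ⟨n.1, fun q => n.2 (q.trans (canc a2 b).symm)⟩
    have cb : Commute a B.1 → False := fun c => by
      obtain ⟨w, hw, c1, c2⟩ := (h.loc a a1).sep (h.loc a a1).vt hb ⟨m, n.1, c⟩ n.2.symm
      refine c2 (t3_two (h.loc a a1).t3.t3 ⟨m, n.1, c⟩ ⟨m', fun q => n.2 ?_, c.mul_right ((Commute.refl a).mul_right hb.2.2)⟩
        hw (fun q => hb.2.1 ?_) (by rw [canc B2]; exact hw.2.2.symm.mul_right c1.symm)).1.symm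
      · rw [eq_mul_inv_of_mul_eq q, inv_of_sq (sq_mul a2 b2 hb.2.2), canc a2]
      · rw [eq_inv_of_mul_eq_one_right (left_eq_mul.1 q), inv_of_sq a2]
    rcases (x.eq (a := A * B) (b := B * A)).1 (by simp [c.eq]) with q | q
    · exact cb (congrArg Subtype.val q)
    have q' : B.1 * a * B.1 = b := by
      rw [mul_assoc, show a * B.1 = B * a * (a * b) from congrArg Subtype.val q, mul_assoc, canc B2, canc a2]
    have := h.inter hp iv m (h.mem hp ha (by rw [inv_of_sq B2, q']; exact adj hp ha hb.1 hb.2.2))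
    refine cb (by_contra fun c => n.2 ?_)
    rw [← t3_braid (h.t3 hp).t3 ha this c] at q'
    exact Eq.trans (by simp only [mul_assoc, canc a2, a2, mul_one])
      ((congrArg (fun x => a * x * a) q').trans ((comm_iff_conj a2).1 hb.2.2))
  obtain ⟨l, l1, l2, l3, l4, l5⟩ := h.hep a a1
  obtain ⟨e0, he0⟩ := List.exists_mem_of_ne_nil l l2
  obtain ⟨k, hk, rfl⟩ := (h.loc a a1).con.class (h.loc a a1).t3 (l3 e0 he0) hb
  have ck := comm_nb hk
  have m : ∀ e ∈ l, k * e * k⁻¹ ∈ centralizer {a * (k * e0 * k⁻¹)} := fun e he => mem_centralizer_singleton_iff.2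
    (((h.loc a a1).t3.conj_mem hk e (l3 e he)).2.2.symm.mul_right ((commute_conj k).2 (l4 e he e0 he0))).eq
  obtain ⟨l', hl'⟩ : ∃ l' : List (centralizer {a * (k * e0 * k⁻¹)}), l'.map Subtype.val = l.map fun e => k * e * k⁻¹ := by
    lift l.map fun e => k * e * k⁻¹ to List (centralizer {a * (k * e0 * k⁻¹)}) using by simpa using m with l' hl'
    exact ⟨l', rfl⟩
  have m1 : ∀ e ∈ A :: l', e.1 = a ∨ ∃ f ∈ l, k * f * k⁻¹ = e := fun e he => (List.mem_cons.1 he).imp
    (congrArg Subtype.val) fun he => List.mem_map.1 (hl' ▸ List.mem_map_of_mem he)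
  have m2 : ∀ e ∈ A :: l', e.1 ∈ cmp D p := fun e he => by
    rcases m1 e he with q | ⟨f, hf, q⟩
    · rwa [q]
    · have := q ▸ (h.loc a a1).t3.conj_mem hk f (l3 f hf)
      exact adj hp ha this.1 this.2.2
  have le := gen_odd' (O := pPrimeCore 2 _) (K := ((closure (cmp D p)).subgroupOf _).map φ) (u := φ A) (l := l'.map φ)
    (fun x hx => H9.odd_card_pPrimeCore.of_dvd_nat (orderOf_dvd_natCard _ hx))
    (by rwa [List.length_map, ← List.length_map Subtype.val, hl', List.length_map]) (by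
      rw [← map_list_prod]
      refine congrArg φ (Subtype.ext ?_)
      rw [Subgroup.val_list_prod, hl', ← conj_list, l5, ck.eq, mul_inv_cancel_right]) (by
      rw [← List.map_cons]
      simp only [List.mem_map]
      rintro _ ⟨e, he, rfl⟩
      refine ⟨by rw [← map_mul, show e * e = 1 from Subtype.ext (h.sq (cmp_sub hp (m2 e he))), map_one], ?_, fun y _ c => ?_⟩
      · rintro _ ⟨f, hf, rfl⟩
        refine Commute.map (Subtype.ext ?_) φ
        change Commute e.1 f.1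
        rcases m1 e he with q | ⟨e', he', q⟩ <;> rcases m1 f hf with r | ⟨f', hf', r⟩
        · rw [q, r]
        · rw [q, ← r]; exact ((h.loc a a1).t3.conj_mem hk _ (l3 _ hf')).2.2
        · rw [← q, r]; exact ((h.loc a a1).t3.conj_mem hk _ (l3 _ he')).2.2.symm
        · rw [← q, ← r]; exact (commute_conj k).2 (l4 _ he' _ hf')
      · obtain ⟨y, rfl⟩ := x.surj y
        exact ⟨y, key e y (m2 e he) c, rfl⟩)
  obtain ⟨n, hn, c⟩ := H9.zstar_factor iso (φ ⟨g, mem_centralizer_singleton_iff.2 hg.eq⟩)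
  obtain ⟨y, hy, rfl⟩ := le hn
  rw [← map_inv, ← map_mul] at c
  exact (mul_mem_cancel_left (inv_mem (mem_subgroupOf.1 hy))).1 (key A _ ha c)

theorem zc' : ZC (G ⧸ closure (cmp D p)) D := by
  have fx : ∀ x g : G, x • (g : G ⧸ closure (cmp D p)) = g ↔ g⁻¹ * x * g ∈ closure (cmp D p) := fun x g => by
    rw [MulAction.Quotient.smul_mk, eq_comm, QuotientGroup.eq, smul_eq_mul, mul_assoc]
  have cj : ∀ g, ∀ x ∈ D, g⁻¹ * x * g ∈ D := fun g x hx => by simpa using h.cj g⁻¹ x hx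
  refine ⟨fun _ => h.sq, h.cj, fun d hd => ?_, fun d hd a b => ?_, fun d hd e he a => ?_, fun a x x2 => ?_⟩
  · obtain ⟨g, rfl⟩ := isConj_iff.1 (h.cls p hp d hd)
    exact ⟨g, (fx _ g).2 (by simpa [mul_assoc] using subset_closure (k := cmp D p) (Cn.refl p))⟩
  · obtain ⟨g, rfl⟩ := QuotientGroup.mk_surjective a
    obtain ⟨k, rfl⟩ := QuotientGroup.mk_surjective b
    rw [fx, fx, QuotientGroup.eq]
    exact fun h1 h2 => h.mem hp (h.inter hp iv (cj k d hd) h2) (by
      simpa [mul_assoc] using h.inter hp iv (cj g d hd) h1)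
  · obtain ⟨k, rfl⟩ := QuotientGroup.mk_surjective a
    simp only [fx]
    intro h1 g c
    refine h.cen2 hp iv (h.inter hp iv (cj k d hd) h1) (b := k⁻¹ * e * k) ⟨cj k e he.1, by simpa using he.2.1, by
      simpa using (commute_conj k⁻¹).2 he.2.2⟩ ?_
    simpa [mul_assoc] using (commute_conj k⁻¹).2 c
  · obtain ⟨k, rfl⟩ := QuotientGroup.mk_surjective a
    simp only [fx]
    intro h1
    obtain ⟨e, he, c⟩ := iv _ h1 (by simp [mul_assoc, canc x2])
    exact ⟨_, h.cj k e (cmp_sub hp he), by simpa [mul_assoc] using subset_closure (k := cmp D p) he,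
      (commute_conj'.2 c.symm).symm⟩

theorem top : closure (cmp D p) = ⊤ := by
  have z := h.zc' hp iv
  have m : p ∈ cmp D p := Cn.refl p
  have fx : ∀ x : G, x • ((1 : G) : G ⧸ closure (cmp D p)) = (1 : G) ↔ x ∈ closure (cmp D p) := fun x => by
    rw [MulAction.Quotient.smul_mk, eq_comm, QuotientGroup.eq, smul_eq_mul, mul_one, inv_one, one_mul]
  refine eq_top_iff.2 fun g _ => by_contra fun n => ?_
  have hb : (g : G ⧸ closure (cmp D p)) ≠ (1 : G) := fun e => n (by simpa using QuotientGroup.eq.1 e.symm)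
  obtain ⟨e, he⟩ := (h.loc p hp).ne
  have e1 := adj hp m he.1 he.2.2
  obtain ⟨t, ht, k⟩ := z.ker hp he ((fx p).2 (subset_closure m)) hb
  have v := (fx _).1 (k (1 : G))
  have t1 := h.inter hp iv ht ((mul_mem_cancel_right (mul_mem (subset_closure m) (subset_closure e1))).1 v)
  have T := h.t3 hp
  have nD : t * (p * e) ∉ D := fun q => hb (z.uniq _ q _ _ (k _) (k _))
  obtain ⟨w, hw, c⟩ : ∃ w ∈ cmp D p, ¬ Commute w (t * (p * e)) := by
    by_contra! c
    obtain ⟨c1, c2⟩ := t3_two T.t3 m e1 t1 he.2.1.symm (by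
      simpa [canc (h.sq ht)] using (Commute.refl t).mul_right (c t t1))
    obtain ⟨b, hb, n⟩ := (h.gd hp).par p m
    exact n (t3_three T.t3 t1 m e1 hb (fun q => nD (by rw [q, canc (h.sq hp)]; exact he.1))
      (fun q => nD (by rw [he.2.2.eq, q, canc (h.sq he.1)]; exact hp)) he.2.1.symm c1 c2 he.2.2
      (by simpa [mul_assoc] using c b hb)).2.1.symm
  let N := (MulAction.toPermHom G (G ⧸ closure (cmp D p))).ker
  have vN : t * (p * e) ∈ N := Equiv.ext k
  have := (h.pc hp).ie (R := fun a b => a.1⁻¹ * b.1 ∈ N) ⟨fun a => by simp, fun a b q => by simpa using inv_mem q,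
    fun a b c q r => by simpa [mul_assoc] using mul_mem q r,
    fun g a b q => by simpa [mul_assoc] using Normal.conj_mem inferInstance _ q g.1⟩ (u := inE hw)
    (v := inE (T.conj_mem v w hw)) hw (T.conj_mem v w hw)
    (fun q => c (Commute.symm (mul_inv_eq_iff_eq_mul.1 (congrArg Subtype.val q).symm))) (inv_mul_conj_mem vN w)
  obtain ⟨f, hf⟩ := (h.loc w (cmp_sub hp hw)).ne
  have q := this (inE (adj hp hw hf.1 hf.2.2)) (adj hp hw hf.1 hf.2.2)
  change w⁻¹ * f ∈ N at q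
  rw [inv_of_sq (h.sq (cmp_sub hp hw))] at q
  exact hb (z.two (cmp_sub hp hw) hf ((fx w).2 (subset_closure hw)) (Equiv.ext_iff.1 q (g : G ⧸ closure (cmp D p))))

theorem fin : PC D ∧ center G = ⊥ := by
  have t := h.top hp iv
  have e : cmp D p = D := (cmp_sub hp).antisymm fun a ha => h.inter hp iv ha (t ▸ mem_top a)
  have P := (fi_ins (h.t3 hp)).pc (h.pc hp) t
  rw [e] at P
  refine ⟨P, eq_bot_iff.2 fun z hz => ?_⟩
  have c : ∀ e, Commute z e := fun e => (mem_center_iff.1 hz e).symm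
  rcases h.zc p hp z (c p).symm fun e _ => c e with q | rfl
  · exact q
  · obtain ⟨b, -, n⟩ := P.par P.two z hp
    exact absurd (c b) n
end Gl

end H28
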