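import Cfsg.Agent.H28.RB

/-! Recognition of `Fi22` and `Fi23` by the centraliser of an involution. -/

namespace H28
open Cfsg H15 Subgroup

variable {G H X : Type*} [Group G] [Group H] [Group X] {π : H →* X} {d : H} {E : Set H} {E' : Set X} {ι : H →* G}
  {D : Set G} {p : G}

theorem cl_cj (p g : G) : ∀ x ∈ cl p, g * x * g⁻¹ ∈ cl p := fun _ hx => IsConj.trans hx (isConj_iff.2 ⟨g, rfl⟩)

theorem Em.loc (h : Em ι d) (e : nb (cl (ι d)) (ι d) = ι '' E) (hp : p ∈ cl (ι d)) :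
    ∃ ι' : H →* G, Em ι' d ∧ ι' d = p ∧ nb (cl (ι d)) p = ι' '' E := by
  obtain ⟨g, rfl⟩ := isConj_iff.1 hp
  refine ⟨_, h.cj g, rfl, ?_⟩
  rw [← cj_eq (g := g) (cl_cj (ι d)), ← cj_nb, e, cjs, Set.image_image]; rfl

theorem Lf.gl [Finite X] (L : Lf π d E E') (hp : Group.IsPerfect H) (hz : center X = ⊥) (hh : Hep E d) (h : Em ι d)
    (e : nb (cl (ι d)) (ι d) = ι '' E)
    (dia : ∀ a ∈ cl (ι d), ∀ x, Cn (cl (ι d)) a x → ∃ s ∈ cl (ι d), Commute a s ∧ Commute x s) : Gl (cl (ι d)) := by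
  refine ⟨fun p hp => by
      rw [← H9.IsConj.orderOf_eq' hp, orderOf_injective ι h.inj, ord_of_sq L.sq L.ne], cl_cj _,
    fun a ha b hb => IsConj.trans (IsConj.symm ha) hb, fun p m g c => ?_, fun p m g c c' => ?_, fun p m => ?_, dia,
    fun p m b hb m' => ?_, fun p m => ?_⟩ <;> obtain ⟨ι', h', rfl, e'⟩ := h.loc e m
  · obtain ⟨x, rfl⟩ := h'.rng g c
    rw [e', ← MonoidHom.map_closure, L.gen hp]
    exact ⟨x, trivial, rfl⟩
  · obtain ⟨x, rfl⟩ := h'.rng g c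
    exact ((L.ker x).1 (L.z hz fun e he => (c' _ (e'.ge ⟨e, he, rfl⟩)).of_map h'.inj)).imp (fun q => by simp [q]) (congrArg ι')
  · obtain ⟨γ, f, -⟩ := L.fi.symm
    exact e' ▸ (fi_inj L.T3 ι' h'.inj).gd (f.gd L.pc.gd)
  · replace hb := e'.le hb
    obtain ⟨b, hb, rfl⟩ := hb
    obtain ⟨c, hc, q⟩ : ι' d * ι' b ∈ ι' '' E := e'.le ⟨m', fun q => t3_ne L.t3 hb (h'.inj (by simpa using q)),
      (Commute.refl _).mul_right ((L.cen b).map ι')⟩
    rw [← map_mul] at q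
    obtain rfl := h'.inj q
    exact L.ne (mul_eq_right.1 (L.inj hc hb (by simp [L.pd])))
  · obtain ⟨l, l1, l2, l3, l4, l5⟩ := hh
    rw [e']
    refine ⟨l.map ι', by simpa using l1, by simpa using l2, ?_, ?_, by rw [← map_list_prod, l5]⟩ <;>
      simp only [List.mem_map]
    · rintro _ ⟨a, ha, rfl⟩; exact ⟨a, l3 a ha, rfl⟩
    · rintro _ ⟨a, ha, rfl⟩ _ ⟨b, hb, rfl⟩; exact (l4 a ha b hb).map ι'

theorem Gl.loc_ins (hp : p ∈ D) (h : Gl D) {x : closure (cmp D p)} (hx : x ∈ ins (cmp D p)) :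
    ∃ β, FI β (nb D x) (nb (ins (cmp D p)) x) := by
  obtain ⟨γ, f, -⟩ := ((fi_ins (h.t3 hp)).nb hx).symm
  exact ⟨γ, nb_cmp hp hx ▸ f⟩

theorem TL.map (h : TL E) (hi : Function.Injective ι) : TL (ι '' E) :=
  h.elim fun _ l => ⟨_, l.push ⟨fun a _ b _ => map_mul ι a b, hi.injOn⟩ (fi_inj l.T3 ι hi).t3'.t3⟩

theorem Q22.map (h : Q22 E) (hi : Function.Injective ι) : Q22 (ι '' E) := by
  obtain ⟨f, hf⟩ := hi.hasLeftInverse
  refine Q22.pull (f := f) (fi_inj h.t3 ι hi).t3' ⟨fun a ha b hb => ?_, ?_⟩ (by rwa [hf.image_image])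
  · rw [← MonoidHom.map_closure] at ha hb
    obtain ⟨a, -, rfl⟩ := ha
    obtain ⟨b, -, rfl⟩ := hb
    rw [← map_mul, hf, hf, hf]
  · rintro _ ⟨a, -, rfl⟩ _ ⟨b, -, rfl⟩ e
    rw [hf, hf] at e; rw [e]

theorem UX.main [Finite G] (U : UX E') (x : Ext π d) (hp : Group.IsPerfect H) (h : Em ι d)
    (hn : (nb (cl (ι d)) (ι d)).Nonempty) : PC (cl (ι d)) ∧ center G = ⊥ ∧ T22 (cl (ι d)) := by
  have := U.fin
  obtain ⟨E, L⟩ := U.lift x
  obtain ⟨E, L, e⟩ := L.fuse (fun E L => L.fu_u U hp) h hn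
  have loc : ∀ p ∈ cl (ι d), TL (nb (cl (ι d)) p) := fun p m => by
    obtain ⟨ι', h', -, e'⟩ := h.loc e m
    exact e' ▸ (L.tl U.tl).map h'.inj
  have g := L.gl hp U.z (L.hep_u U hp) h e fun a ha x => dia_of_conn loc ha
  have m : ι d ∈ cl (ι d) := IsConj.refl _
  have P := g.pc m
  have F := fx_of P.grp ((P.t22 fun x hx => (g.loc_ins m hx).elim fun _ f =>
    f.mu (loc _ (cmp_sub m hx)).mu).type (g.center_cmp m))
  obtain ⟨P, z⟩ := g.fin m fun x hx x2 => by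
    obtain ⟨e, he, c⟩ := (F.cov ⟨x, hx⟩ (Subtype.ext x2)).comm F.q.ne
    exact ⟨e, he, congrArg Subtype.val c⟩
  exact ⟨P, z, P.t22 fun x hx => (loc x hx).mu⟩

theorem dia_q22 (loc : ∀ x ∈ D, Q22 (nb D x)) {a x : G} (ha : a ∈ D) (h : Cn D a x) :
    ∃ s ∈ D, Commute a s ∧ Commute x s := by
  induction h with
  | refl => exact ⟨a, ha, Commute.refl _, Commute.refl _⟩
  | @tail p x _ hp ih =>
    obtain ⟨s, hs, h1, h2⟩ := ih
    by_cases h : Commute p a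
    · exact ⟨p, hp.1, h.symm, hp.2.2.symm⟩
    by_cases e : Commute s x
    · exact ⟨s, hs, h1, e.symm⟩
    have a1 : a ∈ nb D s := ⟨ha, fun q => h (q ▸ h2), h1.symm⟩
    have p1 : p ∈ nb D s := ⟨hp.1, fun q => h (q ▸ h1.symm), h2.symm⟩
    have x1 : x ∈ nb D p := ⟨hp.2.1, fun q => e (q ▸ h2.symm), hp.2.2⟩
    have s1 := nb_symm hs p1
    obtain ⟨y, hy, y1, y2⟩ := (loc s hs).dia p p1 a a1
    obtain ⟨z, hz, z1, z2⟩ := (loc p hp.1).dia s s1 x x1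
    obtain ⟨t, ht, h3⟩ := ((loc s hs).loc p p1).meet (hyper p1 a1 h fun q hq _ => (loc s hs).loc q hq.1)
      (nb_comm p s ▸ hyper s1 x1 e fun q hq _ => (loc p hp.1).loc q hq.1) ⟨hy, fun q => h (q ▸ y2.symm), y1⟩ y2
      (nb_comm p s ▸ ⟨hz, fun q => e (q ▸ z2.symm), z1⟩) z2
    exact ⟨t, ht.1.1, h3⟩

theorem FX.t22 (F : FX E') : T22 E' := have := F.fin; F.pc.t22 fun x hx => (F.q.loc x hx).mu

theorem FX.main [Finite G] (U : FX E') (x : Ext π d) (hp : Group.IsPerfect H) (h : Em ι d)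
    (hn : (nb (cl (ι d)) (ι d)).Nonempty) : PC (cl (ι d)) ∧ center G = ⊥ ∧ T23 (cl (ι d)) := by
  have := U.fin
  obtain ⟨E, L⟩ := U.lift x
  obtain ⟨E, L, e⟩ := L.fuse (fun E L => L.fu_f U hp) h hn
  have loc : ∀ p ∈ cl (ι d), Q22 (nb (cl (ι d)) p) ∧ T22 (nb (cl (ι d)) p) := fun p m => by
    obtain ⟨ι', h', -, e'⟩ := h.loc e m
    obtain ⟨γ, f, -⟩ := L.fi.symm
    exact e' ▸ ⟨(L.q22 U.q).map h'.inj, (fi_inj L.T3 ι' h'.inj).t22 (f.t22 U.t22)⟩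
  have g := L.gl hp U.z (L.hep_f U hp) h e fun a ha x => dia_q22 (fun p m => (loc p m).1) ha
  have m : ι d ∈ cl (ι d) := IsConj.refl _
  have n := ((g.pc m).t23 fun x hx => (g.loc_ins m hx).elim fun _ f => f.t22 (loc _ (cmp_sub m hx)).2).card
  rw [ncard_ins] at n
  obtain ⟨P, z⟩ := g.fin m fun x hx x2 => fix_of_odd (by rw [n]; decide) x2 fun t ht => by
    simpa [inv_of_sq x2] using (g.t3 m).conj_mem hx t ht
  exact ⟨P, z, P.t23 fun x hx => (loc x hx).2⟩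

theorem nb_cl_ne {d : G} (h : ∃ g : G, g * d * g⁻¹ ∈ centralizer ({d} : Set G) ∧ g * d * g⁻¹ ≠ d) :
    (nb (cl d) d).Nonempty :=
  let ⟨g, h1, h2⟩ := h; ⟨_, isConj_iff.2 ⟨g, rfl⟩, h2, (show Commute _ d from mem_centralizer_singleton_iff.1 h1).symm⟩

theorem rec22 [Finite G] {d : G} (hd : orderOf d = 2) (hq : IsQuasisimple (centralizer ({d} : Set G)))
    [((zpowers d).subgroupOf (centralizer ({d} : Set G))).Normal] {K : Type} [Field K] [Fintype K]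
    (hK : Fintype.card K = 4)
    (e : centralizer ({d} : Set G) ⧸ (zpowers d).subgroupOf (centralizer ({d} : Set G)) ≃* PSU 6 K 2)
    (hn : ∃ g : G, g * d * g⁻¹ ∈ centralizer ({d} : Set G) ∧ g * d * g⁻¹ ≠ d) :
    IsThreeTranspositionClass (conjugatesOf d) ∧ IsOfTypeM22 G (conjugatesOf d) := by
  obtain ⟨E', U⟩ := psu_ux hK
  obtain ⟨P, z, t⟩ := U.main (ext_cent hd e) hq.1 (em_cent d) (nb_cl_ne hn)
  exact ⟨P.cls ⟨d, IsConj.refl d⟩, t.type z⟩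

theorem rec23 [Finite G] {d : G} (hd : orderOf d = 2) (hq : IsQuasisimple (centralizer ({d} : Set G)))
    [((zpowers d).subgroupOf (centralizer ({d} : Set G))).Normal]
    {E : Set (centralizer ({d} : Set G) ⧸ (zpowers d).subgroupOf (centralizer ({d} : Set G)))}
    (h1 : IsThreeTranspositionGroup E) (h2 : IsOfTypeM22 _ E)
    (hn : ∃ g : G, g * d * g⁻¹ ∈ centralizer ({d} : Set G) ∧ g * d * g⁻¹ ≠ d) :
    IsThreeTranspositionClass (conjugatesOf d) ∧ IsOfTypeM23 G (conjugatesOf d) := by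
  obtain ⟨P, z, t⟩ := (fx_of h1 h2).main (ext_cent hd (MulEquiv.refl _)) hq.1 (em_cent d) (nb_cl_ne hn)
  exact ⟨P.cls ⟨d, IsConj.refl d⟩, t.type z⟩

end H28
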