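import Cfsg.Agent.H28.RC
import Cfsg.Agent.H15.Fi22x

/-! The transpositions of `Spor.Fi22` are of type M(22). -/

namespace H28
open Cfsg H15 Subgroup

theorem fi22_t22 : PC (cl Fi22.z) ∧ center Spor.Fi22 = ⊥ ∧ T22 (cl Fi22.z) := by
  have := Fi22.bd0.top.1
  obtain ⟨E', U⟩ := psu_ux K4.card
  obtain ⟨⟨f, h1, h2, h3⟩, hz⟩ := Fi22.cent ▸ Fi22.nonsplit K4.card
  have o := Fi22.orderOf_z
  have c : ∀ g, Commute (inC Fi22.z) g := fun g => Subtype.ext (mem_centralizer_singleton_iff.1 g.2).symm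
  have n : inC Fi22.z ≠ 1 := fun q => ne_one_of_ord o (congrArg Subtype.val q)
  have m : f (inC Fi22.z) = 1 := mem_bot.1 (hz.le (mem_center_iff.2 fun g => by
    obtain ⟨g, rfl⟩ := h1 g
    exact ((c g).map f).symm.eq))
  refine U.main ⟨Subtype.ext (sq_of_ord o), n, c, fun g => ⟨fun e => ?_, fun e => e.elim (by rintro rfl; simp)
    (by rintro rfl; exact m)⟩, h1⟩ ⟨h3⟩ (em_cent _) ?_
  · obtain ⟨y, -, hy⟩ := (Nat.card_eq_two_iff' (1 : f.ker)).1 h2
    exact or_iff_not_imp_left.2 fun q => congrArg Subtype.val ((hy ⟨g, e⟩ fun r => q (congrArg Subtype.val r)).trans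
      (hy ⟨_, m⟩ fun r => n (congrArg Subtype.val r)).symm)
  · obtain ⟨t, ht, q⟩ := fix_of_odd (S := cl Fi22.z \ {Fi22.z}) (by
      rw [Set.ncard_sdiff_singleton_of_mem (s := cl Fi22.z) (IsConj.refl _), ← Nat.card_coe_set_eq]
      exact Fi22.card_class ▸ by decide) (sq_of_ord o) fun t ht => ⟨by
        simpa [inv_of_sq (sq_of_ord o)] using cl_cj _ Fi22.z t ht.1, fun q => ht.2 (by
        rw [Set.mem_singleton_iff, ← canc (sq_of_ord o) t, mul_eq_right.1 (show _ * t * _ = _ from q), mul_one])⟩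
    exact ⟨t, ht.1, ht.2, q⟩

theorem type22_of {X : Type*} [Group X] (e : X ≃* Spor.Fi22) :
    ∃ E : Set X, IsThreeTranspositionGroup E ∧ IsOfTypeM22 X E := by
  have := Fi22.bd0.top.1
  have := Finite.of_equiv _ e.symm.toEquiv
  obtain ⟨P, z, t⟩ := fi22_t22
  have f := fi_inj P.T3 e.symm.toMonoidHom e.symm.injective
  refine ⟨_, (f.pc P (closure_image_top _ e.symm.surjective P.gen)).grp, (f.t22 t).type (eq_bot_iff.2 fun x hx => ?_)⟩
  exact e.injective ((mem_bot.1 (z.le (mem_center_iff.2 fun g => by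
    obtain ⟨g, rfl⟩ := e.surjective g
    rw [← map_mul, mem_center_iff.1 hx, map_mul]))).trans (map_one e).symm)

end H28
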