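import Cfsg.Agent.H28.RC
import Cfsg.Agent.L.JT

/-! The Thompson subgroup of a Sylow 2-subgroup of a transposition centralizer in `Fi22` and `Fi23`. -/

namespace H28
open Cfsg H15 Subgroup L

variable {G : Type*} [Group G] [Finite G] {D : Set G}

theorem two_cj {A B K : Subgroup G} (hA : IsPGroup 2 A) (hB : IsPGroup 2 B) (h1 : A ≤ K) (h2 : B ≤ K) :
    ∃ c ∈ K, ∃ T : Sylow 2 G, A ≤ T ∧ B.map (MulAut.conj c).toMonoidHom ≤ T := by
  obtain ⟨P, hP⟩ := (hA.comap_subtype (K := K)).exists_le_sylow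
  obtain ⟨Q, hQ⟩ := (hB.comap_subtype (K := K)).exists_le_sylow
  obtain ⟨c, rfl⟩ := MulAction.exists_smul_eq K Q P
  obtain ⟨T, hT⟩ := (c • Q).exists_comap_subtype_eq
  refine ⟨c, c.2, T, fun x hx => (hT.ge (hP (show (⟨x, h1 hx⟩ : K) ∈ _ from hx)) :), ?_⟩
  rintro _ ⟨x, hx, rfl⟩
  exact (hT.ge (smul_mem_pointwise_smul _ (MulAut.conj c) _ (hQ (show (⟨x, h2 hx⟩ : K) ∈ _ from hx))) :)

omit [Finite G] in
theorem ea_pgroup {A : Subgroup G} (h : IsElementaryAbelian 2 A) : IsPGroup 2 A :=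
  fun x => ⟨1, Subtype.ext (h.2 x x.2)⟩

omit [Finite G] in
theorem ea_map {A : Subgroup G} (h : IsElementaryAbelian 2 A) (f : G →* G) : IsElementaryAbelian 2 (A.map f) :=
  ⟨have := h.1; inferInstance, by rintro _ ⟨x, hx, rfl⟩; rw [← map_pow, h.2 x hx, map_one]⟩

theorem jt_cent {k n : ℕ} (hD : IsThreeTranspositionGroup D) (hw : Wd D n)
    (hJ : ∀ T : Sylow 2 G, JT 2 k T (closure {x | x ∈ D ∧ x ∈ (T : Subgroup G)})) {d : G} (hd : d ∈ D)
    (S : Sylow 2 (centralizer ({d} : Set G))) {A : Subgroup G}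
    (hA : A = (thompsonSubgroupOf 2 (S : Subgroup _)).map (centralizer ({d} : Set G)).subtype) :
    IsElementaryAbelian 2 A ∧ Nat.card A = 2 ^ k ∧ {x | x ∈ A ∧ x ∈ D}.ncard = n ∧
      ∀ x ∈ A, ∀ y ∈ A, IsConj x y → ∃ m ∈ normalizer (A : Set G), m * x * m⁻¹ = y := by
  obtain ⟨T, hT⟩ := S.exists_comap_subtype_eq
  have J := hJ T
  have c : ∀ {a b}, a ∈ closure {x | x ∈ D ∧ x ∈ (T : Subgroup G)} → b ∈ closure {x | x ∈ D ∧ x ∈ (T : Subgroup G)} →
    a * b = b * a := fun ha hb => congrArg Subtype.val (J.2.1.1.1.1 ⟨_, ha⟩ ⟨_, hb⟩)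
  have s : ∀ x ∈ D, x ^ 2 = 1 := fun x hx => hD.1.1 x hx ▸ pow_orderOf_eq_one x
  have m : d ∈ (T : Subgroup G) := by
    have z : zpowers (inC d) ≤ center _ := zpowers_le.2 (mem_center_iff.2 fun g =>
      Subtype.ext (mem_centralizer_singleton_iff.1 g.2))
    have : (zpowers (inC d)).Normal := ⟨fun a ha g => by
      rwa [mem_center_iff.1 (z ha) g, mul_inv_cancel_right]⟩
    exact hT.ge (IsPGroup.le_sylow_of_normal (N := zpowers (inC d)) (IsPGroup.of_card (n := 1) (by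
      rw [Nat.card_zpowers, ← Subgroup.orderOf_coe]
      exact hD.1.1 d hd)) S (mem_zpowers _))
  obtain rfl : A = closure {x | x ∈ D ∧ x ∈ (T : Subgroup G)} := by
    rw [hA, H4.map_thompsonOf Subtype.val_injective, H4.thompsonOf_eq_of_le (P := T) _ (map_le_iff_le_comap.2 hT.ge),
      J.2.2.2.2]
    rw [J.2.2.2.2]
    exact fun x hx => ⟨⟨x, mem_centralizer_singleton_iff.2 (c hx (subset_closure ⟨hd, m⟩))⟩, hT.le (J.1 hx), rfl⟩
  refine ⟨J.2.1, J.2.2.1, le_antisymm (hw.1 _ (fun _ h => h.2) (Set.toFinite _) fun a ha b hb => c ha.1 hb.1) ?_,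
    fun x hx y hy h => ?_⟩
  · obtain ⟨E, h1, -, h2, rfl⟩ := hw.2
    have cm := isMulCommutative_closure h2
    obtain ⟨g, -, T', t1, t2⟩ := two_cj (K := ⊤) T.isPGroup' (ea_pgroup (A := closure E) ⟨cm, fun a ha => by
      induction ha using closure_induction with
      | mem a ha => exact s a (h1 ha)
      | one => exact one_pow _
      | mul a b ha hb i1 i2 =>
        rw [Commute.mul_pow (congrArg Subtype.val (cm.1.1 ⟨_, ha⟩ ⟨_, hb⟩)), i1, i2, one_mul]
      | inv a _ i => rw [inv_pow, i, inv_one]⟩) le_top le_top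
    rw [← Set.ncard_image_of_injective E (MulAut.conj g).injective]
    refine Set.ncard_le_ncard ?_
    rintro _ ⟨a, ha, rfl⟩
    have := hD.2.1 g a (h1 ha)
    exact ⟨subset_closure ⟨this, (T.is_maximal' T'.isPGroup' t1).le (t2 ⟨a, subset_closure ha, rfl⟩)⟩, this⟩
  · obtain ⟨g, rfl⟩ := isConj_iff.1 h
    obtain ⟨e, he, T', t1, t2⟩ := two_cj (K := centralizer {g * x * g⁻¹}) (ea_pgroup J.2.1)
      (ea_pgroup (ea_map J.2.1 (MulAut.conj g).toMonoidHom))
      (fun a ha => mem_centralizer_singleton_iff.2 (c ha hy)) (by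
        rintro _ ⟨a, ha, rfl⟩
        exact mem_centralizer_singleton_iff.2 ((show Commute a x from c ha hx).map (MulAut.conj g)).eq)
    rw [map_map] at t2
    have q := ((hJ T').eq t2 (ea_map J.2.1 _) ((card_map_of_injective
      ((MulAut.conj e).injective.comp (MulAut.conj g).injective)).trans J.2.2.1)).trans
      ((hJ T').eq t1 J.2.1 J.2.2.1).symm
    refine ⟨e * g, mem_normalizer_fintype fun a ha => ?_, ?_⟩
    · simpa [mul_assoc] using q.le ⟨a, ha, rfl⟩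
    · have := mem_centralizer_singleton_iff.1 he
      rw [mul_inv_rev, ← mul_assoc, mul_inv_eq_iff_eq_mul, ← this]; group

end H28
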