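import Cfsg.Agent.H28.RU
import Cfsg.Agent.H28.UD
import Cfsg.Agent.L.B22
import Cfsg.Agent.L.I22

/-! Central extensions of `Fi22` by an involution. -/

namespace H28
open Cfsg H15 Subgroup

variable {G H X : Type*} [Group G] [Group H] [Group X] {π : H →* X} {d y b : H} {E : Set H} {E' : Set X} {τ : ℕ → H}

theorem TL.gd (h : TL E) : Gd E := by
  refine ⟨⟨h.T3, ncCon_of_class h.T3 fun _ ha _ hb => h.conj ha hb⟩, fun a ha v hv r => ?_, fun a ha v hv r => ?_,
    h.nonempty, fun x hx => ?_⟩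
  · by_contra n
    obtain ⟨w, hw, c1, c2⟩ := h.V ha hv n (r.comm ha)
    exact c2 ((r w hw).2 c1)
  · by_contra n
    obtain ⟨τ, l, rfl, rfl⟩ := h.wl3 ha hv (r.nc hv n)
    have : τ 12 ∈ nb E (τ 6) := r ▸ l.mnb (by decide +kernel)
    exact absurd ((l.comm 6 12 (by decide) (by decide)).1 this.2.2) (by decide)
  · obtain ⟨τ, l⟩ := h
    obtain ⟨g, hg, rfl⟩ := l.wl1 hx
    exact ⟨_, (l.inn hg).mnb (v := 12) (by decide +kernel)⟩

theorem Q22.gd (h : Q22 E) : Gd E := gd_of_loc h.t3 h.ne fun x hx => (h.loc x hx).gd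

theorem cn_of_dia {a c : H} (ha : a ∈ E) (hc : c ∈ E) (h : ∃ s ∈ E, Commute a s ∧ Commute c s) : Cn E a c :=
  let ⟨_, hs, h1, h2⟩ := h; (Cn.adj ha hs h1).trans (Cn.adj hs hc h2.symm)

theorem Q22.cn (h : Q22 E) {a c : H} (ha : a ∈ E) (hc : c ∈ E) : Cn E a c := cn_of_dia ha hc (h.dia a ha c hc)

/-- the transpositions of `Fi22` -/
structure FX (E : Set X) : Prop where
  q : Q22 E
  pc : PC E
  z : center X = ⊥
  cov : Cov E
  card : Nat.card X = 64561751654400
  cent : ∀ a ∈ E, closure (nb E a) = centralizer {a}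
  zc : ∀ a ∈ E, ∀ z ∈ closure (nb E a), (∀ e ∈ nb E a, Commute z e) → z ∈ zpowers a

theorem fx_of [Finite X] (hD : IsThreeTranspositionGroup E') (ht : IsOfTypeM22 X E') : FX E' := by
  have Q := q22_of hD ht
  have c := fun a ha => cent_m22 hD ht (d := a) ha
  have z := ht.1
  have p := (fi_ins Q.t3).pc (Q.gd.pc fun _ ha _ hb => Q.cn ha hb) hD.2.2
  obtain ⟨Ω, _, M, hN, rfl⟩ := L.br22 hD ht
  refine ⟨Q, p, z, fun x hx => ?_, hN, fun a ha => (c a ha).2.2.1, fun a ha z hz h => ?_⟩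
  · by_cases e : x = 1
    · exact Or.inl e
    obtain ⟨m, -, h1, l, -, h2, h3, h4, rfl⟩ := ((L.I22.inv M hN).classes hD).1 x (ord_of_sq hx e)
    exact cv_list hD.1 (h2 ▸ h1) h3 h4
  · exact mem_subgroupOf.1 ((c a ha).2.2.2.le (show (⟨z, hz⟩ : Subgroup.closure _) ∈ _ from
      mem_center_iff.2 fun g => Subtype.ext (comm_closure h g.2).symm.eq))

theorem FX.fin (h : FX E') : Finite X := Nat.finite_of_card_ne_zero (by rw [h.card]; norm_num)

theorem Q22.frame (h : Q22 E) : ∃ y τ b, Fr E y τ b := by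
  obtain ⟨y, hy⟩ := h.ne
  obtain ⟨b, hb, n⟩ := h.par y hy
  exact ⟨y, (h.exists_fr hy hb n).imp fun _ h => ⟨b, h⟩⟩

theorem FX.zrel (h : FX E') {y b : X} {τ : ℕ → X} (F : Fr E' y τ b) : ev τ lineW * y = 1 ∧ ev τ baer1 * y = 1 ∧
    ev τ baer2 = 1 ∧ ev τ [15, 240, 816, 1008, 3, 12, 48] = 1 :=
  F.zrel h.pc.grp h.z h.q.loc fun _ hx => h.q.cn F.hy hx

theorem FX.lift (h : FX E') (e : Ext π d) : ∃ E, Lf π d E E' := by
  have := h.fin
  obtain ⟨y, τ, b, F⟩ := h.q.frame
  exact e.lift h.pc (fun a ha g hg => Subgroup.closure_mono (k := perp E' a) (fun x hx => ⟨hx.1, hx.2.2⟩)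
    ((h.cent a ha).ge (mem_centralizer_singleton_iff.2 hg.eq))) (l := baer2.map τ) (by rw [List.length_map]; decide)
    (h.zrel F).2.2.1 (F.lab.all_cm (by decide +kernel)) F.hy (F.lab.all_mem (by decide +kernel))

theorem Lf.q22 (L : Lf π d E E') (h : Q22 E') : Q22 E := Q22.pull L.T3 L.ph (L.im ▸ h)

theorem Lf.pc' [Finite H] (L : Lf π d E E') (hp : Group.IsPerfect H) : PC E :=
  L.fi.symm.elim fun _ h => h.1.pc L.pc (L.gen hp)

theorem Lf.fr (L : Lf π d E E') (F : Fr E y τ b) : Fr E' (π y) (fun v => π (τ v)) (π b) :=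
  L.im ▸ F.push L.T3 L.ph (L.im ▸ L.pc.t3)

theorem Ext.comm2 (e : Ext π d) {a c : H} : Commute (a * d) (c * d) ↔ Commute a c := by
  rw [e.comm_d, Commute.symm_iff, e.comm_d, Commute.symm_iff]

theorem Ext.nb_tw (e : Ext π d) (y : H) : nb ((· * d) '' E) (y * d) = (· * d) '' nb E y := by
  ext x
  constructor
  · rintro ⟨⟨a, ha, rfl⟩, h1, h2⟩
    exact ⟨a, ⟨ha, fun q => h1 (q ▸ rfl), e.comm2.1 h2⟩, rfl⟩
  · rintro ⟨a, ha, rfl⟩
    exact ⟨⟨a, ha.1, rfl⟩, fun q => ha.2.1 (mul_right_cancel q), e.comm2.2 ha.2.2⟩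

theorem Lf.fr_tw (L : Lf π d E E') (F : Fr E y τ b) : Fr ((· * d) '' E) (y * d) (fun v => τ v * d) (b * d) :=
  ⟨⟨y, F.hy, rfl⟩, L.nb_tw y ▸ F.lab.tw L.toExt (t3_mono L.tw.t3 (Set.image_mono (nb_sub y))), ⟨b, F.hb, rfl⟩,
    fun c => F.nyb (L.comm2.1 c), fun v hv => L.comm2.trans (F.tr v hv)⟩

theorem Fr.rels' (hT : T3 E) (F : Fr E y τ b) (z1 : ev τ lineW * y = 1) (z2 : ev τ baer1 * y = 1) (z3 : ev τ baer2 = 1)
    (z4 : ev τ [15, 240, 816, 1008, 3, 12, 48] = 1) : ∀ w ∈ rels22, ev (lt τ y b) w = 1 := by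
  have l8 : lt τ y b 8 = y := rfl
  have l9 : lt τ y b 9 = b := rfl
  intro w hw
  simp only [rels22, List.mem_append, List.mem_map, List.mem_cons, List.mem_range, List.not_mem_nil, or_false] at hw
  rcases hw with ⟨i, -, rfl⟩ | ⟨p, hp, rfl⟩ | ⟨i, hi, rfl⟩ | rfl | ⟨c, hc, rfl⟩ | rfl | rfl | rfl | rfl
  · simpa using F.sq hT i
  · have := List.all_eq_true.1 A22_chk p hp
    simp only [Bool.and_eq_true, Nat.beq_eq] at this
    obtain ⟨a1, a2⟩ := F.ev_cwd hT this.1
    obtain ⟨b1, b2⟩ := F.ev_cwd hT this.2.1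
    rw [ev_append, a2, b2, F.lab.eq_of_nrm a1 b1 this.2.2, F.lab.sq b1]
  · have := sq_of_comm (F.sq hT 8) (F.sq hT i) (by rw [l8, lt, if_pos hi]; exact (F.lab.mem _ (iso_X8 i hi)).2.2)
    simpa [pow_two, mul_assoc] using this
  · rw [ev_powL]
    simpa using cube_of_braid (F.sq hT 9) (F.sq hT 8) (t3_braid hT.t3 F.hb F.hy fun h => F.nyb h.symm)
  · obtain ⟨a1, a2⟩ := F.ev_cwd hT (List.all_eq_true.1 (by decide +kernel : C22.all low = true) c hc)
    have a3 := (F.lab.mem _ a1).1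
    rw [ev_powL, ev_cons, a2, l9]
    cases e : inS 0 (cd c)
    · exact cube_of_braid (F.sq hT 9) (t3_sq hT.t3 a3) (t3_braid hT.t3 F.hb a3 (by rw [F.tr _ a1, e]; simp))
    · exact sq_of_comm (F.sq hT 9) (t3_sq hT.t3 a3) ((F.tr _ a1).2 e)
  · rw [ev_append, F.ev_flat hT (by decide +kernel), Z_eq.1]; simpa [l8] using z1
  · rw [ev_append, F.ev_flat hT (by decide +kernel), Z_eq.2.1]; simpa [l8, baer1] using z2
  · rw [F.ev_flat hT (by decide +kernel), Z_eq.2.2.1]; exact z3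
  · rw [F.ev_flat hT (by decide +kernel), Z_eq.2.2.2, z4]

theorem Q22.tri [Finite H] (Q : Q22 E) (P : PC E) {p x z p' x' z' : H} (hp : p ∈ E) (hx : x ∈ nb E p)
    (hz : z ∈ nb (nb E p) x) (hp' : p' ∈ E) (hx' : x' ∈ nb E p') (hz' : z' ∈ nb (nb E p') x') :
    ∃ g, g * p' * g⁻¹ = p ∧ g * x' * g⁻¹ = x ∧ g * z' * g⁻¹ = z :=
  P.tri_tr hp (P.loc_pc hp (Q.loc p hp).gd.vt (Q.loc p hp).gd.wt) hx hz hp' hx' hz'

/-- all hexads have the same value -/
theorem hexad [Finite H] (Q : Q22 E) (P : PC E) (hy : y ∈ E) (l : Lab τ (nb E y)) {p a c c1 c2 c3 : H} (hp : p ∈ E)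
    (h : [p, a, c, c1, c2, c3].Pairwise fun x z => z ∈ nb E x) (z : ∀ e ∈ E, Commute ([p, a, c, c1, c2, c3].prod) e) :
    IsConj (ev τ lineW * y) [p, a, c, c1, c2, c3].prod := by
  simp only [List.pairwise_cons, List.mem_cons, List.not_mem_nil, or_false, forall_eq_or_imp, forall_eq] at h
  obtain ⟨⟨p1, p2, p3, p4, p5⟩, ⟨a1, a2, a3, a4⟩, ⟨b1, b2, b3⟩, ⟨d1, d2⟩, d3, -⟩ := h
  obtain ⟨g, rfl, rfl, rfl⟩ := Q.tri P hp p1 ⟨p2, a1.2⟩ hy (l.mem 3 (by decide)) (l.mnb (v := 12) (by decide +kernel))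
  have l' := l.cj g
  rw [P.cj_nb] at l'
  have k : ∀ x ∈ nb E (g * y * g⁻¹), x ∈ nb E (g * τ 3 * g⁻¹) → x ∈ nb E (g * τ 12 * g⁻¹) →
      (∀ w ∈ E, Commute w (c1 * c2 * c3) → Commute w x) → x ∈ [15, 204, 207].map fun v => g * τ v * g⁻¹ :=
    fun x h1 h2 h3 h4 => by
      obtain ⟨k, k4, rfl⟩ := l'.line0 h1 h2.2.1 fun w hw e1 e2 => (h4 w hw.1 (by
        simpa [mul_assoc] using ((hw.2.2.mul_left e1).mul_left e2).inv_left.mul_left (z w hw.1) |>.symm)).symm
      interval_cases k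
      · exact absurd rfl h3.2.1
      all_goals simp [show ln 3 12 1 = 15 by decide, show ln 3 12 2 = 204 by decide, show ln 3 12 3 = 207 by decide]
  have t := fun w hw => t3_three P.t3 p3.1 p4.1 p5.1 (e := w) hw d1.2.1.symm d2.2.1.symm d3.2.1.symm d1.2.2 d2.2.2 d3.2.2
  have e : [c1, c2, c3].prod = ([15, 204, 207].map fun v => g * τ v * g⁻¹).prod :=
    (prod_perm ((List.subperm_of_subset (by simp [d1.2.1.symm, d2.2.1.symm, d3.2.1.symm]) (by
      simp only [List.cons_subset, List.nil_subset, and_true]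
      exact ⟨k _ p3 a2 b1 fun w hw c => (t w hw c).1, k _ p4 a3 b2 fun w hw c => (t w hw c).2.1,
        k _ p5 a4 b3 fun w hw c => (t w hw c).2.2⟩)).perm_of_length_le (by simp)).symm
      (l'.all_cm (by decide +kernel))).symm
  refine isConj_iff.2 ⟨g, ?_⟩
  have c : Commute (ev τ lineW) y := comm_nb (l.ev_mem (by decide +kernel))
  rw [List.prod_cons, List.prod_cons, List.prod_cons, e, c.eq,
    l.ev_red (l := lineW) (l' := [3, 12, 15, 204, 207]) (m := []) (by decide +kernel)]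
  simp [mul_assoc]

theorem hexad' [Finite H] (Q : Q22 E) (P : PC E) (hy : y ∈ E) (l : Lab τ (nb E y)) {p a c c1 c2 c3 : ℕ}
    (h : [p, a, c, c1, c2, c3].Pairwise fun u v => (iso u && (iso v && (Nat.beq (hc u v) 0 &&
      !Nat.beq (nrm v) (nrm u)))) = true) (hp : iso p = true) (z : ∀ e ∈ E, Commute (ev τ [p, a, c, c1, c2, c3]) e) :
    IsConj (ev τ lineW * y) (ev τ [p, a, c, c1, c2, c3]) :=
  hexad Q P hy l (l.mem p hp).1 (List.Pairwise.map (l := [p, a, c, c1, c2, c3]) τ (fun _ _ h => nb_nb (l.mnb h)) h) z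

theorem Lab.chain2 [Finite H] (l : Lab τ (nb E y)) (y2 : y * y = 1) (h2 : ev τ cubeW ∈ zpowers y) (h3 : ev τ lineW ∈ zpowers y)
    (h4 : ev τ baer1 ∈ zpowers y) (h5 : ev τ baer2 ∈ zpowers y) : Bd (closure (nb E y)) (2 * 9196830720) := by
  have : ((zpowers y).subgroupOf (centralizer {y})).Normal := ⟨fun n hn g => by
    rw [mem_subgroupOf] at hn ⊢
    obtain ⟨k, e⟩ := mem_zpowers_iff.1 hn
    simp only [Subgroup.coe_mul, ← e, ((show Commute g.1 y from mem_centralizer_singleton_iff.1 g.2).zpow_right k).eq]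
    simp⟩
  let s : ℕ → centralizer {y} := fun i => ⟨τ (lu i), mem_centralizer_singleton_iff.2 (l.mem _ (iso_lu i)).2.2.symm.eq⟩
  let φ := QuotientGroup.mk' ((zpowers y).subgroupOf (centralizer {y}))
  have b := l.chain (fun i => φ (s i)) (Z := zpowers y) (one_mem _) h2 h3 h4 h5 fun w hw => by
    rw [← map_ev, QuotientGroup.mk'_apply, QuotientGroup.eq_one_iff, mem_subgroupOf]
    exact (show ((ev s w : centralizer {y}) : H) = ev (fun i => τ (lu i)) w from
      map_ev (centralizer {y}).subtype s w) ▸ hw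
  have b0 : Bd φ.ker 2 := by
    rw [QuotientGroup.ker_mk', Bd, Nat.card_congr (subgroupOfEquivOfLe (zpowers_le.2
      (mem_centralizer_singleton_iff.2 rfl))).toEquiv, Nat.card_zpowers]
    exact ⟨(orderOf_pos y).ne', Nat.le_of_dvd two_pos (orderOf_dvd_of_pow_eq_one (by rw [pow_two, y2]))⟩
  have := (b0.step (K' := closure (s '' Set.Iio 9)) (by
    rw [relIndex_ker, MonoidHom.map_closure, Set.image_image]; exact b)).map (centralizer {y}).subtype
  rwa [MonoidHom.map_closure, Set.image_image, show (fun i => (centralizer {y}).subtype (s i)) = fun i => τ (lu i) from rfl,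
    l.clo9] at this

theorem Lf.ns_f (L : Lf π d E E') (h : FX E') (hp : Group.IsPerfect H) (F : Fr E y τ b) : ev τ lineW * y = d := by
  have := h.fin
  have : Finite H := Nat.finite_of_card_ne_zero (by rw [L.card, h.card]; norm_num)
  have k : ∀ {E y τ b}, Lf π d E E' → Fr E y τ b → ev τ lineW * y = 1 → ev τ baer2 = 1 → False :=
    fun {E y τ b} L F h0 h2 => by
      have Q := L.q22 h.q
      have P := L.pc' hp
      have l := F.lab
      have y2 := t3_sq L.t3 F.hy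
      obtain ⟨z1, z2, z3, z4⟩ := h.zrel (L.fr F)
      rw [← map_ev] at z1 z2 z3 z4
      have e0 : ev τ lineW = y := by rw [eq_inv_of_mul_eq_one_left h0, inv_of_sq y2]
      have e1 : ev τ hx1 = 1 := isConj_one_right.1 (h0 ▸ hexad' Q P F.hy l (p := 51) (a := 60) (c := 48) (c1 := 63)
        (c2 := 204) (c3 := 207) (by decide +kernel) (by decide)
        fun e _ => (L.one (by rwa [← l.hx1, e0, ← map_mul, mul_assoc, y2, mul_one] at z2)).2 e)
      have e2 : ev τ baer1 = y := by rw [← l.hx1, e1, e0, one_mul]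
      have e3 : ev τ [15, 240, 816, 1008, 3, 12, 48] = ev τ [240, 816, 1008, 243, 828, 1023] := by
        rw [← one_mul (ev τ [15, 240, 816, 1008, 3, 12, 48]), ← h2, ← ev_append]
        exact l.ev_red (m := [15, 3, 12, 48]) (by decide +kernel)
      have e4 : ev τ [240, 816, 1008, 243, 828, 1023] = 1 := isConj_one_right.1 (h0 ▸ hexad' Q P F.hy l
        (by decide +kernel) (by decide) fun e _ => (L.one (e3 ▸ z4)).2 e)
      have e5 : ev τ cubeW = 1 := L.cube (by
        have l' := (L.fr F).lab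
        have := h.zc _ (L.mem F.hy) _ (l'.ev_mem (w := cubeW) (by decide +kernel)) l'.cube.2
        rw [map_ev]
        refine (zpowers_cases (t3_sq L.pc.t3 (L.mem F.hy)) this).resolve_right fun q => ?_
        have := l'.cube.1
        rw [q, pow_odd_sq (t3_sq L.pc.t3 (L.mem F.hy)) (by decide)] at this
        exact t3_ne L.pc.t3 (L.mem F.hy) this) l.cube.1
      have := ((l.chain2 y2 (e5 ▸ one_mem _) (e0 ▸ mem_zpowers _) (e2 ▸ mem_zpowers _) (h2 ▸ one_mem _)).step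
        (UD.idx (lt τ y b) (rel_sub (F.rels' L.T3 h0 (by rw [e2, y2]) h2 (e3.trans e4)) (by decide +kernel)) _
        fun w hw => by
          obtain ⟨i, hi, rfl⟩ := List.mem_map.1 ((by decide +kernel : UD.subs = (List.range 9).map fun i => [i]) ▸ hw)
          rw [ev_cons, ev_nil, mul_one, lt]
          split_ifs with h h'
          · exact subset_closure (l.mem _ (iso_X8 i h))
          · exact e0 ▸ l.ev_mem (by decide +kernel)
          · have := List.mem_range.1 hi; omega)).2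
      rw [F.top P.grp (fun x hx => Q.cn F.hy hx) (K := closure (lt τ y b '' Set.Iio 10))
        (l.sub_xs.trans ((closure_le _).2 (by
          rintro _ ⟨a, ha, rfl⟩
          obtain ⟨i, hi, rfl⟩ := (by decide : ∀ a ∈ xs, ∃ i < 8, X8 i = a) a ha
          exact subset_closure ⟨i, by simp only [Set.mem_Iio]; omega, by rw [lt, if_pos hi]⟩)))
        (subset_closure ⟨8, by simp, rfl⟩) (subset_closure ⟨9, by simp, rfl⟩), card_top, L.card, h.card] at this
      omega
  obtain ⟨z1, -, z3, -⟩ := h.zrel (L.fr F)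
  rw [← map_ev] at z1 z3
  refine ((L.ker _).1 (by rwa [map_mul])).resolve_left fun h0 => ?_
  rcases (L.ker _).1 z3 with h2 | h2
  · exact k L F h0 h2
  · exact k L.tw (L.fr_tw F) (by
      rw [L.ev_tw, pow_odd_sq L.sq (by decide), mul_assoc, ← mul_assoc d, (L.cen y).eq, mul_assoc, L.sq, mul_one, h0])
      (by rw [L.ev_tw, h2, pow_odd_sq L.sq (by decide), L.sq])

theorem Lf.fu_f (L : Lf π d E E') (h : FX E') (hp : Group.IsPerfect H) : Fu d E := by
  have := h.fin
  have : Finite H := Nat.finite_of_card_ne_zero (by rw [L.card, h.card]; norm_num)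
  have Q := L.q22 h.q
  have P := L.pc' hp
  obtain ⟨y, τ, b, F⟩ := Q.frame
  have l := F.lab
  have e := L.ns_f h hp F
  have y2 := t3_sq L.t3 F.hy
  have m : ∀ w : List ℕ, w.all iso = true → y * ev τ w * d = ev τ (w ++ lineW) := fun w hw => by
    rw [← e, ev_append, ← (comm_nb (l.ev_mem hw)).eq, (comm_nb (l.ev_mem (w := lineW) (by decide +kernel))).eq,
      mul_assoc, canc y2]
  have t : ∀ a ∈ E, ∀ b ∈ nb E a, ∀ c ∈ nb (nb E a) b, IsConj (y * ev τ [3, 12]) (a * b * c) := fun a ha b hb c hc => by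
    obtain ⟨g, rfl, rfl, rfl⟩ := Q.tri P ha hb hc F.hy (l.mem 3 (by decide)) (l.mnb (v := 12) (by decide +kernel))
    exact isConj_iff.2 ⟨g, by simp [mul_assoc]⟩
  have n : ∀ {u v}, _ → τ v ∈ nb E (τ u) := fun h => nb_nb (l.mnb h)
  obtain ⟨g, -, q⟩ := l.sq_of (e := 20) (f := 23) (u := [12, 204]) (l := [12, 15, 204, 207]) (by decide +kernel)
  have c : ∀ u w : List ℕ, u.all iso = true → y * ev τ u * (y * ev τ w) = ev τ (u ++ w) := fun u w hu => by
    rw [ev_append, ← (comm_nb (l.ev_mem hu)).eq, mul_assoc, canc y2]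
  refine L.fu h.cov F.hy (l.mem 3 (by decide)) ⟨g, ?_⟩ (fun a ha b hb c hc => Or.inl (t a ha b hb c hc)) ?_
    (y0 := y * ev τ [3, 48]) ?_ ?_ ?_ ⟨_, (l.mem 12 (by decide)).1, _, n (v := 48) (by decide +kernel), ?_⟩
  · rw [q, ← l.ev_red (l := [3] ++ lineW) (m := [3]) (by decide +kernel), ← m _ (by decide)]; simp
  · rw [m _ (by decide), l.ev_red (l := [3, 12] ++ lineW) (l' := [15, 204, 207]) (m := [3, 12]) (by decide +kernel)]
    simpa [mul_assoc] using t _ (l.mem 15 (by decide)).1 _ (n (v := 204) (by decide +kernel)) _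
      ⟨n (v := 207) (by decide +kernel), (n (by decide +kernel)).2⟩
  · simpa [mul_assoc] using t _ F.hy _ (l.mem 3 (by decide)) _ (l.mnb (v := 48) (by decide +kernel))
  · rw [c _ _ (by decide), ev_append, l.ev_sq (by decide +kernel)]
  · change _ = _
    rw [c _ _ (by decide), c _ _ (by decide), l.ev_red (l' := [12, 48]) (m := [3]) (by decide +kernel),
      l.ev_red (l := [3, 48] ++ _) (l' := [12, 48]) (m := [3]) (by decide +kernel)]
  · rw [c _ _ (by decide), l.ev_red (l' := [12, 48]) (m := [3]) (by decide +kernel)]; simp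

theorem Lf.hep_f (L : Lf π d E E') (h : FX E') (hp : Group.IsPerfect H) : Hep E d := by
  obtain ⟨y, τ, b, F⟩ := (L.q22 h.q).frame
  have m := F.lab.all_mem (l := lineW) (by decide +kernel)
  refine ⟨lineW.map τ ++ [y], by simp; decide, by simp, ?_, ?_, by simpa [ev] using L.ns_f h hp F⟩
  · simp only [List.mem_append, List.mem_singleton]
    rintro e (he | rfl)
    exacts [(m e he).1, F.hy]
  · simp only [List.mem_append, List.mem_singleton]
    rintro a (ha | rfl) c (hc | rfl)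
    exacts [F.lab.all_cm (by decide +kernel) a ha c hc, (m a ha).2.2.symm, (m c hc).2.2, Commute.refl _]

end H28
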