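import Cfsg.Agent.H28.RA

/-! Central extensions of `PSU(6,2)` by an involution. -/

namespace H28
open Cfsg H15 Subgroup Module

section lin
variable {F : Type*} [Field F] {ω : F}

/-- `1 + t` -/
def nl (t : SU 6 F 2) : (Fin 6 → F) →ₗ[F] (Fin 6 → F) := LinearMap.id + Matrix.mulVecLin (slToMat 6 F t.1)
theorem nl_apply (t : SU 6 F 2) (x : Fin 6 → F) : nl t x = x + act t x := rfl

theorem F4.nl_adj (hω : F4 ω) {t : SU 6 F 2} (ht : t * t = 1) (x y : Fin 6 → F) :
    hermForm 6 F 2 (nl t x) y = hermForm 6 F 2 x (nl t y) := by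
  rw [nl_apply, nl_apply, herm_add_left, hω.herm_add_right, ← act_h t (act t x), ← act_mul, ht, act_one]
theorem F4.nl_nl (hω : F4 ω) {t : SU 6 F 2} (ht : t * t = 1) (x : Fin 6 → F) : nl t (nl t x) = 0 := by
  rw [nl_apply, nl_apply, act_add, ← act_mul, ht, act_one, add_comm (act t x), hω.vadd_self]
theorem F4.nl_iso (hω : F4 ω) {t : SU 6 F 2} (ht : t * t = 1) (x y : Fin 6 → F) :
    hermForm 6 F 2 (nl t x) (nl t y) = 0 := by rw [← hω.nl_adj ht, hω.nl_nl ht]; simp [hermForm]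

theorem F4.prod_tv (hω : F4 ω) (k : ℕ) : ∀ t : SU 6 F 2, t * t = 1 → 6 ≤ finrank F (LinearMap.ker (nl t)) + k →
    ∃ l : List (Fin 6 → F), l.length ≤ k ∧ (∀ a ∈ l, a ≠ 0 ∧ ∃ x, a = nl t x) ∧ t = (l.map (tv hω)).prod := by
  have z : ∀ t : SU 6 F 2, (∀ v, nl t v = 0) → t = 1 := fun t h => act_ext fun x => by
    rw [act_one, ← zero_add (act t x), ← hω.vadd_self x, add_assoc, ← nl_apply, h, add_zero]
  induction k with
  | zero =>
    intro t _ h
    refine ⟨[], le_rfl, by simp, z t fun v => ?_⟩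
    exact (Submodule.eq_top_of_finrank_eq (S := LinearMap.ker (nl t))
      (le_antisymm (Submodule.finrank_le _) (by simpa using h))).ge trivial
  | succ k ih =>
    intro t ht h
    by_cases h0 : ∀ v, nl t v = 0
    · exact ⟨[], by simp, by simp, z t h0⟩
    obtain ⟨v, hv⟩ := not_forall.1 h0
    obtain ⟨e, he⟩ := hω.exists_ne (map_add (nl t)) (map_smul (nl t)) (hω.nl_adj ht) hv
    have i := hω.nl_iso ht e e
    have f : act t (nl t e) = nl t e := by
      rw [← zero_add (act t (nl t e)), ← hω.vadd_self (nl t e), add_assoc, ← nl_apply, hω.nl_nl ht, add_zero]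
    have c : Commute t (tv hω (nl t e)) := mul_inv_eq_iff_eq_mul.1 (by rw [conj_tv hω t i, f])
    have n : ∀ x, nl (t * tv hω (nl t e)) x = nl t x + hermForm 6 F 2 x (nl t e) • nl t e := fun x => by
      rw [nl_apply, act_mul, act_tv hω i, act_add, act_smul, f, nl_apply t x, add_assoc]
    have lt : LinearMap.ker (nl t) < LinearMap.ker (nl (t * tv hω (nl t e))) := lt_of_le_of_ne (fun x hx => by
      rw [LinearMap.mem_ker] at hx ⊢
      rw [n, ← hω.nl_adj ht, hx]; simp [hermForm]) fun q => by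
      have : e ∈ LinearMap.ker (nl t) := q ▸ by
        rw [LinearMap.mem_ker, n, ← hω.nl_adj ht, he, one_smul, hω.vadd_self]
      rw [LinearMap.mem_ker.1 this] at he
      simp [hermForm] at he
    obtain ⟨l, h1, h2, h3⟩ := ih _ (sq_mul ht (tv_sq hω i) c) (by have := Submodule.finrank_lt_finrank_of_lt lt; omega)
    refine ⟨l ++ [nl t e], by simpa using h1, fun a ha => ?_, by
      rw [List.map_append, List.prod_append, ← h3]; simp [mul_assoc, tv_sq hω i]⟩
    rcases List.mem_append.1 ha with ha | ha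
    · obtain ⟨a0, x, rfl⟩ := h2 a ha
      exact ⟨a0, x + hermForm 6 F 2 x (nl t e) • e, by rw [n, map_add, map_smul]⟩
    · rw [List.mem_singleton.1 ha]
      exact ⟨fun q => by rw [q] at he; simp [hermForm] at he, e, rfl⟩

theorem psu_cov [Fintype F] (hF : Fintype.card F = 4) (hω : F4 ω) : Cov {x | ∃ v, iso v = true ∧ tau hω v = x} := by
  intro x hx
  have hL := lab_psu hF hω
  obtain ⟨s, rfl⟩ := QuotientGroup.mk_surjective x
  have hz : s ^ 2 ∈ center (SU 6 F 2) := by rw [← QuotientGroup.eq_one_iff, pow_two, QuotientGroup.mk_mul, hx]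
  have ht : s ^ 3 * s ^ 3 = 1 := by rw [← pow_add, ← center_cube hF hz, ← pow_mul]
  have e : ((s ^ 3 : SU 6 F 2) : PSU 6 F 2) = s := by
    rw [pow_succ, QuotientGroup.mk_mul, (QuotientGroup.eq_one_iff _).2 hz, one_mul]
  rw [← e]
  generalize s ^ 3 = t at ht
  obtain ⟨l, h1, h2, h3⟩ := hω.prod_tv 3 t ht (by
    have a := LinearMap.finrank_range_add_finrank_ker (nl t)
    have b : finrank F (LinearMap.range (nl t)) ≤ finrank F (LinearMap.ker (nl t)) :=
      Submodule.finrank_mono (by rintro _ ⟨x, rfl⟩; exact hω.nl_nl ht x)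
    simp only [finrank_pi, Fintype.card_fin] at a
    omega)
  have k : ∀ a ∈ l, ∃ v, iso v = true ∧ dec ω v = a := fun a ha => by
    obtain ⟨a0, x, rfl⟩ := h2 a ha
    exact hω.code a0 (hω.nl_iso ht x x)
  have := cv_list hL.t3 (l := l.map fun a => (tv hω a : PSU 6 F 2)) (by simpa using h1) (by
    simp only [List.mem_map]
    rintro _ ⟨a, ha, rfl⟩
    obtain ⟨v, hv, rfl⟩ := k a ha
    exact ⟨v, hv, rfl⟩) (by
    simp only [List.mem_map]
    rintro _ ⟨a, ha, rfl⟩ _ ⟨b, hb, rfl⟩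
    obtain ⟨u, hu, e1⟩ := k a ha
    obtain ⟨v, hv, e2⟩ := k b hb
    obtain ⟨-, x, rfl⟩ := h2 a ha
    obtain ⟨-, y, rfl⟩ := h2 b hb
    have := (hL.comm u v hu hv).2 ((hω.f4_eq_zero (hc_lt _ _)).1 (by rw [← hω.dec_hc, e1, e2, hω.nl_iso ht]))
    rwa [tau, tau, e1, e2] at this)
  rwa [h3, ← QuotientGroup.mk'_apply, map_list_prod, List.map_map]
end lin

variable {G H X : Type*} [Group G] [Group H] [Group X] {π : H →* X} {d : H} {E : Set H} {E' : Set X} {τ : ℕ → H}

theorem PC.of_simp [Finite X] [IsSimpleGroup X] (hD : TC E') (hp : Par E')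
    (hw : ∃ a ∈ E', ∃ b ∈ E', a ≠ b ∧ Commute a b) : PC E' := by
  have : commutator X = ⊤ := (commutator_normal ⊤ ⊤).eq_bot_or_eq_top.resolve_left fun h => by
    obtain ⟨a, ha, -⟩ := hw
    obtain ⟨b, -, n⟩ := hp a ha
    exact n (comm_of_bot h trivial trivial)
  exact PC.of_simple hD (this ▸ topEquiv.isSimpleGroup) hw

/-- the transvections of `PSU(6,2)` -/
structure UX (E : Set X) : Prop where
  tl : TL E
  pc : PC E
  z : center X = ⊥
  cov : Cov E
  card : Nat.card X = 9196830720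

theorem psu_ux {F : Type*} [Field F] [Fintype F] (hF : Fintype.card F = 4) : ∃ E : Set (PSU 6 F 2), UX E := by
  obtain ⟨ω, hω⟩ := exists_F4' F hF
  have hL := lab_psu hF hω
  have := Agent.S0283.result (q := 2) hF 6 (by norm_num) (by norm_num)
  have : Finite (PSU 6 F 2) := Nat.finite_of_card_ne_zero (by rw [card_psu6 hF]; norm_num)
  have cj : ∀ g : PSU 6 F 2, ∀ x ∈ {x | ∃ v, iso v = true ∧ tau hω v = x},
      g * x * g⁻¹ ∈ {x | ∃ v, iso v = true ∧ tau hω v = x} := by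
    rintro g _ ⟨u, hu, rfl⟩
    obtain ⟨g, rfl⟩ := QuotientGroup.mk_surjective g
    obtain ⟨v, hv, e⟩ := hω.code (a := act g (dec ω u)) (fun h => t3_ne hL.t3 (hL.mem u hu) (by
      have : dec ω u = 0 := by rw [← act_one (dec ω u), ← inv_mul_cancel g, act_mul, h]; exact Matrix.mulVec_zero _
      exact congrArg _ (act_ext fun x => by rw [act_tv hω (hω.iso0 hu), this, act_one]; simp)))
      (by rw [act_h, hω.iso0 hu])
    exact ⟨v, hv, by rw [tau, tau, e, ← conj_tv hω g (hω.iso0 hu)]; rfl⟩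
  have m := hL.mem 3 (by decide)
  exact ⟨_, ⟨_, hL⟩, PC.of_simp ⟨hL.t3, cj, eq_top_iff.2 ((closure_conj_top (t3_ne hL.t3 m)).ge.trans (closure_mono
      fun x hx => (isConj_iff.1 hx).elim fun g e => e ▸ cj g _ m)), fun a ha b hb =>
      (TL.conj ⟨_, hL⟩ ha hb).imp fun _ h => h.2⟩ (TL.par ⟨_, hL⟩) ⟨_, m, _, hL.mem 12 (by decide),
      hL.ne (by decide) (by decide) (by decide), (hL.comm 3 12 (by decide) (by decide)).2 (by decide)⟩,
    center_eq_bot_of_simple (card_psu6 hF) (by norm_num), psu_cov hF hω, card_psu6 hF⟩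

theorem UX.fin (h : UX E') : Finite X := Nat.finite_of_card_ne_zero (by rw [h.card]; norm_num)

theorem Lab.all_mem (h : Lab τ E) {l : List ℕ} (hl : l.all iso = true) : ∀ a ∈ l.map τ, a ∈ E := by
  simp only [List.mem_map]; rintro _ ⟨x, hx, rfl⟩; exact h.mem x (List.all_eq_true.1 hl x hx)
theorem Lab.all_cm (h : Lab τ E) {l : List ℕ} (hl : H28.cm l = true) : ∀ a ∈ l.map τ, ∀ b ∈ l.map τ, Commute a b := by
  simp only [List.mem_map]; rintro _ ⟨x, hx, rfl⟩ _ ⟨y, hy, rfl⟩; exact h.cm hl x hx y hy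
theorem Lab.mnb (h : Lab τ E) {u v : ℕ} (hl : (iso u && (iso v && (Nat.beq (hc u v) 0 &&
    !Nat.beq (H28.nrm v) (H28.nrm u)))) = true) : τ v ∈ nb E (τ u) := by
  simp only [Bool.and_eq_true, Bool.not_eq_true', Nat.beq_eq, ← Bool.not_eq_true] at hl
  exact ⟨h.mem v hl.2.1, h.ne hl.2.1 hl.1 hl.2.2.2, (h.comm u v hl.1 hl.2.1).2 hl.2.2.1⟩
theorem Lab.ev_sq (h : Lab τ E) {l : List ℕ} (hl : H28.cm l = true) : ev τ l * ev τ l = 1 :=
  prod_sq (fun a ha => t3_sq h.t3 (h.all_mem (Bool.and_eq_true_iff.1 hl).1 a ha)) (h.all_cm hl)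

theorem UX.lift (h : UX E') (e : Ext π d) : ∃ E, Lf π d E E' := by
  have := h.fin
  obtain ⟨τ, l⟩ := h.tl
  have z : ∀ {w}, _ → ev τ w = 1 := fun hw => eq_one_of_comm h.z h.pc.gen (l.cen hw)
  refine e.lift h.pc (fun a ha g => l.cent h.pc.gen (z (by decide +kernel)) ha) (l := lineW.map τ) (by rw [List.length_map]; decide)
    (z (by decide +kernel)) (l.all_cm (by decide +kernel)) (l.mem 48 (by decide)) ?_
  simp only [List.mem_map]
  rintro _ ⟨x, hx, rfl⟩
  exact l.mnb (by revert x; decide +kernel)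

theorem Lf.tl (L : Lf π d E E') (h : TL E') : TL E := TL.pull L.T3 L.ph (L.im ▸ h)

theorem Lf.z (L : Lf π d E E') (hz : center X = ⊥) {z : H} (h : ∀ e ∈ E, Commute z e) : π z = 1 :=
  eq_one_of_comm hz L.pc.gen fun _ he => (L.ex he).elim fun a ha => ha.2 ▸ (h a ha.1).map π

theorem Lab.tw (h : Lab τ E) (e : Ext π d) (t : IsThreeTranspositionSet ((· * d) '' E)) :
    Lab (fun v => τ v * d) ((· * d) '' E) :=
  ⟨t, fun v hv => ⟨_, h.mem v hv, rfl⟩, by
    rintro _ ⟨a, ha, rfl⟩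
    obtain ⟨v, hv, rfl⟩ := h.surj a ha
    exact ⟨v, hv, rfl⟩, fun u v hu hv => by
    rw [← h.conj u v hu hv, mul_assoc (τ u) d, ← mul_assoc d, (e.cen _).eq, mul_assoc _ d, e.sq, mul_one, ← mul_assoc],
    fun u v hu hv => by rw [e.comm_d, Commute.symm_iff, e.comm_d, Commute.symm_iff, h.comm u v hu hv],
    fun v hv => by rw [h.scal v hv], fun u v hu hv q => h.inj u v hu hv (mul_right_cancel q)⟩

theorem Ext.ev_tw (e : Ext π d) (l : List ℕ) : ev (fun v => τ v * d) l = ev τ l * d ^ l.length := prod_mul_cen e.cen τ l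

def hx1 : List ℕ := [51, 60, 48, 63, 204, 207]
def hx2 : List ℕ := [243, 828, 1023, 48, 204, 207]

theorem Lab.hx1 (h : Lab τ E) : ev τ hx1 * ev τ lineW = ev τ baer1 := by
  rw [← ev_append]; exact h.ev_red (m := [204, 207]) (by decide +kernel)
theorem Lab.hx2 (h : Lab τ E) : ev τ hx2 * ev τ lineW = ev τ baer2 := by
  rw [← ev_append]; exact h.ev_red (m := [204, 207]) (by decide +kernel)

theorem Ext.cube (e : Ext π d) {z : H} (h : π z = 1) (h3 : z ^ 3 = 1) : z = 1 :=
  ((e.ker z).1 h).resolve_right fun q => e.ne (by rwa [q, pow_odd_sq e.sq (by decide)] at h3)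

theorem Lf.ns_u (L : Lf π d E E') (h : UX E') (hp : Group.IsPerfect H) (l : Lab τ E) :
    ev τ hx1 = d ∨ ev τ hx2 = d := by
  by_contra! n
  have k : ∀ {E τ}, Lf π d E E' → Lab τ E → ev τ lineW = 1 → ev τ hx1 = 1 → ev τ hx2 = 1 → False :=
    fun {E τ} L l h0 h1 h2 => by
      have := (l.chain (fun i => τ (lu i)) (Z := {1}) rfl (L.cube (L.z h.z l.cube.2) l.cube.1) h0
        (by rw [← l.hx1, h0, h1]; simp) (by rw [← l.hx2, h0, h2]; simp) fun _ hw => hw).2
      rw [l.clo9, L.gen hp, card_top, L.card, h.card] at this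
      omega
  have h1 := ((L.ker _).1 (L.z h.z (l.cen (w := hx1) (by decide +kernel)))).resolve_right n.1
  have h2 := ((L.ker _).1 (L.z h.z (l.cen (w := hx2) (by decide +kernel)))).resolve_right n.2
  rcases (L.ker _).1 (L.z h.z (l.cen (w := lineW) (by decide +kernel))) with h0 | h0
  · exact k L l h0 h1 h2
  · exact k L.tw (l.tw L.toExt L.tw.t3) (by rw [L.ev_tw, h0, pow_odd_sq L.sq (by decide), L.sq])
      (by rw [L.ev_tw, h1, pow_even_sq L.sq (by decide), mul_one]) (by rw [L.ev_tw, h2, pow_even_sq L.sq (by decide), mul_one])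

theorem conj_d (e : Ext π d) {x a b : H} (h1 : ∃ g ∈ closure E, g * x * g⁻¹ = a) (h2 : ∃ g ∈ closure E, g * x * g⁻¹ = b)
    (h3 : a * a = 1) (h4 : a * b = d) : IsConj x (x * d) := by
  obtain ⟨g, -, rfl⟩ := h1
  obtain ⟨k, -, rfl⟩ := h2
  exact (isConj_iff.2 ⟨k, rfl⟩).trans (isConj_iff.2 ⟨g, by rw [e.cj_d, ← h4, canc h3]⟩).symm

theorem Lf.fu_u (L : Lf π d E E') (h : UX E') (hp : Group.IsPerfect H) : Fu d E := by
  have := h.fin
  obtain ⟨τ, l⟩ := L.tl h.tl
  have k : Sq (τ 204 * τ 207 * d) ∧ IsConj (ev τ [3, 12, 48]) (ev τ [3, 12, 48] * d) := by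
    rcases L.ns_u h hp l with e | e
    · obtain ⟨g, -, q⟩ := l.sq_of (e := 1056) (f := 1251) (u := [51, 60]) (l := [51, 60, 48, 63]) (by decide +kernel)
      exact ⟨⟨g, by
        rw [q, ← l.ev_red (l := [204, 207] ++ hx1) (m := [204, 207]) (by decide +kernel), ev_append, e]; simp⟩,
        conj_d L.toExt (l.tri' (u := 51) (v := 60) (w := 204) (s := 213) (by decide +kernel))
          (l.tri' (u := 48) (v := 63) (w := 207) (s := 5) (by decide +kernel)) (l.ev_sq (by decide +kernel))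
          (by rw [← ev_append, ← e]; exact l.ev_red (m := []) (by decide +kernel))⟩
    · obtain ⟨g, -, q⟩ := l.sq_of (e := 1056) (f := 1248) (u := [243, 828]) (l := [243, 828, 1023, 48])
        (by decide +kernel)
      exact ⟨⟨g, by
        rw [q, ← l.ev_red (l := [204, 207] ++ hx2) (m := [204, 207]) (by decide +kernel), ev_append, e]; simp⟩,
        conj_d L.toExt (l.tri' (u := 243) (v := 828) (w := 204) (s := 342) (by decide +kernel))
          (l.tri' (u := 1023) (v := 48) (w := 207) (s := 5) (by decide +kernel)) (l.ev_sq (by decide +kernel))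
          (by rw [← ev_append, ← e]; exact l.ev_red (m := []) (by decide +kernel))⟩
  obtain ⟨g, -, e⟩ := l.tri' (u := 3) (v := 12) (w := 63) (s := 1056) (by decide +kernel)
  refine L.fu h.cov (l.mem 204 (by decide)) (l.mnb (by decide +kernel)) k.1 (fun a ha b hb c hc => ?_) k.2
    (isConj_iff.2 ⟨g, e⟩) (l.ev_sq (by decide +kernel)) ?_ ⟨_, l.mem 48 (by decide), _, l.mnb (v := 63) (by decide +kernel), by
      rw [← ev_append, l.ev_red (l' := [48, 63]) (m := [3, 12]) (by decide +kernel)]; simp⟩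
  · refine (l.tri2 ha hb hc.1 (nb_nb hc)).imp
      (fun ⟨g, _, e⟩ => isConj_iff.2 ⟨g, e⟩) fun ⟨e, he, f, hf, q⟩ => ⟨e, he, f, hf, ?_⟩
    have := L.z h.z (l.cen (w := lineW) (by decide +kernel))
    rw [← q, map_mul] at this
    rw [eq_inv_of_mul_eq_one_left this, ← map_inv, inv_of_sq (sq_mul (t3_sq L.t3 he) (t3_sq L.t3 hf.1) hf.2.2)]
  · change _ = _
    rw [← ev_append, ← ev_append, l.ev_red (l' := [48, 63]) (m := [3, 12]) (by decide +kernel),
      l.ev_red (l := [3, 12, 63] ++ _) (l' := [48, 63]) (m := [3, 12]) (by decide +kernel)]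

/-- an even relation with value `d` -/
def Hep (E : Set H) (d : H) : Prop := ∃ l : List H, Even l.length ∧ l ≠ [] ∧ (∀ e ∈ l, e ∈ E) ∧
  (∀ a ∈ l, ∀ b ∈ l, Commute a b) ∧ l.prod = d

theorem Lf.hep_u (L : Lf π d E E') (h : UX E') (hp : Group.IsPerfect H) : Hep E d := by
  obtain ⟨τ, l⟩ := L.tl h.tl
  rcases L.ns_u h hp l with e | e
  · exact ⟨hx1.map τ, by rw [List.length_map]; decide, by simp [hx1], l.all_mem (by decide +kernel), l.all_cm (by decide +kernel), e⟩
  · exact ⟨hx2.map τ, by rw [List.length_map]; decide, by simp [hx2], l.all_mem (by decide +kernel), l.all_cm (by decide +kernel), e⟩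

/-- `d` as an element of its centraliser -/
def inC (d : G) : centralizer ({d} : Set G) := ⟨d, mem_centralizer_singleton_iff.2 rfl⟩

theorem em_cent (d : G) : Em (centralizer ({d} : Set G)).subtype (inC d) :=
  ⟨subtype_injective _, fun g hg => ⟨⟨g, mem_centralizer_singleton_iff.2 hg.symm.eq⟩, rfl⟩⟩

theorem ext_cent {d : G} (hd : orderOf d = 2) [((zpowers d).subgroupOf (centralizer ({d} : Set G))).Normal]
    (e : centralizer ({d} : Set G) ⧸ (zpowers d).subgroupOf (centralizer ({d} : Set G)) ≃* X) :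
    Ext (e.toMonoidHom.comp (QuotientGroup.mk' _)) (inC d) :=
  ⟨Subtype.ext (sq_of_ord hd), fun q => ne_one_of_ord hd (congrArg Subtype.val q),
    fun g => Subtype.ext (mem_centralizer_singleton_iff.1 g.2).symm, fun g => by
      simp only [MulEquiv.toMonoidHom_eq_coe, MonoidHom.coe_comp, MonoidHom.coe_coe, QuotientGroup.coe_mk',
        Function.comp_apply, map_eq_one_iff _ e.injective, QuotientGroup.eq_one_iff, mem_subgroupOf, Subtype.ext_iff]
      exact ⟨zpowers_cases (sq_of_ord hd), fun q => q.elim (· ▸ one_mem _) (· ▸ mem_zpowers d)⟩,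
    e.surjective.comp (QuotientGroup.mk'_surjective _)⟩

theorem Lf.invol (L : Lf π d E E') (c : Cov E') {x : X} (hx : orderOf x = 2) : ∃ y, orderOf y = 2 ∧ π y = x := by
  obtain ⟨y, rfl⟩ := L.surj x
  exact ⟨y, ord_of_sq (L.sq1 c (sq_of_ord hx)) fun e => ne_one_of_ord hx (by simp [e]), rfl⟩

end H28
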