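import Cfsg.Agent.H28.Fis2
import Cfsg.Agent.H28.FG
import Cfsg.Agent.H28.UZ
import Cfsg.Agent.H28.UA
import Cfsg.Agent.H28.UB
import Cfsg.Agent.H28.UC

/-! More on labelled unitary Fischer spaces: products of commuting points, orbits on pairs and triples, squares,
and the order bound `Lab.chain` for a group generated by such a space in which the line and Baer relations hold. -/

namespace H28
open Cfsg H15 Subgroup

variable {G : Type*} [Group G] {E : Set G} {τ : ℕ → G}

/-- pairwise orthogonal isotropic codes -/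
def cm (l : List ℕ) : Bool := l.all iso && l.all fun u => l.all fun v => Nat.beq (hc u v) 0

theorem Lab.cm (h : Lab τ E) {l : List ℕ} (hl : cm l = true) : ∀ u ∈ l, ∀ v ∈ l, Commute (τ u) (τ v) := by
  simp only [H28.cm, Bool.and_eq_true, List.all_eq_true, Nat.beq_eq] at hl
  exact fun u hu v hv => (h.comm u v (hl.1 u hu) (hl.1 v hv)).2 (hl.2 u hu v hv)

theorem prod_perm {l l' : List G} (h : l.Perm l') (hc : ∀ a ∈ l, ∀ b ∈ l, Commute a b) : l.prod = l'.prod :=
  h.prod_eq' (List.pairwise_of_forall_mem_list hc)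

theorem prod_sq {l : List G} (h1 : ∀ a ∈ l, a * a = 1) (hc : ∀ a ∈ l, ∀ b ∈ l, Commute a b) :
    l.prod * l.prod = 1 := by
  induction l with
  | nil => simp
  | cons a l ih =>
    have c : Commute a l.prod := Commute.list_prod_right _ _ fun b hb => hc a (by simp) b (by simp [hb])
    rw [List.prod_cons, mul_assoc, ← mul_assoc l.prod, ← c.eq, mul_assoc,
      ih (fun a ha => h1 a (by simp [ha])) fun a ha b hb => hc a (by simp [ha]) b (by simp [hb]), mul_one,
      h1 a (by simp)]

theorem Lab.ev_nrm (h : Lab τ E) {l : List ℕ} (hl : l.all iso = true) : ev τ (l.map H28.nrm) = ev τ l := by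
  rw [ev_map]; exact ev_congr fun x hx => h.nrm (List.all_eq_true.1 hl x hx)

/-- products of commuting points only depend on the multiset modulo two -/
theorem Lab.ev_red (h : Lab τ E) {l l' m : List ℕ}
    (hl : (H28.cm l && (H28.cm m && (l'.all iso && (l.map H28.nrm).isPerm ((l' ++ (m ++ m)).map H28.nrm)))) = true) :
    ev τ l = ev τ l' := by
  simp only [Bool.and_eq_true, List.isPerm_iff] at hl
  obtain ⟨h1, h2, h3, h4⟩ := hl
  have i1 := (Bool.and_eq_true_iff.1 h1).1
  have i2 := (Bool.and_eq_true_iff.1 h2).1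
  have e : ev τ m * ev τ m = 1 := prod_sq (by
    simp only [List.mem_map]; rintro _ ⟨x, hx, rfl⟩; exact h.sq (List.all_eq_true.1 i2 x hx)) (by
    simp only [List.mem_map]; rintro _ ⟨x, hx, rfl⟩ _ ⟨y, hy, rfl⟩; exact h.cm h2 x hx y hy)
  rw [← h.ev_nrm i1, ← mul_one (ev τ l'), ← e, ← ev_append, ← ev_append,
    ← h.ev_nrm (l := l' ++ (m ++ m)) (by simp only [List.all_append, h3, i2]; rfl)]
  refine prod_perm (h4.map τ) ?_
  simp only [List.mem_map]
  rintro _ ⟨_, ⟨x, hx, rfl⟩, rfl⟩ _ ⟨_, ⟨y, hy, rfl⟩, rfl⟩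
  rw [h.nrm (List.all_eq_true.1 i1 x hx), h.nrm (List.all_eq_true.1 i1 y hy)]
  exact h.cm h1 x hx y hy

theorem conj_list (g : G) (l : List G) : g * l.prod * g⁻¹ = (l.map fun x => g * x * g⁻¹).prod := by
  induction l with
  | nil => simp
  | cons a l ih => rw [List.map_cons, List.prod_cons, List.prod_cons, ← ih]; group

theorem ev_conj (g : G) (τ : ℕ → G) (l : List ℕ) : ev (fun v => g * τ v * g⁻¹) l = g * ev τ l * g⁻¹ := by
  rw [ev, ev, conj_list, List.map_map]; rfl

theorem Lab.ev_wk (h : Lab τ E) {w l : List ℕ} (hw : w.all iso = true) (hl : l.all iso = true) :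
    ev τ w * ev τ l * (ev τ w)⁻¹ = ev τ (l.map (H28.wk w)) := by
  rw [← ev_conj, ev_map]
  exact ev_congr fun x hx => (h.wk hw (List.all_eq_true.1 hl x hx)).2.2

/-- a product `u u^w` with `w` a product of two commuting points is a square -/
theorem Lab.sq_of (h : Lab τ E) {e f : ℕ} {u l : List ℕ}
    (hl : (H28.cm [e, f] && (u.all iso && (H28.cm l && (((u ++ u.map (H28.wk [e, f])).all iso) &&
      (l.map H28.nrm).isPerm ((u ++ u.map (H28.wk [e, f]) ++ ([] ++ [])).map H28.nrm))))) = true) :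
    ∃ g ∈ closure E, g * g = ev τ l := by
  simp only [Bool.and_eq_true_iff (x := H28.cm _), Bool.and_eq_true_iff (x := u.all iso)] at hl
  obtain ⟨h1, h2, h3, h4⟩ := hl
  have i1 := (Bool.and_eq_true_iff.1 h1).1
  have e1 : ev τ [e, f] * ev τ [e, f] = 1 := prod_sq (by
    simp only [List.mem_map]; rintro _ ⟨x, hx, rfl⟩; exact h.sq (List.all_eq_true.1 i1 x hx)) (by
    simp only [List.mem_map]; rintro _ ⟨x, hx, rfl⟩ _ ⟨y, hy, rfl⟩; exact h.cm h1 x hx y hy)
  refine ⟨ev τ u * ev τ [e, f], mul_mem (h.ev_mem h2) (h.ev_mem i1), ?_⟩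
  rw [h.ev_red (l := l) (l' := u ++ u.map (H28.wk [e, f])) (m := []) (by rw [h3, h4]; rfl), ev_append, ← h.ev_wk i1 h2,
    inv_of_sq e1]
  group

theorem Lab.wl2 (h : Lab τ E) {p r : G} (hp : p ∈ E) (hr : r ∈ nb E p) :
    ∃ g ∈ closure E, g * τ 3 * g⁻¹ = p ∧ g * τ 12 * g⁻¹ = r := by
  obtain ⟨g, hg, rfl⟩ := h.wl1 hp
  have h1 := h.inn hg
  obtain ⟨v, hv, rfl⟩ := h1.surj r hr.1
  obtain ⟨k, hk, e⟩ := h1.orbit (fun a ha => (Bool.and_eq_true_iff.1 ha).1) (by decide +kernel) r2_chk hv (by
    have a := (h1.comm v 3 hv (by decide +kernel)).1 hr.2.2.symm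
    have b : H28.nrm v ≠ 3 := fun b => hr.2.1 (h1.eq_of_nrm hv (by decide +kernel) (b.trans (by decide +kernel)))
    simp [a, Nat.beq_false_of_ne b])
  obtain ⟨k1, k2⟩ := h1.perp_fix hk
  exact ⟨k * g, mul_mem k1 hg, by rw [← k2]; group, by rw [← e]; group⟩

theorem r4_chk : fc (reach (fun a => iso a && (Nat.beq (hc a 3) 0 && Nat.beq (hc a 12) 0)) [4325424, 4337712, 4374576, 4386864, 4390960, 4403248, 4440112, 4452400, 5111856, 5124144, 5161008, 5173296, 5177392, 5189680, 5226544, 5238832, 7471152, 7483440, 7520304, 7532592, 7536688, 7548976, 7585840, 7598128, 8257584, 8269872, 8306736, 8319024, 8323120, 8335408, 8372272, 8384560, 4338736, 4375600, 4387888, 5112880, 5125168, 5162032, 5174320, 7472176, 7484464, 7521328, 7533616, 8258608, 8270896, 8307760, 8320048] (bt 48))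
    (fun m => allB (fun v => !(iso v && (fun v => Nat.beq (hc v 3) 0 && (Nat.beq (hc v 12) 0 &&
      !lineW.contains (nrm v))) v) || m.testBit (nrm v)) 12 0) = true := by decide +kernel

/-- commuting triples: either collinear or conjugate to the standard triangle -/
theorem Lab.tri (h : Lab τ E) {p r q : G} (hp : p ∈ E) (hr : r ∈ nb E p) (hq : q ∈ E) (h1 : Commute p q)
    (h2 : Commute r q) : (∃ g ∈ closure E, g * ev τ [3, 12, 48] * g⁻¹ = p * r * q) ∨
      ∃ g ∈ closure E, g * τ 3 * g⁻¹ = p ∧ g * τ 12 * g⁻¹ = r ∧ ∃ v ∈ lineW, g * τ v * g⁻¹ = q := by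
  obtain ⟨g, hg, rfl, rfl⟩ := h.wl2 hp hr
  have k := h.inn hg
  obtain ⟨v, hv, rfl⟩ := k.surj q hq
  by_cases c : H28.nrm v ∈ lineW
  · exact Or.inr ⟨g, hg, rfl, rfl, _, c, k.nrm hv⟩
  obtain ⟨x, hx, e⟩ := k.orbit (fun a ha => (Bool.and_eq_true_iff.1 ha).1) (by decide +kernel) r4_chk hv (by
    simp [(k.comm v 3 hv (by decide +kernel)).1 h1.symm, (k.comm v 12 hv (by decide +kernel)).1 h2.symm, c])
  have : x ∈ closure E ⊓ (centralizer {g * τ 3 * g⁻¹} ⊓ centralizer {g * τ 12 * g⁻¹}) := by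
    refine (closure_le _).2 ?_ hx
    rintro _ ⟨a, ha, rfl⟩
    simp only [Set.mem_ofPred_eq, Bool.and_eq_true, Nat.beq_eq] at ha
    exact ⟨subset_closure (k.mem a ha.1), mem_centralizer_singleton_iff.2 ((k.comm a 3 ha.1 (by decide +kernel)).2
      ha.2.1).eq, mem_centralizer_singleton_iff.2 ((k.comm a 12 ha.1 (by decide +kernel)).2 ha.2.2).eq⟩
  refine Or.inl ⟨x * g, mul_mem this.1 hg, ?_⟩
  have a := mem_centralizer_singleton_iff.1 this.2.1
  have b := mem_centralizer_singleton_iff.1 this.2.2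
  rw [← e, ← mul_inv_eq_iff_eq_mul.2 a, ← mul_inv_eq_iff_eq_mul.2 b]
  simp only [ev_cons, ev_nil]; group

theorem lineW_dp : lineW.all (fun v => iso v && (Nat.beq v 3 || (List.range 4).any fun c =>
    iso (ln 3 12 c) && Nat.beq (nrm v) (nrm (ln 3 12 c)))) = true := by decide +kernel

theorem Lab.lineW_dperp (h : Lab τ E) {v : ℕ} (hv : v ∈ lineW) : dperp E (τ 3) (τ 12) (τ v) := by
  have := List.all_eq_true.1 lineW_dp v hv
  simp only [Bool.and_eq_true, Bool.or_eq_true, Nat.beq_eq, List.any_eq_true, List.mem_range] at this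
  obtain ⟨a, rfl | ⟨c, c4, b, e⟩⟩ := this
  · exact fun w _ h1 _ => h1
  · rw [h.eq_of_nrm a b e]; exact h.line_sub (by decide +kernel) (by decide +kernel) c4 b

theorem Lab.tri' (h : Lab τ E) {u v w s : ℕ} (hc' : (H28.cm [u, v, w] && (iso s && (!Nat.beq (H28.nrm v) (H28.nrm u) &&
    (Nat.beq (hc u s) 0 && (Nat.beq (hc v s) 0 && !Nat.beq (hc w s) 0))))) = true) :
    ∃ g ∈ closure E, g * ev τ [3, 12, 48] * g⁻¹ = ev τ [u, v, w] := by
  simp only [Bool.and_eq_true_iff (x := H28.cm _)] at hc'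
  obtain ⟨h1, h2⟩ := hc'
  have c := h.cm h1
  have i := List.all_eq_true.1 (Bool.and_eq_true_iff.1 h1).1
  simp only [Bool.and_eq_true, Bool.not_eq_true', Nat.beq_eq, ← Bool.not_eq_true] at h2
  have iu := i u (by simp)
  have iv := i v (by simp)
  have iw := i w (by simp)
  rcases h.tri (h.mem u iu) ⟨h.mem v iv, h.ne iv iu h2.2.1, c u (by simp) v (by simp)⟩ (h.mem w iw)
    (c u (by simp) w (by simp)) (c v (by simp) w (by simp)) with ⟨g, hg, e⟩ | ⟨g, hg, e1, e2, x, hx, e3⟩
  · exact ⟨g, hg, by rw [e]; simp [mul_assoc]⟩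
  · have := (h.inn hg).lineW_dperp hx (τ s) (h.mem s h2.1)
    rw [e1, e2, e3, h.comm _ _ iu h2.1, h.comm _ _ iv h2.1, h.comm _ _ iw h2.1] at this
    exact absurd (this h2.2.2.1 h2.2.2.2.1) h2.2.2.2.2

theorem Lab.cenL (h : Lab τ E) {g : G} (hg : g ∈ closure E) : g * ev τ lineW * g⁻¹ = ev τ lineW := by
  rw [← (comm_closure (h.cen (w := lineW) (by decide +kernel)) hg).eq, mul_inv_cancel_right]

/-- the product of a commuting triple -/
theorem Lab.tri2 (h : Lab τ E) {p r q : G} (hp : p ∈ E) (hr : r ∈ nb E p) (hq : q ∈ nb E p) (h2 : q ∈ nb E r) :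
    (∃ g ∈ closure E, g * ev τ [3, 12, 48] * g⁻¹ = p * r * q) ∨
      ∃ a ∈ E, ∃ b ∈ nb E a, p * r * q * (a * b) = ev τ lineW := by
  refine (h.tri hp hr hq.1 hq.2.2 h2.2.2).imp_right ?_
  rintro ⟨g, hg, rfl, rfl, v, hv, rfl⟩
  have k := h.inn hg
  have key : ∀ a b : ℕ, (H28.cm [3, 12, v, a, b] && (H28.cm [] && (lineW.all iso &&
      ([3, 12, v, a, b].map H28.nrm).isPerm ((lineW ++ ([] ++ [])).map H28.nrm)))) = true → iso a = true →
      iso b = true → H28.nrm b ≠ H28.nrm a → hc a b = 0 → ∃ a ∈ E, ∃ b ∈ nb E a,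
      g * τ 3 * g⁻¹ * (g * τ 12 * g⁻¹) * (g * τ v * g⁻¹) * (a * b) = ev τ lineW := fun a b e ia ib n c =>
    ⟨_, k.mem a ia, _, ⟨k.mem b ib, k.ne ib ia n, (k.comm _ _ ia ib).2 c⟩, by
      rw [← h.cenL hg, ← ev_conj, ← k.ev_red e]; simp only [ev_cons, ev_nil]; group⟩
  simp only [lineW, List.mem_cons, List.not_mem_nil, or_false] at hv
  rcases hv with rfl | rfl | rfl | rfl | rfl
  · exact key 204 207 (by decide +kernel) (by decide +kernel) (by decide +kernel) (by decide +kernel)
      (by decide +kernel)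
  · exact key 15 207 (by decide +kernel) (by decide +kernel) (by decide +kernel) (by decide +kernel)
      (by decide +kernel)
  · exact key 15 204 (by decide +kernel) (by decide +kernel) (by decide +kernel) (by decide +kernel)
      (by decide +kernel)
  · exact absurd rfl hq.2.1
  · exact absurd rfl h2.2.1

theorem r5_chk : fc (reach (fun a => iso a && inS 0 a) [69647,73743,81935,98319,135183,139279,147471,163855,270351,274447,278543,282639,294927,299023,327695,331791,393231,397327,540687,548879,557071,565263,589839,598031,655375,663567,1036303,1040399,1081359,1097743,1114127,1130511,1179663,1196047,1552399,1564687,1814543,1822735,2064399,2093071,2162703,2195471,2228239,2261007,2584591,2613263,2846735,2871311,3096591,3141647,3371023,3387407,3612687,3665935,3870735,3928079,4648975,4710415,4911119,4968463,5435407,5484559,6205455,6213647,6217743,6262799,6266895,6275087,6483983,6516751,7237647,7262223,7266319,7294991,7299087,7323663,7761935,7778319,7790607,7811087,7823375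,7839759,8024079,8040463,8048655,8073231,8081423,8097807,8261647,8265743,8273935,8290319,8351759,8368143,8376335,8380431,139294,147486,163870,270366,274462,278558,282654,294942,299038,327710,331806,540702,548894,557086,565278,589854,598046,655390,663582,1036318,1040414,1081374,1097758,1114142,1130526,1179678,1196062,1552414,1564702,1814558,1822750,2162718,2195486,2228254,2261022,2584606,2613278,2846750,2871326,3371038,3387422,3870750,3928094,4648990,4710430,4911134,4968478,5435422,5484574,6205470,6213662,6217758,6262814,6266910,6275102,6483998,6516766,7237662,7262238,7266334,7295006,7299102,7323678,7761950,7778334,7790622,7811102,7823390,7839774,8265758,8273950,8290334,8351774,8368158,8376350,147485,163869,270365,274461,278557,282653,294941,299037,327709,331805,540701,548893,557085,565277,589853,598045,1036317,1040413,1081373,1097757,1114141,1130525,1179677,1196061,1552413,1564701,1814557,1822749,2162717,2195485,2228253,2261021,2584605,2613277,2846749,2871325,3371037,338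7421,4648989,4710429,4911133,4968477,5435421,5484573,6205469,6213661,6217757,6262813,6266909,6275101,6483997,6516765,7237661,7262237,7266333,7295005,7299101,7323677,8273949,8290333,8351773,8368157,163867,270363,274459,278555,282651,294939,299035,327707,331803,540699,548891,557083,565275,589851,598043,1036315,1040411,1081371,1097755,1114139,1130523,1552411,1564699,1814555,1822747,2162715,2195483,2228251,2261019,2584603,2613275,2846747,2871323,3371035,3387419,4648987,4710427,4911131,4968475,5435419,5484571,6205467,6213659,6217755,6262811,6266907,6275099,6483995,6516763,8290331,8351771,270359,274455,278551,282647,294935,299031,327703,331799,540695,548887,557079,565271,589847,598039,1036311,1040407,1081367,1097751,1114135,1130519,1552407,1564695,1814551,1822743,2162711,2195479,2584599,2613271,2846743,2871319,3371031,3387415,4648983,4710423,4911127,4968471,5435415,5484567,6483991,6516759,270382,274478,278574,282670,294958,299054,589870,598062,655406,663598,1036334,1040430,111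4158,1130542,1179694,1196078,1552430,1564718,2162734,2195502,2228270,2261038,2584622,2613294,3870766,3928110,4911150,4968494,5435438,5484590,6205486,6213678,6266926,6275118,6484014,6516782,7237678,7262254,7299118,7323694,7761966,7778350,7823406,7839790,8265774,8273966,8290350,8351790,8368174,8376366,270381,274477,393261,397357,540717,548909,557101,565293,1036333,1040429,1114157,1130541,1179693,1196077,1814573,1822765,2162733,2195501,2228269,2261037,2846765,2871341,5435437,5484589,6205485,6275117,6484013,6516781,7237677,7323693,8024109,8040493,8081453,8097837,8261677,8273965,8290349,8351789,8368173,8380461,278571,282667,393259,397355,540715,548907,655403,663595,1081387,1097771,1552427,1564715,1814571,1822763,2162731,2195499,2228267,2261035,3371051,3387435,6484011,6516779,7761963,7839787,8024107,8097835,8261675,8265771,8290347,8351787,8376363,8380459,294951,299047,393255,397351,557095,565287,655399,663591,1081383,1097767,1179687,1196071,2584615,2613287,2846759,2871335,3371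047,3387431,8261671,8265767,8273959,8368167,8376359,8380455,1081550,1097934,1552590,1822926,2064590,2093262,2584782,2871502,3096782,3141838,3612878,3928270,7790798,8073422,1081549,1097933,1564877,1814733,2064589,2093261,2613453,2846925,3096781,3141837,557390,1036622,1814862,2064718,2093390,2584910,3096910,3613006,3928398,7266638,8081742,565579,1040715,1823051,2064715,2093387,2613579,3666251,1036745,1552841,2064841,3097033,3613129,3928521,6218185,8098249,1040846,1565134,3142094,3666382,664464,1196944,2261904,3928976,4969360,5485456,6517648,8024976,8041360,8049552,8262544,8352656,8369040,8377232,8381328,656286,1180574,2229150,3871646,4912030,5436318,6484894,8074142,8082334,8098718,8262558,8266654,8274846,8291230,8381342,3666768,8377168,3613533,8266589,3142352,8368848,3097307,8274651,2196023,2261559,6517303,8290871] (bt 15))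
    (fun m => allB (fun v => !(iso v && (fun v => !inS 0 v) v) || m.testBit (nrm v)) 12 0) = true := by
  decide +kernel

noncomputable def tree2 : Ct := (.br [16838673,16838674,16838676,16838680,16838689,16838690,16838692,16838696,16838722,16838723,16838724,16838725,16838728,16838729,16838736,16838737,16838752,16838753,16838788,16838790,16838792,16838794,16838800,16838802,16838816,16838818,16838909,16838910,16838920,16838924,16838928,16838932,16838944,16838948,16839035,16839038,16839099,16839101,16839160,16839167,16839184,16839192,16839200,16839208,16839287,16839294,16839351,16839357,16839412,16839423,16839479,16839483,16839538,16839551,16839601,16839615,16839791,16839806,16839855,16839869,16839983,16839995,16840171,16840173,16840174,16840185,16840186,16840188,16840239,16840247,16840423,16840429,16840430,16840437,16840438,16840444,16840551,16840555,16840558,16840563,16840566,16840570,16840615,16840619,16840621,16840627,16840629,16840633,16840673,16840674,16840676,16840680,16840695,16840699,16840701,16840702]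 15 3 (.fin []) (.fin [])
 (.fin [51167300])
 (.fin [51179589]))
def O0 : ℕ := ((List.range 4096).filter fun v => iso v && inS 0 v).foldr (fun v m => Nat.lor m (bt v)) 0
theorem tree2_chk : fc O0 (fun O => tree2.chk (Nat.lor 0 (bt (nrm 15))) O) = true := by decide +kernel

theorem foldr_bt {l : List ℕ} {v : ℕ} (h : (l.foldr (fun v m => Nat.lor m (bt v)) 0).testBit v = true) : v ∈ l := by
  induction l with
  | nil => simp at h
  | cons a l ih => exact (testBit_or_bt h).elim (fun h => by simp [ih h]) fun h => by simp [h]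

/-- two hyperovals meet -/
theorem TL.meet (h : TL E) {a x y z : G} (ha : Hyp E a) (hx : Hyp E x) (hy : y ∈ E) (hay : Commute a y) (hz : z ∈ E)
    (hxz : Commute x z) : ∃ s ∈ E, Commute a s ∧ Commute x s := by
  obtain ⟨τ, h, t⟩ := h.exists_tr0 hx hz hxz
  by_contra! hn
  obtain ⟨v, hv, rfl⟩ := h.surj y hy
  obtain ⟨g, hg, e⟩ := h.orbit (fun a ha => (Bool.and_eq_true_iff.1 ha).1) (by decide +kernel) r5_chk hv (by
    simpa using fun e => hn _ hy hay ((t v hv).2 e))
  have : g ∈ closure E ⊓ centralizer {x} := by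
    refine (closure_le _).2 ?_ hg
    rintro _ ⟨a, ha, rfl⟩
    simp only [Set.mem_ofPred_eq, Bool.and_eq_true] at ha
    exact ⟨subset_closure (h.mem a ha.1), mem_centralizer_singleton_iff.2 ((t a ha.1).2 ha.2).symm.eq⟩
  have k := h.inn this.1
  have t' := t.cj g
  rw [mem_centralizer_singleton_iff.1 this.2, mul_inv_cancel_right] at t'
  have s0 : St (fun v => g * τ v * g⁻¹) a 0 O0 := ⟨by simp, fun u hu => by
    have := (List.mem_filter.1 (foldr_bt hu)).2
    rw [Bool.and_eq_true] at this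
    exact ⟨this.1, fun c => hn _ (k.mem u this.1) c ((t' u this.1).2 this.2)⟩⟩
  obtain ⟨i, i3, ti⟩ := Ct.sound k ha (s0.addI k (v := 15) (by decide +kernel) (by rwa [e])) (by
    have := tree2_chk; rwa [fc_eq] at this)
  exact hn _ (k.mem 3 (by decide +kernel)) ((ti 3 (by decide +kernel)).2 (by interval_cases i <;> decide +kernel))
    ((t' 3 (by decide +kernel)).2 (by decide +kernel))

/-! ### the chain -/

def lu (i : ℕ) : ℕ := [12, 24, 48, 1824, 60, 816, 15, 3, 6].getD i 3
noncomputable def cu (c : List ℕ × ℕ) : ℕ := wk (c.1.map lu) (lu c.2)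
theorem iso_lu (i : ℕ) : iso (lu i) = true := by
  by_cases h : i < 9
  · revert i; decide +kernel
  · rw [lu, List.getD_eq_default _ _ (by simpa using h)]; decide +kernel

theorem Lab.ev_cu (h : Lab τ E) (c : List ℕ × ℕ) : iso (cu c) = true ∧ ev (fun i => τ (lu i)) (cwd c) = τ (cu c) := by
  obtain ⟨h1, -, h3⟩ := h.wk (w := c.1.map lu) (by simp [iso_lu]) (iso_lu c.2)
  exact ⟨h1, by rw [H28.ev_cwd fun i => h.sq (iso_lu i), cu, ← h3, ev_map]⟩

theorem Lab.ev_fu (h : Lab τ E) (l : List (List ℕ × ℕ)) :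
    ev (fun i => τ (lu i)) (l.flatMap cwd) = ev τ (l.map cu) := by
  rw [ev_flatMap, ev, List.map_map]
  exact congrArg _ (List.map_congr_left fun c _ => (h.ev_cu c).2)

def AU : List ((List ℕ × ℕ) × (List ℕ × ℕ)) := [(([2],0),([],0)),(([3],0),([],0)),(([4],0),([],0)),(([3],1),([],1)),(([4],1),([],1)),(([4],2),([],2)),(([0],1),([1],0)),(([1],2),([2],1)),(([2],3),([3],2)),(([3],4),([4],3)),(([5],2),([],2)),(([1],5),([5],1)),(([3],5),([5],3)),(([3,1],0),([1],0)),(([0,3],2),([3],2)),(([2,3,5,2],1),([1,5,3,2],1)),(([6],0),([],0)),(([7],0),([],0)),(([7],1),([],1)),(([6],2),([],2)),(([7],2),([],2)),(([6],3),([],3)),(([7],3),([],3)),(([5],4),([],4)),(([6],4),([],4)),(([6],5),([],5)),(([7],5),([],5)),(([7],6),([],6)),(([1],6),([6],1)),(([4,1],0),([1],0)),(([5],0),([],0)),(([8],1),([],1)),(([8],2),([],2)),(([7],4),([],4)),(([8],6),([],6)),(([0],8),([8],0)),(([3],8),([8],3)),(([5],8),([8],5)),(([7],8),([8],7)),(([4,8,3],2),([5,3,8],0)),(([4,8,6,1],0),([7,8,2,1],0))]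
def Y0 : List (List ℕ × ℕ) := [([],0),([],2),([],4),([1,5,2,1],0),([],5)]
def Y1 : List (List ℕ × ℕ) := [([],6),([1,5,3,2,1,6,5,4,3,2],1),([1,2,3,5,1,6,4,2,3,5],1),([],7),([],0)]
def Y2 : List (List ℕ × ℕ) := [([],6),([1,6,2,1],0),([],4),([],7),([],0),([],2),([3,2,1,6,4,3,2,1],0)]
def Y3 : List (List ℕ × ℕ) := [([],6),([3,5,2,1,6,3,5,1],0),([1,5,2,1],0),([3,2,1,6,4,3,5,1],0),([],7),([],0),([],2)]
def Y4 : List (List ℕ × ℕ) := [([],7),([],8),([8,7,3,8,5,1],0),([],7),([],8),([8,7,3,8,5,1],0),([],1),([5,4],3),([],2),([],1),([5,4],3),([],2)]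
def Y5 : List (List ℕ × ℕ) := [([8,7,3,8,3,5,1],0),([],8),([],0),([],1),([],2),([],7),([3,5,8,7,3,8,5],1),([3,2,1,0,8,6,3,2],1)]
def baer1 : List ℕ := [15, 51, 60, 3, 12, 48, 63]
def baer2 : List ℕ := [15, 243, 828, 1023, 3, 12, 48]
def cubeW : List ℕ := [3, 6, 67, 3, 6, 67, 24, 1056, 48, 24, 1056, 48]
theorem Y_eq : Y0.map cu = [12, 48, 60, 828, 816] ∧ Y1.map cu = lineW ∧ Y2.map cu = baer1 ∧ Y3.map cu = baer2 ∧
    Y4.map cu = cubeW ∧ Y5.map cu = xs ∧ AU.all (fun p => Nat.beq (nrm (cu p.1)) (nrm (cu p.2))) = true := by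
  decide +kernel

noncomputable def relsU : List (List ℕ) := (List.range 9).map (fun i => [i, i]) ++ AU.map (fun p => cwd p.1 ++ cwd p.2)

theorem Lab.relsU (h : Lab τ E) : ∀ w ∈ relsU, ev (fun i => τ (lu i)) w = 1 := by
  intro w hw
  simp only [H28.relsU, List.mem_append, List.mem_map] at hw
  rcases hw with ⟨i, -, rfl⟩ | ⟨p, hp, rfl⟩
  · simpa using h.sq (iso_lu i)
  · rw [ev_append, (h.ev_cu _).2, (h.ev_cu _).2, h.eq_of_nrm (h.ev_cu _).1 (h.ev_cu p.2).1
      (Nat.eq_of_beq_eq_true (List.all_eq_true.1 Y_eq.2.2.2.2.2.2 p hp)), h.sq (h.ev_cu _).1]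

theorem Lab.clo9 (h : Lab τ E) : closure ((fun i => τ (lu i)) '' Set.Iio 9) = closure E := by
  refine le_antisymm (closure_mono (by rintro _ ⟨i, -, rfl⟩; exact h.mem _ (iso_lu i))) ((closure_le _).2 ?_)
  refine h.sub_xs.trans (SetLike.coe_subset_coe.2 ((closure_le _).2 ?_))
  rintro _ ⟨a, ha, rfl⟩
  rw [Set.mem_ofPred_eq, ← Y_eq.2.2.2.2.2.1] at ha
  obtain ⟨c, hc, rfl⟩ := List.mem_map.1 ha
  rw [← (h.ev_cu c).2]
  exact H15.ev_mem fun x hx => Subgroup.subset_closure ⟨x, (by decide +kernel : ∀ c ∈ Y5, ∀ x ∈ cwd c, x < 9) c hc x hx, rfl⟩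

theorem aff_cube6 {a b c : G} (ha : a * a = 1) (hb : b * b = 1) (hc : c * c = 1) (h1 : a * b * a = b * a * b)
    (h2 : b * c * b = c * b * c) (h3 : c * a * c = a * c * a) (h4 : (a * (b * c * b)) ^ 3 = 1)
    (h5 : (b * a * b * c) ^ 3 = 1) : (a * b * c * a * b * c) ^ 3 = 1 := by
  have e : a * b * c * a * b * c = a * (b * c * b) * (b * a * b * c) := by simp only [mul_assoc, canc hb]
  have e' : a * b * c * a * b * c = b * a * b * c * (a * (b * c * b)) := by
    calc _ = a * b * c * a * (b * c * b) * b := by simp only [mul_assoc, hb, mul_one]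
      _ = a * b * (c * a * c) * b * c * b := by rw [h2]; group
      _ = _ := by rw [h3, ← h1]; group
  rw [e, (show Commute _ _ from e.symm.trans e').mul_pow, h4, h5, mul_one]

theorem Lab.aff (h : Lab τ E) {a b c : ℕ} (hh : (iso a && (iso b && (iso c && ([hc a b, hc b c, hc c a,
    hc a (op b c), hc (op b a) c].all fun x => !Nat.beq x 0)))) = true) : ev τ [a, b, c, a, b, c] ^ 3 = 1 := by
  simp only [Bool.and_eq_true, List.all_cons, List.all_nil, Bool.not_eq_true', ← Bool.not_eq_true, Nat.beq_eq] at hh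
  obtain ⟨ia, ib, ic, h1, h2, h3, h4, h5, -⟩ := hh
  have br : ∀ u v, iso u = true → iso v = true → ¬ hc u v = 0 → τ u * τ v * τ u = τ v * τ u * τ v :=
    fun u v iu iv n => t3_braid h.t3 (h.mem u iu) (h.mem v iv) (by rwa [h.comm u v iu iv])
  have := aff_cube6 (h.sq ia) (h.sq ib) (h.sq ic) (br _ _ ia ib h1) (br _ _ ib ic h2) (br _ _ ic ia h3)
    (by rw [h.conj _ _ ib ic]; exact cube_of_braid (h.sq ia) (h.sq (iso_op ib ic)) (br _ _ ia (iso_op ib ic) h4))
    (by rw [h.conj _ _ ib ia]; exact cube_of_braid (h.sq (iso_op ib ia)) (h.sq ic) (br _ _ (iso_op ib ia) ic h5))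
  simpa [mul_assoc] using this

theorem Lab.cube (h : Lab τ E) : ev τ cubeW ^ 3 = 1 ∧ ∀ e ∈ E, Commute (ev τ cubeW) e := by
  have c := h.cen (w := cubeW) (by decide +kernel)
  refine ⟨?_, c⟩
  have e : ev τ cubeW = ev τ [3, 6, 67, 3, 6, 67] * ev τ [24, 1056, 48, 24, 1056, 48] :=
    ev_append τ [3, 6, 67, 3, 6, 67] _
  have k : Commute (ev τ [3, 6, 67, 3, 6, 67]) (ev τ [24, 1056, 48, 24, 1056, 48]) := by
    have := comm_closure c (h.ev_mem (w := [24, 1056, 48, 24, 1056, 48]) (by decide +kernel))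
    rw [e] at this
    simpa only [mul_inv_cancel_right] using this.mul_left (Commute.refl _).inv_left
  rw [e, k.mul_pow, h.aff (by decide +kernel), h.aff (by decide +kernel), mul_one]

theorem sub_iio {Y : Type*} [Group Y] (gen : ℕ → Y) {subs : List (List ℕ)} {n : ℕ}
    (h : subs = (List.range n).map fun i => [i]) : ∀ w ∈ subs, ev gen w ∈ closure (gen '' Set.Iio n) := by
  intro w hw
  obtain ⟨i, hi, rfl⟩ := List.mem_map.1 (h ▸ hw)
  simpa using (Subgroup.subset_closure ⟨i, List.mem_range.1 hi, rfl⟩ : gen i ∈ closure (gen '' Set.Iio n))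

theorem Lab.idxC (h : Lab τ E) {Y : Type*} [Group Y] (gen : ℕ → Y) {Z : Set G} (h1 : 1 ∈ Z) (h2 : ev τ cubeW ∈ Z)
    (hZ : ∀ w, ev (fun i => τ (lu i)) w ∈ Z → ev gen w = 1) :
    (closure (gen '' Set.Iio 8)).relIndex (closure (gen '' Set.Iio 9)) ≠ 0 ∧
      (closure (gen '' Set.Iio 8)).relIndex (closure (gen '' Set.Iio 9)) ≤ 693 := by
  refine UC.idx gen (rel_sub (rels := H28.relsU ++ [Y4.flatMap cwd]) (fun w hw => hZ w ?_) (by decide +kernel)) _
    (sub_iio gen (by decide +kernel))
  rcases List.mem_append.1 hw with hw | hw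
  · rwa [h.relsU w hw]
  · rwa [List.mem_singleton.1 hw, h.ev_fu, Y_eq.2.2.2.2.1]

/-- the order bound -/
theorem Lab.chain (h : Lab τ E) {Y : Type*} [Group Y] (gen : ℕ → Y) {Z : Set G} (h1 : 1 ∈ Z) (h2 : ev τ cubeW ∈ Z)
    (h3 : ev τ lineW ∈ Z) (h4 : ev τ baer1 ∈ Z) (h5 : ev τ baer2 ∈ Z)
    (hZ : ∀ w, ev (fun i => τ (lu i)) w ∈ Z → ev gen w = 1) : Bd (closure (gen '' Set.Iio 9)) 9196830720 := by
  have r : ∀ w ∈ H28.relsU ++ [Y0.flatMap cwd, Y1.flatMap cwd, Y2.flatMap cwd, Y3.flatMap cwd], ev gen w = 1 := by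
    intro w hw
    refine hZ w ?_
    simp only [List.mem_append, List.mem_cons, List.not_mem_nil, or_false] at hw
    rcases hw with hw | rfl | rfl | rfl | rfl
    · rwa [h.relsU w hw]
    · rwa [h.ev_fu, Y_eq.1, h.ev_red (l' := lineW.map (H28.wk [17, 34])) (m := []) (by decide +kernel),
        ← h.ev_wk (by decide +kernel) (by decide +kernel), h.cenL (h.ev_mem (by decide +kernel))]
    · rwa [h.ev_fu, Y_eq.2.1]
    · rwa [h.ev_fu, Y_eq.2.2.1]
    · rwa [h.ev_fu, Y_eq.2.2.2.1]
  have b0 := Bd.bot.step (UZ.idx gen (rel_sub r (by decide +kernel)) ⊥ (by simp [UZ.subs]))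
  have b1 := b0.step (UA.idx gen (rel_sub r (by decide +kernel)) _ (sub_iio gen (by decide +kernel)))
  have b2 := b1.step (UB.idx gen (rel_sub r (by decide +kernel)) _ (sub_iio gen (by decide +kernel)))
  exact b2.step (h.idxC gen h1 h2 hZ)

theorem Lab.fi {X : Type*} [Group X] {τ' : ℕ → X} {E' : Set X} (h : Lab τ E) (h' : Lab τ' E') :
    ∃ β, FI β E E' ∧ ∀ v, iso v = true → β (τ v) = τ' v := by
  classical
  let β : G → X := fun x => if hx : x ∈ E then τ' (h.surj x hx).choose else 1
  have k : ∀ v, iso v = true → β (τ v) = τ' v := fun v hv => by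
    have := (h.surj _ (h.mem v hv)).choose_spec
    simp only [β, dif_pos (h.mem v hv)]
    exact h'.eq_of_nrm this.1 hv (h.inj _ _ this.1 hv this.2)
  refine ⟨β, ⟨h.T3, h'.T3, ⟨fun x hx => ?_, fun x hx y hy e => ?_, fun x hx => ?_⟩, fun a ha b hb => ?_⟩, k⟩
  · obtain ⟨v, hv, rfl⟩ := h.surj x hx
    exact k v hv ▸ h'.mem v hv
  · obtain ⟨v, hv, rfl⟩ := h.surj x hx
    obtain ⟨u, hu, rfl⟩ := h.surj y hy
    rw [k v hv, k u hu] at e
    exact h.eq_of_nrm hv hu (h'.inj _ _ hv hu e)
  · obtain ⟨v, hv, rfl⟩ := h'.surj x hx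
    exact ⟨_, h.mem v hv, k v hv⟩
  · obtain ⟨v, hv, rfl⟩ := h.surj a ha
    obtain ⟨u, hu, rfl⟩ := h.surj b hb
    rw [h.conj _ _ hv hu, k _ (iso_op hv hu), k v hv, k u hu, h'.conj _ _ hv hu]

theorem TL.par (h : TL E) : Par E := fun _ ha => h.partner ha

theorem TL.mu (h : TL E) : MU 6 E := by
  obtain ⟨⟨σ, m⟩, g⟩ := md_u 6 (by norm_num) (by norm_num)
  have m' : MU 6 (UT 6 K4) := ⟨σ, m⟩
  have f := fi_quot m.T3 m'.par
  obtain ⟨τ, l⟩ := h
  have g' := closure_image_top (QuotientGroup.mk' (center _)) (QuotientGroup.mk'_surjective _) g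
  obtain ⟨τ', l'⟩ : TL ((QuotientGroup.mk : _ → PSU 6 K4 2) '' UT 6 K4) := tl_psu K4.card ⟨f.t3'.t3, fun x d hd =>
    f.t3'.conj_mem (g'.ge (mem_top x)) d hd, g'⟩
  obtain ⟨β, b, -⟩ := l'.fi l
  exact b.mu (f.mu m')

/-- the centraliser of a point is generated by the points commuting with it -/
theorem Lab.cent [Finite G] (h : Lab τ E) (hE : closure E = ⊤) (h2 : ev τ cubeW = 1) {a g : G} (ha : a ∈ E)
    (hg : Commute g a) : g ∈ closure (perp E a) := by
  have cj : ∀ g : G, ∀ d ∈ E, g * d * g⁻¹ ∈ E := fun g => h.T3.conj_mem (hE ▸ mem_top g)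
  obtain ⟨k, hk, rfl⟩ := h.wl1 ha
  have h' := h.inn hk
  have i := h'.idxC (fun i => k * τ (lu i) * k⁻¹) (Z := {1}) rfl (by rw [ev_conj, h2]; simp) fun _ hw => hw
  rw [h'.clo9, hE, relIndex_top_right] at i
  have l1 : closure ((fun i => k * τ (lu i) * k⁻¹) '' Set.Iio 8) ≤ closure (perp E (k * τ 3 * k⁻¹)) :=
    closure_mono (by
      rintro _ ⟨i, hi, rfl⟩
      exact ⟨h'.mem _ (iso_lu i), (h'.comm 3 _ (by decide +kernel) (iso_lu i)).2
        ((by decide +kernel : ∀ i < 8, hc 3 (lu i) = 0) i hi)⟩)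
  have l2 : closure (perp E (k * τ 3 * k⁻¹)) ≤ centralizer {k * τ 3 * k⁻¹} := fun x hx =>
    mem_centralizer_singleton_iff.2 (comm_perp hx).eq
  have n := ncard_class cj (fun a ha b hb => (TL.conj ⟨τ, h⟩ ha hb).elim fun g e => isConj_iff.2 ⟨g, e.2⟩) ha
  rw [(TL.mu ⟨τ, h⟩).six] at n
  have e := relIndex_mul_index (l1.trans l2)
  rw [← n] at e
  have : (closure ((fun i => k * τ (lu i) * k⁻¹) '' Set.Iio 8)).relIndex (centralizer {k * τ 3 * k⁻¹}) = 1 := by
    omega
  exact l1 (relIndex_eq_one.1 this (mem_centralizer_singleton_iff.2 hg.eq))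

end H28
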